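import Mathlib
import Cfsg.Agent.Lib.Helper11.TwoComplement

/-!
# Brauer–Suzuki–Wall ladder, wave 3: rung DIH
Cyclic subgroups of index two in a dihedral group.
-/

set_option autoImplicit false

namespace Cfsg.Agent.Lib.Helper96.BSW

open Cfsg DihedralGroup Cfsg.Agent.Lib.Helper11

theorem dihSign_eq_one_iff {n : ℕ} (x : DihedralGroup n) :
    dihSign n x = 1 ↔ ∃ i, x = r i := by
  rcases x with i | i
  · simp [dihSign]
  · simp [dihSign]

theorem dih_rot_cyclic (n : ℕ) : IsCyclic (dihSign n).ker := by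
  refine ⟨⟨⟨r 1, by rw [MonoidHom.mem_ker, dihSign_eq_one_iff]; exact ⟨1, rfl⟩⟩, ?_⟩⟩
  rintro ⟨x, hx⟩
  rw [MonoidHom.mem_ker, dihSign_eq_one_iff] at hx
  obtain ⟨i, rfl⟩ := hx
  obtain ⟨k, hk⟩ := ZMod.intCast_surjective i
  refine ⟨k, ?_⟩
  apply Subtype.ext
  simp only [Subgroup.coe_zpow, r_one_zpow, hk]

theorem dih_rot_index (n : ℕ) : (dihSign n).ker.index = 2 := by
  rw [Subgroup.index_eq_two_iff]
  refine ⟨sr 0, fun b => ?_⟩
  rcases b with i | i
  · simp [MonoidHom.mem_ker, dihSign]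
  · simp [MonoidHom.mem_ker, dihSign]

theorem dih2_sq : ∀ x : DihedralGroup 2, x * x = 1 := by decide

theorem dih2_comm : ∀ x y : DihedralGroup 2, x * y = y * x := by decide

/-- abstract form of `dih_cyc_exists` -/
theorem dih_exists_aux (n : ℕ) (hn : 2 ≤ n) (z : DihedralGroup n) (hz : orderOf z = 2)
    (hzZ : ∀ s, s * z = z * s) :
    ∃ A : Subgroup (DihedralGroup n), IsCyclic A ∧ A.index = 2 ∧ z ∈ A := by
  rcases z with i | i
  · exact ⟨(dihSign n).ker, dih_rot_cyclic n, dih_rot_index n, by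
      rw [MonoidHom.mem_ker, dihSign_eq_one_iff]; exact ⟨i, rfl⟩⟩
  · have h := hzZ (r 1)
    rw [r_mul_sr, sr_mul_r] at h
    have h2 : ((2 : ℕ) : ZMod n) = 0 := by
      have h3 : i - 1 = i + 1 := by injection h
      have : (2 : ZMod n) = (i + 1) - (i - 1) := by ring
      push_cast
      rw [this, h3]; ring
    have h4 : n ∣ 2 := (ZMod.natCast_eq_zero_iff 2 n).1 h2
    have h5 : n = 2 := le_antisymm (Nat.le_of_dvd (by norm_num) h4) hn
    subst h5
    refine ⟨Subgroup.zpowers (sr i), inferInstance, ?_, Subgroup.mem_zpowers _⟩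
    have := Subgroup.card_mul_index (Subgroup.zpowers (sr i : DihedralGroup 2))
    rw [Nat.card_zpowers, hz, nat_card] at this
    omega

/-- abstract form of `dih_cyc_inverts` -/
theorem dih_inverts_aux (n : ℕ) (hn : 2 ≤ n) (A : Subgroup (DihedralGroup n)) (hA : IsCyclic A)
    (hidx : A.index = 2) :
    ∀ x, x ∉ A → orderOf x = 2 ∧ ∀ c ∈ A, x * c * x⁻¹ = c⁻¹ := by
  rcases hn.eq_or_lt with rfl | hn3
  · intro x hx
    have hx1 : x ≠ 1 := fun h => hx (h ▸ A.one_mem)
    refine ⟨orderOf_eq_prime (by rw [pow_two]; exact dih2_sq x) hx1, fun c _ => ?_⟩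
    rw [dih2_comm x c, mul_inv_cancel_right]
    exact eq_inv_of_mul_eq_one_left (dih2_sq c)
  · have hcard : Nat.card A = n := by
      have := A.card_mul_index
      rw [hidx, nat_card] at this
      omega
    obtain ⟨g, hg⟩ := hA.exists_generator
    have hog : orderOf g = n := by
      rw [orderOf_eq_card_of_forall_mem_zpowers hg, hcard]
    have hgs : dihSign n (g : DihedralGroup n) = 1 := by
      rw [dihSign_eq_one_iff]
      rcases hgv : (g : DihedralGroup n) with i | i
      · exact ⟨i, rfl⟩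
      · exfalso
        have : orderOf (g : DihedralGroup n) = 2 := by rw [hgv]; exact orderOf_sr i
        rw [Subgroup.orderOf_coe, hog] at this
        omega
    have hArot : ∀ a ∈ A, dihSign n a = 1 := by
      intro a ha
      obtain ⟨k, hk⟩ := hg ⟨a, ha⟩
      have : a = (g : DihedralGroup n) ^ k := by
        have := congrArg Subtype.val hk
        simpa using this.symm
      rw [this, map_zpow, hgs, one_zpow]
    have hsr : ∀ i : ZMod n, sr i ∉ A := by
      intro i hi
      have := hArot _ hi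
      rw [dihSign_eq_one_iff] at this
      obtain ⟨j, hj⟩ := this
      cases hj
    intro x hx
    rcases x with j | j
    · exfalso
      have := (Subgroup.mul_mem_iff_of_index_two hidx (a := r j) (b := sr 0)).2
        (iff_of_false hx (hsr 0))
      rw [r_mul_sr] at this
      exact hsr _ this
    · refine ⟨orderOf_sr j, fun c hc => ?_⟩
      obtain ⟨k, rfl⟩ := (dihSign_eq_one_iff c).1 (hArot c hc)
      rw [sr_mul_r, inv_sr, sr_mul_sr, inv_r]
      congr 1
      ring

theorem dih_cyc_exists {G : Type*} [Group G] (S : Subgroup G) (n : ℕ) (hn : 2 ≤ n)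
    (hS : Nonempty (S ≃* DihedralGroup n)) (t : G) (ht : orderOf t = 2)
    (htS : t ∈ S) (htZ : ∀ s ∈ S, s * t = t * s) :
    ∃ R : Subgroup G, R ≤ S ∧ IsCyclic R ∧ R.relIndex S = 2 ∧ t ∈ R := by
  obtain ⟨e⟩ := hS
  obtain ⟨A, hAc, hAi, hzA⟩ := dih_exists_aux n hn (e ⟨t, htS⟩)
    (by rw [MulEquiv.orderOf_eq, Subgroup.orderOf_mk, ht])
    (by
      intro s
      obtain ⟨s, rfl⟩ := e.surjective s
      rw [← map_mul, ← map_mul]
      congr 1
      exact Subtype.ext (htZ s s.2))
  have hsub : ((A.comap e.toMonoidHom).map S.subtype).subgroupOf S = A.comap e.toMonoidHom :=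
    Subgroup.comap_map_eq_self_of_injective S.subtype_injective _
  refine ⟨(A.comap e.toMonoidHom).map S.subtype, Subgroup.map_subtype_le _, ?_, ?_,
    ⟨⟨t, htS⟩, hzA, rfl⟩⟩
  · have h1 : IsCyclic (A.comap e.toMonoidHom) := by
      refine isCyclic_of_injective (e.toMonoidHom.subgroupComap A) ?_
      intro a b hab
      apply Subtype.ext
      apply e.injective
      exact congrArg Subtype.val hab
    exact isCyclic_of_surjective
      ((A.comap e.toMonoidHom).equivMapOfInjective S.subtype S.subtype_injective)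
      ((A.comap e.toMonoidHom).equivMapOfInjective S.subtype S.subtype_injective).surjective
  · rw [Subgroup.relIndex, hsub, Subgroup.index_comap_of_surjective _ e.surjective, hAi]

theorem dih_cyc_inverts {G : Type*} [Group G] (S : Subgroup G) (n : ℕ) (hn : 2 ≤ n)
    (hS : Nonempty (S ≃* DihedralGroup n)) (R : Subgroup G) (hRS : R ≤ S) (hR : IsCyclic R)
    (hidx : R.relIndex S = 2) :
    ∀ x ∈ S, x ∉ R → orderOf x = 2 ∧ ∀ c ∈ R, x * c * x⁻¹ = c⁻¹ := by
  obtain ⟨e⟩ := hS
  have hc1 : IsCyclic (R.subgroupOf S) :=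
    isCyclic_of_surjective (Subgroup.subgroupOfEquivOfLe hRS).symm
      (Subgroup.subgroupOfEquivOfLe hRS).symm.surjective
  have hc2 : IsCyclic ((R.subgroupOf S).map (e : S →* DihedralGroup n)) :=
    isCyclic_of_surjective
      ((R.subgroupOf S).equivMapOfInjective (e : S →* DihedralGroup n) e.injective)
      ((R.subgroupOf S).equivMapOfInjective (e : S →* DihedralGroup n) e.injective).surjective
  have hi : ((R.subgroupOf S).map (e : S →* DihedralGroup n)).index = 2 := by
    rw [Subgroup.index_map_equiv]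
    exact hidx
  have key := dih_inverts_aux n hn _ hc2 hi
  intro x hxS hxR
  have hx : e ⟨x, hxS⟩ ∉ (R.subgroupOf S).map (e : S →* DihedralGroup n) := by
    rintro ⟨y, hy, hye⟩
    have : y = ⟨x, hxS⟩ := e.injective hye
    rw [this] at hy
    exact hxR (Subgroup.mem_subgroupOf.1 hy)
  obtain ⟨h1, h2⟩ := key _ hx
  refine ⟨?_, fun c hc => ?_⟩
  · rw [MulEquiv.orderOf_eq, Subgroup.orderOf_mk] at h1
    exact h1
  · have h3 := h2 (e ⟨c, hRS hc⟩) ⟨⟨c, hRS hc⟩, Subgroup.mem_subgroupOf.2 hc, rfl⟩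
    rw [← map_inv, ← map_inv, ← map_mul, ← map_mul] at h3
    exact congrArg Subtype.val (e.injective h3)

end Cfsg.Agent.Lib.Helper96.BSW
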