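import Mathlib
import Cfsg.Agent.S0111
import Cfsg.Agent.Lib.Helper11.DihedralSylow

/-!
# Brauer–Suzuki–Wall ladder, wave 3: rung FUS
All involutions of a simple group whose Sylow 2-subgroup has a cyclic subgroup of index two are
conjugate.
-/

set_option autoImplicit false

namespace Cfsg.Agent.Lib.Helper96.BSW

open Cfsg

/-- every `2`-element is conjugate into a given Sylow `2`-subgroup -/
theorem invol_conj_into {G : Type*} [Group G] [Finite G] (S : Sylow 2 G) (s : G)
    (hs : orderOf s = 2) : ∃ g : G, g * s * g⁻¹ ∈ (S : Subgroup G) := by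
  have hp : IsPGroup 2 (Subgroup.zpowers s) := by
    refine IsPGroup.of_card (n := 1) ?_
    rw [Nat.card_zpowers, hs, pow_one]
  obtain ⟨P, hP⟩ := hp.exists_le_sylow
  obtain ⟨g, hg⟩ := MulAction.exists_smul_eq G P S
  refine ⟨g, ?_⟩
  rw [← hg, Sylow.coe_subgroup_smul]
  exact Subgroup.smul_mem_pointwise_smul s (MulAut.conj g) _ (hP (Subgroup.mem_zpowers s))

theorem invol_conj {G : Type*} [Group G] [Finite G] [IsSimpleGroup G] (S : Sylow 2 G)
    (R : Subgroup G) (hRS : R ≤ S) (hR : IsCyclic R) (hidx : R.relIndex (S : Subgroup G) = 2)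
    (t : G) (ht : orderOf t = 2) (htR : t ∈ R) : ∀ s : G, orderOf s = 2 → IsConj t s := by
  intro s hs
  have key : ∀ g : G, g * s * g⁻¹ ∈ R → IsConj t s := by
    intro g hg
    have ho : orderOf (g * s * g⁻¹) = 2 := by
      rw [← hs]
      exact orderOf_injective (MulAut.conj g).toMonoidHom (MulAut.conj g).injective s
    have := Cfsg.Agent.Lib.Helper11.eq_of_orderOf_two_of_mem_cyclic R hg htR ho ht
    exact (isConj_iff.2 ⟨g, this⟩).symm
  obtain ⟨g, hg⟩ := invol_conj_into S s hs
  by_cases hgR : g * s * g⁻¹ ∈ R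
  · exact key g hgR
  have ho : orderOf (g * s * g⁻¹) = 2 := by
    rw [← hs]
    exact orderOf_injective (MulAut.conj g).toMonoidHom (MulAut.conj g).injective s
  rcases Cfsg.Agent.S0111.result S R hRS hidx (g * s * g⁻¹) ho hg hgR with
    ⟨M, hM, hMi, -⟩ | ⟨h, hh⟩
  · exfalso
    rcases hM.eq_bot_or_eq_top with h | h
    · -- `|G| = 2`, but `|S| ≥ 4`
      rw [h, Subgroup.index_bot] at hMi
      have h1 : Nat.card R * 2 = Nat.card (S : Subgroup G) := by
        have := Subgroup.card_mul_index (R.subgroupOf (S : Subgroup G))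
        rw [Nat.card_congr (Subgroup.subgroupOfEquivOfLe hRS).toEquiv] at this
        rw [← this]
        congr 1
        exact hidx.symm
      have h2 : 2 ∣ Nat.card R := by
        rw [← ht]
        have := orderOf_dvd_natCard (⟨t, htR⟩ : R)
        rwa [Subgroup.orderOf_mk] at this
      have h3 : Nat.card (S : Subgroup G) ∣ Nat.card G := Subgroup.card_subgroup_dvd_card _
      have h4 : Nat.card (S : Subgroup G) ≤ 2 := by
        have := Nat.le_of_dvd Nat.card_pos h3
        omega
      have h5 : 2 ≤ Nat.card R := Nat.le_of_dvd Nat.card_pos h2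
      omega
    · rw [h, Subgroup.index_top] at hMi
      omega
  · refine key (h * g) ?_
    have : h * g * s * (h * g)⁻¹ = h * (g * s * g⁻¹) * h⁻¹ := by group
    rw [this]
    exact hh

end Cfsg.Agent.Lib.Helper96.BSW
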