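import Cfsg.Agent.Lib.Helper96.TSum

/-!
# Multiplicity-freeness and commutativity of the commutant
-/

set_option autoImplicit false
set_option linter.unusedSectionVars false

namespace Cfsg.Agent.Lib.Helper96

open Cfsg Representation
open Cfsg.Agent.Lib.Helper20 (opSum opSum_apply trace_opSum opSum_comm)
open scoped Classical
open scoped ComplexConjugate

section Comm

variable {G : Type*} [Group G] [Fintype G] {W : Type*} [AddCommGroup W] [Module ℂ W]
  (σ : Representation ℂ G W)

/-- Coefficient function of the central idempotent of `χ`. -/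
noncomputable def idemCoeff (χ : G → ℂ) : G → ℂ := fun g => χ 1 / (Nat.card G : ℂ) * χ g⁻¹

theorem opSum_comp (a b : G → ℂ) :
    opSum σ a ∘ₗ opSum σ b = opSum σ (fun x => ∑ g, a g * b (g⁻¹ * x)) := by
  ext w
  simp only [LinearMap.comp_apply, opSum_apply, map_sum, map_smul, Finset.sum_smul,
    Finset.smul_sum]
  conv_rhs => rw [Finset.sum_comm]
  conv_lhs => rw [Finset.sum_comm]
  refine Finset.sum_congr rfl fun g _ => ?_
  rw [← Equiv.sum_comp (Equiv.mulLeft g) (fun x => (a g * b (g⁻¹ * x)) • σ x w)]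
  refine Finset.sum_congr rfl fun h _ => ?_
  simp [mul_smul, map_mul, smul_comm (a g) (b h)]

theorem isClassFunction_idemCoeff {χ : G → ℂ} (hχ : IsClassFunction G χ) :
    IsClassFunction G (idemCoeff χ) := by
  intro g h
  unfold idemCoeff
  have : (h * g * h⁻¹)⁻¹ = h * g⁻¹ * h⁻¹ := by group
  rw [this, hχ]

theorem idem_comp {χ ψ : G → ℂ} (hχ : IsIrrCharacter G χ) (hψ : IsIrrCharacter G ψ) :
    opSum σ (idemCoeff χ) ∘ₗ opSum σ (idemCoeff ψ)
      = if χ = ψ then opSum σ (idemCoeff χ) else 0 := by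
  rw [opSum_comp]
  have hcl := Helper20.isClassFunction_of_isCharacter (Helper20.isCharacter_of_isIrrCharacter hψ)
  have hG : (Nat.card G : ℂ) ≠ 0 := Helper20.card_ne_zero_complex
  obtain ⟨n, hn, hn1⟩ := Helper83.isIrr_one hψ
  have hψ1 : ψ 1 ≠ 0 := by rw [hn1]; exact_mod_cast hn.ne'
  have key : ∀ x : G, ∑ g, idemCoeff χ g * idemCoeff ψ (g⁻¹ * x)
      = if χ = ψ then idemCoeff χ x else 0 := by
    intro x
    have h1 : ∀ g : G, idemCoeff χ g * idemCoeff ψ (g⁻¹ * x)
        = (χ 1 / (Nat.card G : ℂ) * (ψ 1 / (Nat.card G : ℂ))) * (χ g⁻¹ * ψ (g * x⁻¹)) := by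
      intro g
      unfold idemCoeff
      have h2 : (g⁻¹ * x)⁻¹ = x⁻¹ * (g * x⁻¹) * (x⁻¹)⁻¹ := by group
      rw [h2, hcl]
      ring
    rw [Finset.sum_congr rfl fun g _ => h1 g, ← Finset.mul_sum, Helper83.gen_orth hχ hψ]
    split_ifs with h
    · subst h
      unfold idemCoeff
      field_simp
    · simp
  simp only [key]
  split_ifs with h
  · rfl
  · simp [opSum]

theorem trace_idem {χ : G → ℂ} (hχ : IsCharacter G χ) :
    LinearMap.trace ℂ W (opSum σ (idemCoeff χ)) = χ 1 * classInner σ.character χ := by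
  rw [trace_opSum]
  unfold classInner idemCoeff
  rw [Finset.mul_sum, Finset.mul_sum]
  refine Finset.sum_congr rfl fun g _ => ?_
  rw [Helper20.isCharacter_inv hχ]
  ring

theorem comp_opSum_comm (a : G → ℂ) (T : W →ₗ[ℂ] W) (hT : ∀ g, T ∘ₗ σ g = σ g ∘ₗ T) :
    T ∘ₗ opSum σ a = opSum σ a ∘ₗ T := by
  ext w
  simp only [LinearMap.comp_apply, opSum_apply, map_sum, map_smul]
  refine Finset.sum_congr rfl fun g _ => ?_
  have := congrArg (fun f => f w) (hT g)
  simp only [LinearMap.comp_apply] at this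
  rw [this]

/-- Parseval. -/
theorem classInner_self_eq_sum [Fintype (IrrCharacter G)] {θ : G → ℂ} (hθ : IsClassFunction G θ) :
    classInner θ θ = ∑ χ : IrrCharacter G,
      classInner θ (χ : G → ℂ) * conj (classInner θ (χ : G → ℂ)) := by
  have hF := Helper20.eq_sum_classInner_smul (G := G) hθ
  conv_lhs => rw [hF]
  rw [Helper20.classInner_sum_left]
  refine Finset.sum_congr rfl fun χ _ => ?_
  rw [Helper20.classInner_smul_left, ← hF, Helper20.classInner_conj_symm]

/-- A multiplicity-free representation has commutative commutant. -/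
theorem commute_of_multFree [FiniteDimensional ℂ W]
    (hmf : ∀ χ : G → ℂ, IsIrrCharacter G χ →
      classInner σ.character χ = 0 ∨ classInner σ.character χ = 1)
    (S T : W →ₗ[ℂ] W) (hS : ∀ g, S ∘ₗ σ g = σ g ∘ₗ S) (hT : ∀ g, T ∘ₗ σ g = σ g ∘ₗ T) :
    S ∘ₗ T = T ∘ₗ S := by
  have : Finite (IrrCharacter G) := Helper20.finite_irrCharacter
  have : Fintype (IrrCharacter G) := Fintype.ofFinite _
  set E : {χ : IrrCharacter G // classInner σ.character (χ : G → ℂ) = 1} → IntertwiningMap σ σ :=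
    fun χ => ⟨opSum σ (idemCoeff (χ.1 : G → ℂ)), fun g => opSum_comm σ (isClassFunction_idemCoeff
      (Helper20.isClassFunction_of_isCharacter (Helper20.isCharacter_of_isIrrCharacter χ.1.2))) g⟩
    with hE
  have hEne : ∀ χ, (E χ).toLinearMap ≠ 0 := by
    intro χ h0
    have h1 := trace_idem σ (Helper20.isCharacter_of_isIrrCharacter χ.1.2)
    have h2 : opSum σ (idemCoeff (χ.1 : G → ℂ)) = 0 := h0
    rw [h2, map_zero, χ.2, mul_one] at h1
    obtain ⟨n, hn, hn1⟩ := Helper83.isIrr_one χ.1.2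
    rw [hn1] at h1
    have : n = 0 := by exact_mod_cast h1.symm
    omega
  have hlin : LinearIndependent ℂ E := by
    rw [linearIndependent_iff']
    intro s c hsum j hj
    have h1 := congrArg IntertwiningMap.toLinearMap hsum
    rw [IntertwiningMap.toLinearMap_sum] at h1
    have h2 := congrArg (fun X => (E j).toLinearMap ∘ₗ X) h1
    simp only [IntertwiningMap.toLinearMap_smul] at h2
    have h3 : (E j).toLinearMap ∘ₗ ∑ i ∈ s, c i • (E i).toLinearMap = c j • (E j).toLinearMap := by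
      have h4 : ∀ i ∈ s, (E j).toLinearMap ∘ₗ (c i • (E i).toLinearMap)
          = if i = j then c j • (E j).toLinearMap else 0 := by
        intro i _
        rw [LinearMap.comp_smul]
        have h5 : (E j).toLinearMap ∘ₗ (E i).toLinearMap
            = if (j.1 : G → ℂ) = (i.1 : G → ℂ) then (E j).toLinearMap else 0 :=
          idem_comp σ j.1.2 i.1.2
        rw [h5]
        by_cases hij : i = j
        · subst hij; simp
        · rw [if_neg hij, if_neg, smul_zero]
          intro h
          exact hij (Subtype.ext (Subtype.ext h.symm))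
      have h6 : (E j).toLinearMap ∘ₗ ∑ i ∈ s, c i • (E i).toLinearMap
          = ∑ i ∈ s, (E j).toLinearMap ∘ₗ (c i • (E i).toLinearMap) := by
        ext w
        simp [LinearMap.sum_apply, map_sum]
      rw [h6, Finset.sum_congr rfl h4, Finset.sum_ite_eq' s j, if_pos hj]
    rw [h3] at h2
    have h7 : c j • (E j).toLinearMap = 0 := by
      rw [h2]
      ext w
      simp
    exact (smul_eq_zero.1 h7).resolve_right (hEne j)
  have hcard : Fintype.card {χ : IrrCharacter G // classInner σ.character (χ : G → ℂ) = 1}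
      = Module.finrank ℂ (IntertwiningMap σ σ) := by
    have h1 := Helper20.classInner_char_eq_finrank σ σ
    rw [classInner_self_eq_sum (Helper20.isClassFunction_of_isCharacter
      (Helper20.isCharacter_of_rep σ))] at h1
    have h2 : ∀ χ : IrrCharacter G, classInner σ.character (χ : G → ℂ)
        * conj (classInner σ.character (χ : G → ℂ))
        = if classInner σ.character (χ : G → ℂ) = 1 then 1 else 0 := by
      intro χ
      rcases hmf χ χ.2 with h | h
      · rw [h]; simp
      · rw [h]; simp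
    rw [Finset.sum_congr rfl fun χ _ => h2 χ, Finset.sum_boole] at h1
    rw [Fintype.card_subtype]
    exact_mod_cast h1
  have hspan := hlin.span_eq_top_of_card_eq_finrank' hcard
  have hmem : (⟨S, hS⟩ : IntertwiningMap σ σ) ∈ Submodule.span ℂ (Set.range E) := by
    rw [hspan]; trivial
  have key : ∀ X ∈ Submodule.span ℂ (Set.range E),
      (X : IntertwiningMap σ σ).toLinearMap ∘ₗ T = T ∘ₗ X.toLinearMap := by
    intro X hX
    induction hX using Submodule.span_induction with
    | mem x hx =>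
      obtain ⟨χ, rfl⟩ := hx
      exact (comp_opSum_comm σ _ T hT).symm
    | zero =>
      ext w
      simp
    | add x y _ _ hx hy =>
      rw [IntertwiningMap.add_toLinearMap, LinearMap.add_comp, LinearMap.comp_add, hx, hy]
    | smul a x _ hx =>
      rw [IntertwiningMap.toLinearMap_smul, LinearMap.smul_comp, LinearMap.comp_smul, hx]
  exact key _ hmem

/-- A representation with commutative commutant is multiplicity-free. -/
theorem multFree_of_commute [FiniteDimensional ℂ W]
    (hcomm : ∀ S T : W →ₗ[ℂ] W, (∀ g, S ∘ₗ σ g = σ g ∘ₗ S) → (∀ g, T ∘ₗ σ g = σ g ∘ₗ T) →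
      S ∘ₗ T = T ∘ₗ S) (χ : G → ℂ) (hχ : IsIrrCharacter G χ) :
    classInner σ.character χ = 0 ∨ classInner σ.character χ = 1 := by
  obtain ⟨n, ρ, hρ, rfl⟩ := hχ
  rw [Helper20.classInner_char_eq_finrank ρ σ]
  by_contra hcon
  push Not at hcon
  have h1 : 1 < Module.finrank ℂ (IntertwiningMap ρ σ) := by
    have h0 : Module.finrank ℂ (IntertwiningMap ρ σ) ≠ 0 := by exact_mod_cast hcon.1
    have h1 : Module.finrank ℂ (IntertwiningMap ρ σ) ≠ 1 := by exact_mod_cast hcon.2
    omega
  have : Nontrivial (IntertwiningMap ρ σ) := Module.nontrivial_of_finrank_pos (R := ℂ) (by omega)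
  obtain ⟨φ₁, hφ₁0⟩ := exists_ne (0 : IntertwiningMap ρ σ)
  obtain ⟨φ₂, hind⟩ := exists_linearIndependent_pair_of_one_lt_finrank h1 hφ₁0
  have hinj : Function.Injective φ₁ := (IsIrreducible.injective_or_eq_zero φ₁).resolve_right hφ₁0
  obtain ⟨ψ₀, hψ₀⟩ := LinearMap.exists_leftInverse_of_injective φ₁.toLinearMap
    (LinearMap.ker_eq_bot.2 hinj)
  have hψ₀' : ∀ v, ψ₀ (φ₁ v) = v := fun v => congrArg (fun f => f v) hψ₀
  have hG : (Nat.card G : ℂ) ≠ 0 := Helper20.card_ne_zero_complex
  set ψ₁ : W →ₗ[ℂ] (Fin n → ℂ) := (Nat.card G : ℂ)⁻¹ • ∑ g : G, ρ g⁻¹ ∘ₗ ψ₀ ∘ₗ σ g with hψ₁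
  have hψ₁app : ∀ w, ψ₁ w = (Nat.card G : ℂ)⁻¹ • ∑ g : G, ρ g⁻¹ (ψ₀ (σ g w)) := by
    intro w
    simp [hψ₁, LinearMap.sum_apply]
  have hψ₁eq : ∀ h w, ψ₁ (σ h w) = ρ h (ψ₁ w) := by
    intro h w
    rw [hψ₁app, hψ₁app, map_smul, map_sum]
    congr 1
    rw [← Equiv.sum_comp (Equiv.mulRight h⁻¹)]
    refine Finset.sum_congr rfl fun g _ => ?_
    simp only [Equiv.coe_mulRight, mul_inv_rev, inv_inv, map_mul, Module.End.mul_apply]
    congr 3
    rw [← Module.End.mul_apply, ← map_mul]
    simp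
  have hψ₁φ₁ : ∀ v, ψ₁ (φ₁ v) = v := by
    intro v
    rw [hψ₁app]
    have : ∀ g : G, ρ g⁻¹ (ψ₀ (σ g (φ₁ v))) = v := by
      intro g
      rw [← φ₁.isIntertwining, hψ₀', ← Module.End.mul_apply, ← map_mul]
      simp
    rw [Finset.sum_congr rfl fun g _ => this g, Finset.sum_const, Finset.card_univ,
      ← Nat.card_eq_fintype_card, ← Nat.cast_smul_eq_nsmul ℂ, smul_smul, inv_mul_cancel₀ hG,
      one_smul]
  let X : IntertwiningMap ρ ρ := ⟨ψ₁ ∘ₗ φ₂.toLinearMap, by
    intro g
    ext v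
    simp only [LinearMap.comp_apply]
    rw [IntertwiningMap.toLinearMap_apply, IntertwiningMap.toLinearMap_apply, φ₂.isIntertwining,
      hψ₁eq]⟩
  obtain ⟨c, hc⟩ := (IsIrreducible.algebraMap_intertwiningMap_bijective_of_isAlgClosed
    (ρ := ρ)).2 X
  have hc' : ∀ v, ψ₁ (φ₂ v) = c • v := by
    intro v
    have h2 := congrArg (fun Y : IntertwiningMap ρ ρ => Y v) hc
    simp only [IntertwiningMap.algebraMap_apply] at h2
    exact h2.symm
  set φ' : (Fin n → ℂ) →ₗ[ℂ] W := φ₂.toLinearMap - c • φ₁.toLinearMap with hφ'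
  have hφ'app : ∀ v, φ' v = φ₂ v - c • φ₁ v := fun v => rfl
  have hφ'ne : φ' ≠ 0 := by
    intro h0
    have h2 := (LinearIndependent.pair_iff.1 hind) (-c) 1 (by
      apply IntertwiningMap.ext
      have : ((-c) • φ₁ + (1 : ℂ) • φ₂).toLinearMap = φ' := by
        rw [hφ', IntertwiningMap.add_toLinearMap, IntertwiningMap.toLinearMap_smul,
          IntertwiningMap.toLinearMap_smul, one_smul, neg_smul]
        abel
      rw [this, h0]
      rfl)
    exact one_ne_zero h2.2
  have hφ'eq : ∀ g v, φ' (ρ g v) = σ g (φ' v) := by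
    intro g v
    rw [hφ'app, hφ'app, φ₂.isIntertwining, φ₁.isIntertwining, map_sub, map_smul]
  have hψφ' : ∀ v, ψ₁ (φ' v) = 0 := by
    intro v
    rw [hφ'app, map_sub, map_smul, hc', hψ₁φ₁, sub_self]
  have hST := hcomm (φ' ∘ₗ ψ₁) (φ₁.toLinearMap ∘ₗ ψ₁)
    (by
      intro g; ext w
      simp only [LinearMap.comp_apply]
      rw [hψ₁eq, hφ'eq])
    (by
      intro g; ext w
      simp only [LinearMap.comp_apply]
      rw [hψ₁eq, IntertwiningMap.toLinearMap_apply, IntertwiningMap.toLinearMap_apply,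
        φ₁.isIntertwining])
  apply hφ'ne
  refine LinearMap.ext fun v => ?_
  have h3 := congrArg (fun f => f (φ₁ v)) hST
  simp only [LinearMap.comp_apply, IntertwiningMap.toLinearMap_apply, hψ₁φ₁, hψφ', map_zero] at h3
  rw [h3]
  rfl

end Comm

end Cfsg.Agent.Lib.Helper96
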