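import Cfsg.Agent.Lib.Helper78.FrobSchur

/-!
# The alternating and symmetric squares of a character are characters
-/

set_option autoImplicit false

namespace Cfsg.Agent.Lib.Helper96

open Cfsg Matrix
open scoped Kronecker

section Idem

variable {G : Type*} [Group G]

/-- The trace of a representation on the range of a commuting idempotent is a character. -/
theorem isCharacter_trace_mul_idem {V : Type*} [AddCommGroup V] [Module ℂ V]
    [FiniteDimensional ℂ V] (σ : Representation ℂ G V) (e : Module.End ℂ V) (he : e * e = e)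
    (hcomm : ∀ g, σ g * e = e * σ g) :
    IsCharacter G (fun g => LinearMap.trace ℂ V (σ g * e)) := by
  have hfix : ∀ w ∈ LinearMap.range e, e w = w := by
    rintro _ ⟨u, rfl⟩
    exact LinearMap.congr_fun he u
  let sub : Subrepresentation σ :=
    { toSubmodule := LinearMap.range e
      apply_mem_toSubmodule := by
        rintro g _ ⟨u, rfl⟩
        exact ⟨σ g u, (LinearMap.congr_fun (hcomm g) u).symm⟩ }
  have h1 := Helper20.isCharacter_of_rep sub.toRepresentation
  have h2 : sub.toRepresentation.character = fun g => LinearMap.trace ℂ V (σ g * e) := by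
    funext g
    have h3 : sub.toRepresentation g
        = e.rangeRestrict ∘ₗ (σ g ∘ₗ (LinearMap.range e).subtype) := by
      ext w
      show σ g w = e (σ g w)
      have : e (σ g w) = σ g (e w) := (LinearMap.congr_fun (hcomm g) w).symm
      rw [this, hfix w w.2]
    show LinearMap.trace ℂ _ (sub.toRepresentation g) = _
    rw [h3, LinearMap.trace_comp_comm']
    congr 1
  rw [← h2]
  exact h1

/-- Matrix form. -/
theorem isCharacter_trace_mul_idem_matrix {m : Type*} [Fintype m] [DecidableEq m]
    (Y : G → Matrix m m ℂ) (h1 : Y 1 = 1) (hmul : ∀ g h, Y (g * h) = Y g * Y h)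
    (E : Matrix m m ℂ) (hE : E * E = E) (hcomm : ∀ g, Y g * E = E * Y g) :
    IsCharacter G (fun g => (Y g * E).trace) := by
  let σ : Representation ℂ G (m → ℂ) :=
    { toFun := fun g => Matrix.toLin' (Y g)
      map_one' := by rw [h1, Matrix.toLin'_one]; rfl
      map_mul' := fun g h => by rw [hmul, Matrix.toLin'_mul]; rfl }
  have h := isCharacter_trace_mul_idem σ (Matrix.toLin' E)
    (by rw [Module.End.mul_eq_comp, ← Matrix.toLin'_mul, hE])
    (fun g => by
      show Matrix.toLin' (Y g) * Matrix.toLin' E = Matrix.toLin' E * Matrix.toLin' (Y g)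
      rw [Module.End.mul_eq_comp, Module.End.mul_eq_comp, ← Matrix.toLin'_mul, ← Matrix.toLin'_mul,
        hcomm])
  convert h using 2 with g
  show _ = LinearMap.trace ℂ _ (Matrix.toLin' (Y g) * Matrix.toLin' E)
  rw [Module.End.mul_eq_comp, ← Matrix.toLin'_mul, Matrix.trace_toLin'_eq]

end Idem

section Swap

variable {n : ℕ}

/-- The swap matrix on `Fin n × Fin n`. -/
def swapMat (n : ℕ) : Matrix (Fin n × Fin n) (Fin n × Fin n) ℂ :=
  Matrix.of fun a b => if a.1 = b.2 ∧ a.2 = b.1 then 1 else 0

theorem mul_swapMat (M : Matrix (Fin n × Fin n) (Fin n × Fin n) ℂ) (a b : Fin n × Fin n) :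
    (M * swapMat n) a b = M a (b.2, b.1) := by
  rw [Matrix.mul_apply, Finset.sum_eq_single (b.2, b.1)]
  · simp [swapMat]
  · intro c _ hc
    have : ¬ (c.1 = b.2 ∧ c.2 = b.1) := fun h => hc (Prod.ext h.1 h.2)
    simp [swapMat, this]
  · intro h
    exact absurd (Finset.mem_univ _) h

theorem swapMat_mul (M : Matrix (Fin n × Fin n) (Fin n × Fin n) ℂ) (a b : Fin n × Fin n) :
    (swapMat n * M) a b = M (a.2, a.1) b := by
  rw [Matrix.mul_apply, Finset.sum_eq_single (a.2, a.1)]
  · simp [swapMat]
  · intro c _ hc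
    have : ¬ (a.1 = c.2 ∧ a.2 = c.1) := fun h => hc (Prod.ext h.2.symm h.1.symm)
    simp [swapMat, this]
  · intro h
    exact absurd (Finset.mem_univ _) h

theorem swapMat_mul_self : swapMat n * swapMat n = 1 := by
  ext a b
  rw [mul_swapMat]
  by_cases h : a = b
  · subst h
    simp [swapMat]
  · rw [Matrix.one_apply_ne h]
    have : ¬ (a.1 = b.1 ∧ a.2 = b.2) := fun h' => h (Prod.ext h'.1 h'.2)
    simp [swapMat, this]

theorem kron_comm_swapMat (X : Matrix (Fin n) (Fin n) ℂ) :
    (X ⊗ₖ X) * swapMat n = swapMat n * (X ⊗ₖ X) := by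
  ext a b
  rw [mul_swapMat, swapMat_mul, Matrix.kroneckerMap_apply, Matrix.kroneckerMap_apply, mul_comm]

theorem trace_kron_mul_swapMat (X : Matrix (Fin n) (Fin n) ℂ) :
    ((X ⊗ₖ X) * swapMat n).trace = (X * X).trace := by
  unfold Matrix.trace
  rw [Fintype.sum_prod_type]
  refine Finset.sum_congr rfl fun i _ => ?_
  rw [Matrix.diag_apply, Matrix.mul_apply]
  refine Finset.sum_congr rfl fun j _ => ?_
  rw [Matrix.diag_apply, mul_swapMat, Matrix.kroneckerMap_apply]

end Swap

section Alt

variable {G : Type*} [Group G]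

/-- The alternating square of a character is a character. -/
theorem isCharacter_altSq {χ : G → ℂ} (hχ : IsCharacter G χ) :
    IsCharacter G (fun g => (χ g ^ 2 - χ (g * g)) / 2) := by
  obtain ⟨n, ρ, rfl⟩ := hχ
  have h := isCharacter_trace_mul_idem_matrix
    (fun g => Helper78.fsX ρ g ⊗ₖ Helper78.fsX ρ g)
    (by simp only [Helper78.fsX_one]; exact Matrix.kroneckerMap_one_one _ (by simp) (by simp) (by simp))
    (fun g h => by
      simp only [Helper78.fsX_mul]
      exact Matrix.mul_kronecker_mul _ _ _ _)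
    ((1 / 2 : ℂ) • (1 - swapMat n))
    (by
      rw [Matrix.smul_mul, Matrix.mul_smul, Matrix.sub_mul, Matrix.mul_sub, Matrix.mul_sub,
        swapMat_mul_self, Matrix.one_mul, Matrix.mul_one, Matrix.one_mul, smul_smul]
      have : (1 : Matrix (Fin n × Fin n) (Fin n × Fin n) ℂ) - swapMat n - (swapMat n - 1)
          = (2 : ℂ) • (1 - swapMat n) := by
        rw [two_smul]; abel
      rw [this, smul_smul]
      norm_num)
    (fun g => by
      rw [Matrix.mul_smul, Matrix.smul_mul, Matrix.mul_sub, Matrix.sub_mul, kron_comm_swapMat,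
        Matrix.mul_one, Matrix.one_mul])
  convert h using 2 with g
  rw [Matrix.mul_smul, Matrix.trace_smul, Matrix.mul_sub, Matrix.trace_sub, Matrix.mul_one,
    trace_kron_mul_swapMat, Matrix.trace_kronecker, ← Helper78.fsX_mul, Helper78.fsX_trace,
    Helper78.fsX_trace, smul_eq_mul]
  ring

/-- The symmetric square of a character is a character. -/
theorem isCharacter_symSq {χ : G → ℂ} (hχ : IsCharacter G χ) :
    IsCharacter G (fun g => (χ g ^ 2 + χ (g * g)) / 2) := by
  obtain ⟨n, ρ, rfl⟩ := hχ
  have h := isCharacter_trace_mul_idem_matrix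
    (fun g => Helper78.fsX ρ g ⊗ₖ Helper78.fsX ρ g)
    (by simp only [Helper78.fsX_one]; exact Matrix.kroneckerMap_one_one _ (by simp) (by simp) (by simp))
    (fun g h => by
      simp only [Helper78.fsX_mul]
      exact Matrix.mul_kronecker_mul _ _ _ _)
    ((1 / 2 : ℂ) • (1 + swapMat n))
    (by
      rw [Matrix.smul_mul, Matrix.mul_smul, Matrix.add_mul, Matrix.mul_add, Matrix.mul_add,
        swapMat_mul_self, Matrix.one_mul, Matrix.mul_one, Matrix.one_mul, smul_smul]
      have : (1 : Matrix (Fin n × Fin n) (Fin n × Fin n) ℂ) + swapMat n + (swapMat n + 1)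
          = (2 : ℂ) • (1 + swapMat n) := by
        rw [two_smul]; abel
      rw [this, smul_smul]
      norm_num)
    (fun g => by
      rw [Matrix.mul_smul, Matrix.smul_mul, Matrix.mul_add, Matrix.add_mul, kron_comm_swapMat,
        Matrix.mul_one, Matrix.one_mul])
  convert h using 2 with g
  rw [Matrix.mul_smul, Matrix.trace_smul, Matrix.mul_add, Matrix.trace_add, Matrix.mul_one,
    trace_kron_mul_swapMat, Matrix.trace_kronecker, ← Helper78.fsX_mul, Helper78.fsX_trace,
    Helper78.fsX_trace, smul_eq_mul]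
  ring

end Alt

end Cfsg.Agent.Lib.Helper96
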