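import Cfsg.Agent.Lib.Helper96.TwoP5

/-!
# A self-centralizing subgroup `⟨x⟩` of prime order whose normalizer has order `2p`
-/

set_option autoImplicit false
set_option linter.unusedSectionVars false

namespace Cfsg.Agent.Lib.Helper96

open Cfsg Subgroup
open scoped Classical
open scoped ComplexConjugate

section Dih

variable {G : Type*} [Group G] [Finite G] {p : ℕ}

theorem sq_mem_of_mem_nrm {x : G} (hx : orderOf x = p) (hp : p.Prime)
    (hN : Nat.card (nrm x) = 2 * p) {n : G} (hn : n ∈ nrm x) : n * n ∈ zpowers x := by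
  have h1 := ((zpowers x).subgroupOf (nrm x)).index_mul_card
  rw [hN, Nat.card_congr (Subgroup.subgroupOfEquivOfLe (zpowers_le_nrm x)).toEquiv,
    card_zpowers_eq hx] at h1
  have h2 : ((zpowers x).subgroupOf (nrm x)).index = 2 := Nat.eq_of_mul_eq_mul_right hp.pos h1
  have h3 := Subgroup.mul_self_mem_of_index_two (H := (zpowers x).subgroupOf (nrm x)) h2 ⟨n, hn⟩
  rw [Subgroup.mem_subgroupOf] at h3
  exact h3

theorem nrm_inverts (hp : p.Prime) {x : G} (hx : orderOf x = p)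
    (hcent : ∀ c : G, c * x = x * c → c ∈ zpowers x) (hN : Nat.card (nrm x) = 2 * p) {n : G}
    (hn : n ∈ nrm x) (hn' : n ∉ zpowers x) : n * x * n⁻¹ = x⁻¹ := by
  obtain ⟨k, hk⟩ := mem_zpowers_iff.1 (conj_mem_of_mem_nrm hn (mem_zpowers x))
  have h2 := sq_mem_of_mem_nrm hx hp hN hn
  have h3 : (n * n) * x * (n * n)⁻¹ = x := by
    rw [zpowers_comm h2 (mem_zpowers x)]
    group
  have h4 : (n * n) * x * (n * n)⁻¹ = x ^ (k * k) := by
    have : (n * n) * x * (n * n)⁻¹ = n * (n * x * n⁻¹) * n⁻¹ := by group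
    rw [this, ← hk, conj_zpow, ← hk, ← zpow_mul]
  rw [h3] at h4
  have h5 : (1 : ℤ) ≡ k * k [ZMOD (p : ℤ)] := by
    rw [← hx, ← zpow_eq_zpow_iff_modEq, zpow_one]
    exact h4
  have h6 : (p : ℤ) ∣ (k - 1) * (k + 1) := by
    have := h5.dvd
    have e : (k - 1) * (k + 1) = k * k - 1 := by ring
    rw [e]
    exact this
  rcases (Nat.prime_iff_prime_int.1 hp).dvd_or_dvd h6 with h7 | h7
  · exfalso
    apply hn'
    apply hcent
    have h8 : x ^ k = x ^ (1 : ℤ) := by
      rw [zpow_eq_zpow_iff_modEq, hx]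
      exact (Int.modEq_iff_dvd.2 h7).symm
    rw [zpow_one] at h8
    rw [h8] at hk
    calc n * x = n * x * n⁻¹ * n := by group
      _ = x * n := by rw [← hk]
  · have h8 : x ^ k = x ^ (-1 : ℤ) := by
      rw [zpow_eq_zpow_iff_modEq, hx]
      refine (Int.modEq_iff_dvd.2 ?_).symm
      have e : k - (-1) = k + 1 := by ring
      rw [e]
      exact h7
    rw [← hk, h8, zpow_neg_one]

theorem nrm_inverts_all (hp : p.Prime) {x : G} (hx : orderOf x = p)
    (hcent : ∀ c : G, c * x = x * c → c ∈ zpowers x) (hN : Nat.card (nrm x) = 2 * p) {n : G}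
    (hn : n ∈ nrm x) (hn' : n ∉ zpowers x) {y : G} (hy : y ∈ zpowers x) : n * y * n⁻¹ = y⁻¹ := by
  obtain ⟨k, rfl⟩ := mem_zpowers_iff.1 hy
  rw [conj_zpow, nrm_inverts hp hx hcent hN hn hn', inv_zpow]

theorem eq_one_of_mem_of_sq (hp : p.Prime) (hp2 : p ≠ 2) {x : G} (hx : orderOf x = p) {y : G}
    (hy : y ∈ zpowers x) (h : y * y = 1) : y = 1 := by
  by_contra hy1
  have h1 := orderOf_of_mem_zpowers hp hx hy hy1
  have h2 : orderOf y ∣ 2 := orderOf_dvd_of_pow_eq_one (by rw [pow_two]; exact h)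
  rw [h1] at h2
  exact hp2 ((Nat.prime_dvd_prime_iff_eq hp Nat.prime_two).1 h2)

theorem nrm_sq_eq_one (hp : p.Prime) (hp2 : p ≠ 2) {x : G} (hx : orderOf x = p)
    (hcent : ∀ c : G, c * x = x * c → c ∈ zpowers x) (hN : Nat.card (nrm x) = 2 * p) {n : G}
    (hn : n ∈ nrm x) (hn' : n ∉ zpowers x) : n * n = 1 := by
  have h2 := sq_mem_of_mem_nrm hx hp hN hn
  have h3 := nrm_inverts_all hp hx hcent hN hn hn' h2
  have h4 : n * (n * n) * n⁻¹ = n * n := by group
  rw [h4] at h3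
  refine eq_one_of_mem_of_sq hp hp2 hx h2 ?_
  calc n * n * (n * n) = (n * n)⁻¹ * (n * n) := by rw [← h3]
    _ = 1 := inv_mul_cancel _

theorem exists_nrm_not_mem (hp : p.Prime) {x : G} (hx : orderOf x = p)
    (hN : Nat.card (nrm x) = 2 * p) : ∃ n ∈ nrm x, n ∉ zpowers x := by
  by_contra hcon
  push Not at hcon
  have h1 : nrm x ≤ zpowers x := hcon
  have h2 := Subgroup.card_le_of_le h1
  rw [hN, card_zpowers_eq hx] at h2
  have := hp.pos
  omega

theorem class_inv_of_mem (hp : p.Prime) {x : G} (hx : orderOf x = p)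
    (hcent : ∀ c : G, c * x = x * c → c ∈ zpowers x) (hN : Nat.card (nrm x) = 2 * p)
    {ψ : G → ℂ} (hψ : IsClassFunction G ψ) {y : G} (hy : y ∈ zpowers x) : ψ y⁻¹ = ψ y := by
  obtain ⟨n, hn, hn'⟩ := exists_nrm_not_mem hp hx hN
  rw [← nrm_inverts_all hp hx hcent hN hn hn' hy, hψ]

theorem mem_nrm_of_inverts (hp : p.Prime) (hp2 : p ≠ 2) {x : G} (hx : orderOf x = p) {y s : G}
    (hy : y ∈ zpowers x) (hy1 : y ≠ 1) (hs : s * y * s⁻¹ = y⁻¹) :
    s ∈ nrm x ∧ s ∉ zpowers x := by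
  constructor
  · have h1 : s⁻¹ ∈ nrm x := by
      refine mem_nrm_of_conj_mem hp hx hy hy1 ?_
      rw [inv_inv, hs]
      exact inv_mem hy
    simpa using inv_mem h1
  · intro h
    apply hy1
    refine eq_one_of_mem_of_sq hp hp2 hx hy ?_
    have h1 : s * y * s⁻¹ = y := by
      rw [zpowers_comm h hy]; group
    rw [h1] at hs
    calc y * y = y⁻¹ * y := by rw [← hs]
      _ = 1 := inv_mul_cancel _

/-- For `z` in the normalizer, `z⁻¹ y z` is `y` or `y⁻¹`. -/
theorem nrm_conj_cases (hp : p.Prime) {x : G} (hx : orderOf x = p)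
    (hcent : ∀ c : G, c * x = x * c → c ∈ zpowers x) (hN : Nat.card (nrm x) = 2 * p) {z : G}
    (hz : z ∈ nrm x) {y : G} (hy : y ∈ zpowers x) : z⁻¹ * y * z = y ∨ z⁻¹ * y * z = y⁻¹ := by
  by_cases hz' : z ∈ zpowers x
  · left
    rw [mul_assoc, zpowers_comm hy hz']
    group
  · right
    have h1 := nrm_inverts_all hp hx hcent hN (inv_mem hz) (fun h => hz' (by simpa using inv_mem h)) hy
    rwa [inv_inv] at h1

end Dih

end Cfsg.Agent.Lib.Helper96
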