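import Cfsg.Agent.Lib.Helper96.Exc1
import Cfsg.Agent.Lib.Helper32.GenChar
import Cfsg.Agent.Lib.Helper4.CharConj
import Cfsg.Agent.Lib.Helper82.Linear

/-!
# Exceptional characters for a self-centralizing `⟨x⟩` of prime order with `|N(⟨x⟩)| = 2p`
-/

set_option autoImplicit false
set_option linter.unusedSectionVars false

namespace Cfsg.Agent.Lib.Helper96

open Cfsg Subgroup
open scoped Classical
open scoped ComplexConjugate

section Sing

variable {G : Type*} [Group G] [Fintype G] {p : ℕ}

/-- `g` is conjugate to a nontrivial power of `x`. -/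
def sing (x g : G) : Prop := g ≠ 1 ∧ ∃ z : G, z⁻¹ * g * z ∈ zpowers x

theorem indP_apply_of_not_sing {x : G} {f : G → ℂ} (hf1 : f 1 = 0) {g : G} (hg : ¬ sing x g) :
    indP x f g = 0 := by
  unfold indP
  rw [Finset.sum_eq_zero, mul_zero]
  intro z _
  by_cases h1 : g = 1
  · subst h1
    simp [hf1]
  · rw [if_neg]
    intro h
    exact hg ⟨h1, z, h⟩

theorem indP_apply_of_mem' (hp : p.Prime) {x : G} (hx : orderOf x = p) {f : G → ℂ}
    (hf : ∀ z ∈ nrm x, ∀ y ∈ zpowers x, f (z⁻¹ * y * z) = f y) (hf1 : f 1 = 0) {y : G}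
    (hy : y ∈ zpowers x) : indP x f y = f y := by
  unfold indP
  by_cases hy1 : y = 1
  · subst hy1
    simp [hf1]
  · have h1 : ∀ z : G, (if z⁻¹ * y * z ∈ zpowers x then f (z⁻¹ * y * z) else 0)
        = if z ∈ nrm x then f y * 1 else 0 := by
      intro z
      by_cases hz : z ∈ nrm x
      · have h3 : z⁻¹ * y * z ∈ zpowers x := by
          have := conj_mem_of_mem_nrm (inv_mem hz) hy
          rwa [inv_inv] at this
        rw [if_pos hz, if_pos h3, hf z hz y hy, mul_one]
      · rw [if_neg hz, if_neg]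
        intro h3
        exact hz (mem_nrm_of_conj_mem hp hx hy hy1 h3)
    rw [Finset.sum_congr rfl fun z _ => h1 z]
    have h4 : (∑ z : G, if z ∈ nrm x then f y * 1 else 0) = ksum (nrm x) (fun _ => f y * 1) := rfl
    rw [h4, ksum_mul_left, ksum_one]
    have := card_ne_zero_of_subgroup (nrm x)
    field_simp

/-- Extension by zero of a function on `⟨x⟩`. -/
noncomputable def extP (x : G) (φ : zpowers x → ℂ) : G → ℂ :=
  fun g => if h : g ∈ zpowers x then φ ⟨g, h⟩ else 0

theorem extP_coe {x : G} (φ : zpowers x → ℂ) (k : zpowers x) : extP x φ k = φ k := by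
  unfold extP
  rw [dif_pos k.2]

theorem extP_of_mem {x : G} (φ : zpowers x → ℂ) {g : G} (h : g ∈ zpowers x) :
    extP x φ g = φ ⟨g, h⟩ := by
  unfold extP
  rw [dif_pos h]

theorem ksum_extP {x : G} (φ : zpowers x → ℂ) (ψ : G → ℂ) :
    ksum (zpowers x) (fun g => extP x φ g * conj (ψ g))
      = (Nat.card (zpowers x) : ℂ) * classInner φ (fun k : zpowers x => ψ k) := by
  rw [ksum_eq_sum_subtype]
  unfold classInner
  rw [← mul_assoc, mul_inv_cancel₀ (card_ne_zero_of_subgroup _), one_mul]
  refine Finset.sum_congr rfl fun k _ => ?_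
  rw [extP_coe]

theorem classInner_indP_extP {x : G} (hx : orderOf x = p) (hp : p.Prime)
    (hN : Nat.card (nrm x) = 2 * p) (φ : zpowers x → ℂ) {ψ : G → ℂ} (hψ : IsClassFunction G ψ) :
    classInner (indP x (extP x φ)) ψ = classInner φ (fun k : zpowers x => ψ k) / 2 := by
  rw [classInner_indP x _ hψ, ksum_extP, hN, card_zpowers_eq hx]
  have hp0 : (p : ℂ) ≠ 0 := by exact_mod_cast hp.ne_zero
  push_cast
  field_simp

end Sing

section PChar

variable {G : Type*} [Group G] [Fintype G] {p : ℕ} {x : G}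

/-- The function `2 - μ - μ̄` on `⟨x⟩`. -/
noncomputable def phiE (μ : zpowers x → ℂ) : zpowers x → ℂ := fun k => 2 - μ k - conj (μ k)

theorem zp_comm (a b : zpowers x) : a * b = b * a := Subtype.ext (zpowers_comm a.2 b.2)

theorem mu_one {μ : zpowers x → ℂ} (hμ : IsIrrCharacter (zpowers x) μ) : μ 1 = 1 :=
  irr_deg_one_of_comm zp_comm hμ

theorem phiE_one {μ : zpowers x → ℂ} (hμ : IsIrrCharacter (zpowers x) μ) : phiE μ 1 = 0 := by
  unfold phiE
  rw [mu_one hμ]
  simp
  norm_num

theorem phiE_inv {μ : zpowers x → ℂ} (hμ : IsIrrCharacter (zpowers x) μ) (k : zpowers x) :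
    phiE μ k⁻¹ = phiE μ k := by
  unfold phiE
  rw [Helper20.isCharacter_inv (Helper20.isCharacter_of_isIrrCharacter hμ), Complex.conj_conj]
  ring

theorem mu_conj_ne (hp : p.Prime) (hp2 : p ≠ 2) (hx : orderOf x = p) {μ : zpowers x → ℂ}
    (hμ : IsIrrCharacter (zpowers x) μ) (hμ1 : μ ≠ fun _ => 1) : (fun k => conj (μ k)) ≠ μ := by
  intro h
  apply hμ1
  funext k
  have hc := Helper20.isCharacter_of_isIrrCharacter hμ
  have h1 := mu_one hμ
  have h2 : μ k * μ k = 1 := by
    have h3 := Helper82.isChar_linear_mul_conj hc h1 k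
    rwa [congrFun h k] at h3
  have h4 : μ k ^ p = 1 := by
    rw [← Helper82.isChar_linear_pow hc h1]
    have : k ^ p = 1 := by
      have := pow_card_eq_one' (x := k)
      rwa [card_zpowers_eq hx] at this
    rw [this, h1]
  obtain ⟨m, hm⟩ := hp.odd_of_ne_two hp2
  rw [hm, pow_succ, pow_mul, pow_two, h2, one_pow, one_mul] at h4
  exact h4

theorem mu_conj_ne_one {μ : zpowers x → ℂ} (hμ1 : μ ≠ fun _ => 1) :
    (fun k => conj (μ k)) ≠ fun _ => 1 := by
  intro h
  apply hμ1
  funext k
  have := congrArg conj (congrFun h k)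
  simpa using this

theorem classInner_phiE_left (μ ψ : zpowers x → ℂ) :
    classInner (phiE μ) ψ = 2 * classInner (fun _ => 1) ψ - classInner μ ψ
      - classInner (fun k => conj (μ k)) ψ := by
  have : phiE μ = (2 : ℂ) • (fun _ => (1 : ℂ)) - μ - (fun k => conj (μ k)) := by
    ext k; simp [phiE]
  rw [this, Helper20.classInner_sub_left, Helper20.classInner_sub_left,
    Helper20.classInner_smul_left]

theorem classInner_phiE_right (μ ψ : zpowers x → ℂ) :
    classInner ψ (phiE μ) = 2 * classInner ψ (fun _ => 1) - classInner ψ μ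
      - classInner ψ (fun k => conj (μ k)) := by
  have : phiE μ = (2 : ℂ) • (fun _ => (1 : ℂ)) - μ - (fun k => conj (μ k)) := by
    ext k; simp [phiE]
  rw [this, Helper20.classInner_sub_right, Helper20.classInner_sub_right,
    Helper20.classInner_smul_right, map_ofNat]

theorem classInner_phiE_one {μ : zpowers x → ℂ} (hμ : IsIrrCharacter (zpowers x) μ)
    (hμ1 : μ ≠ fun _ => 1) : classInner (phiE μ) (fun _ => 1) = 2 := by
  rw [classInner_phiE_left, Helper20.classInner_irr_self Helper83.isIrr_trivial,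
    Helper20.classInner_irr_ne hμ Helper83.isIrr_trivial hμ1,
    Helper20.classInner_irr_ne (Helper4.isIrrCharacter_conj hμ) Helper83.isIrr_trivial
      (mu_conj_ne_one hμ1)]
  ring

theorem classInner_phiE_self (hp : p.Prime) (hp2 : p ≠ 2) (hx : orderOf x = p)
    {μ : zpowers x → ℂ} (hμ : IsIrrCharacter (zpowers x) μ) (hμ1 : μ ≠ fun _ => 1) :
    classInner (phiE μ) (phiE μ) = 6 := by
  have hb := Helper4.isIrrCharacter_conj hμ
  have hne := mu_conj_ne hp hp2 hx hμ hμ1
  rw [classInner_phiE_left, classInner_phiE_right, classInner_phiE_right, classInner_phiE_right,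
    Helper20.classInner_irr_self Helper83.isIrr_trivial,
    Helper20.classInner_irr_ne hμ Helper83.isIrr_trivial hμ1,
    Helper20.classInner_irr_ne hb Helper83.isIrr_trivial (mu_conj_ne_one hμ1),
    Helper20.classInner_irr_ne Helper83.isIrr_trivial hμ hμ1.symm,
    Helper20.classInner_irr_ne Helper83.isIrr_trivial hb (mu_conj_ne_one hμ1).symm,
    Helper20.classInner_irr_self hμ, Helper20.classInner_irr_self hb,
    Helper20.classInner_irr_ne hμ hb hne.symm, Helper20.classInner_irr_ne hb hμ hne]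
  ring

/-- If `ψ` is invariant under inversion then `μ` and `μ̄` have the same multiplicity in `ψ`. -/
theorem classInner_conj_of_inv {μ : zpowers x → ℂ} (hμ : IsIrrCharacter (zpowers x) μ)
    {ψ : zpowers x → ℂ} (hψ : ∀ k, ψ k⁻¹ = ψ k) :
    classInner (fun k => conj (μ k)) ψ = classInner μ ψ := by
  unfold classInner
  congr 1
  refine Fintype.sum_equiv (Equiv.inv _) _ _ ?_
  intro k
  rw [Equiv.inv_apply, hψ, Helper20.isCharacter_inv (Helper20.isCharacter_of_isIrrCharacter hμ)]

end PChar

section Exc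

variable {G : Type*} [Group G] [Fintype G] {p : ℕ} {x : G}

/-- A class function with integral multiplicities is a generalized character. -/
theorem genChar_of_int {f : G → ℂ} (hf : IsClassFunction G f)
    (h : ∀ ψ : G → ℂ, IsIrrCharacter G ψ → ∃ n : ℤ, classInner f ψ = n) :
    IsGeneralizedCharacter G f := by
  have := Helper20.finite_irrCharacter (G := G)
  have := Fintype.ofFinite (IrrCharacter G)
  rw [Helper20.eq_sum_classInner_smul hf]
  refine Helper32.genChar_sum _ _ fun χ _ => ?_
  obtain ⟨n, hn⟩ := h χ χ.2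
  rw [hn]
  exact Helper32.genChar_intCast_smul (Helper32.genChar_of_irr χ.2) n

/-- The class function of `G` induced from `2 - μ - μ̄`. -/
noncomputable def indE (x : G) (μ : zpowers x → ℂ) : G → ℂ := indP x (extP x (phiE μ))

theorem isClassFunction_indE (μ : zpowers x → ℂ) : IsClassFunction G (indE x μ) :=
  isClassFunction_indP x _

theorem classInner_indE (hp : p.Prime) (hx : orderOf x = p) (hN : Nat.card (nrm x) = 2 * p)
    (μ : zpowers x → ℂ) {ψ : G → ℂ} (hψ : IsClassFunction G ψ) :
    classInner (indE x μ) ψ = classInner (phiE μ) (fun k : zpowers x => ψ k) / 2 :=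
  classInner_indP_extP hx hp hN _ hψ

theorem extP_phiE_one {μ : zpowers x → ℂ} (hμ : IsIrrCharacter (zpowers x) μ) :
    extP x (phiE μ) 1 = 0 := by
  rw [extP_of_mem _ (one_mem _)]
  exact phiE_one hμ

theorem indE_of_not_sing {μ : zpowers x → ℂ} (hμ : IsIrrCharacter (zpowers x) μ) {g : G}
    (hg : ¬ sing x g) : indE x μ g = 0 :=
  indP_apply_of_not_sing (extP_phiE_one hμ) hg

theorem indE_of_mem (hp : p.Prime) (hx : orderOf x = p)
    (hcent : ∀ c : G, c * x = x * c → c ∈ zpowers x) (hN : Nat.card (nrm x) = 2 * p)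
    {μ : zpowers x → ℂ} (hμ : IsIrrCharacter (zpowers x) μ) (k : zpowers x) :
    indE x μ k = phiE μ k := by
  unfold indE
  rw [indP_apply_of_mem' hp hx ?_ (extP_phiE_one hμ) k.2, extP_coe]
  intro z hz y hy
  rcases nrm_conj_cases hp hx hcent hN hz hy with h | h
  · rw [h]
  · rw [h, extP_of_mem _ (inv_mem hy), extP_of_mem _ hy]
    exact phiE_inv hμ ⟨y, hy⟩

theorem classInner_indE_int (hp : p.Prime) (hx : orderOf x = p)
    (hcent : ∀ c : G, c * x = x * c → c ∈ zpowers x) (hN : Nat.card (nrm x) = 2 * p)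
    {μ : zpowers x → ℂ} (hμ : IsIrrCharacter (zpowers x) μ) {ψ : G → ℂ} (hψ : IsCharacter G ψ) :
    ∃ n : ℤ, classInner (indE x μ) ψ = n := by
  have hcl := Helper20.isClassFunction_of_isCharacter hψ
  have hres := Helper20.isCharacter_restrict hψ (zpowers x)
  obtain ⟨a, ha⟩ := Helper20.isCharacter_classInner_nat' Helper20.isCharacter_one hres
  obtain ⟨b, hb⟩ := Helper20.isCharacter_classInner_nat'
    (Helper20.isCharacter_of_isIrrCharacter hμ) hres
  refine ⟨a - b, ?_⟩
  rw [classInner_indE hp hx hN μ hcl, classInner_phiE_left,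
    classInner_conj_of_inv hμ (fun k => class_inv_of_mem hp hx hcent hN hcl k.2), hb]
  have ha' : classInner (fun _ : zpowers x => (1 : ℂ)) (fun k : zpowers x => ψ k) = a := ha
  rw [ha']
  push_cast
  ring

theorem genChar_indE (hp : p.Prime) (hx : orderOf x = p)
    (hcent : ∀ c : G, c * x = x * c → c ∈ zpowers x) (hN : Nat.card (nrm x) = 2 * p)
    {μ : zpowers x → ℂ} (hμ : IsIrrCharacter (zpowers x) μ) :
    IsGeneralizedCharacter G (indE x μ) :=
  genChar_of_int (isClassFunction_indE μ) fun _ hψ =>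
    classInner_indE_int hp hx hcent hN hμ (Helper20.isCharacter_of_isIrrCharacter hψ)

theorem classInner_indE_one (hp : p.Prime) (hx : orderOf x = p) (hN : Nat.card (nrm x) = 2 * p)
    {μ : zpowers x → ℂ} (hμ : IsIrrCharacter (zpowers x) μ) (hμ1 : μ ≠ fun _ => 1) :
    classInner (indE x μ) (fun _ => 1) = 1 := by
  rw [classInner_indE hp hx hN μ
    (Helper20.isClassFunction_of_isCharacter (Helper20.isCharacter_of_isIrrCharacter
      Helper83.isIrr_trivial)), classInner_phiE_one hμ hμ1]
  norm_num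

/-- Inner product with a class function that is constant on the nontrivial powers of `x`. -/
theorem classInner_indE_const (hp : p.Prime) (hx : orderOf x = p)
    (hN : Nat.card (nrm x) = 2 * p) {μ : zpowers x → ℂ} (hμ : IsIrrCharacter (zpowers x) μ)
    (hμ1 : μ ≠ fun _ => 1) {ψ : G → ℂ} (hψ : IsClassFunction G ψ) {c : ℂ}
    (hc : ∀ y ∈ zpowers x, y ≠ 1 → ψ y = c) : classInner (indE x μ) ψ = conj c := by
  rw [classInner_indE hp hx hN μ hψ]
  have h1 : classInner (phiE μ) (fun k : zpowers x => ψ k)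
      = classInner (phiE μ) (c • fun _ : zpowers x => (1 : ℂ)) := by
    unfold classInner
    congr 1
    refine Finset.sum_congr rfl fun k _ => ?_
    by_cases hk : k = 1
    · subst hk
      rw [phiE_one hμ, zero_mul, zero_mul]
    · have h2 : (fun k : zpowers x => ψ k) k = c := hc k k.2 (fun h => hk (Subtype.ext h))
      rw [h2]
      simp
  rw [h1, Helper20.classInner_smul_right, classInner_phiE_one hμ hμ1]
  ring

theorem classInner_indE_self (hp : p.Prime) (hp2 : p ≠ 2) (hx : orderOf x = p)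
    (hcent : ∀ c : G, c * x = x * c → c ∈ zpowers x) (hN : Nat.card (nrm x) = 2 * p)
    {μ : zpowers x → ℂ} (hμ : IsIrrCharacter (zpowers x) μ) (hμ1 : μ ≠ fun _ => 1) :
    classInner (indE x μ) (indE x μ) = 3 := by
  rw [classInner_indE hp hx hN μ (isClassFunction_indE μ)]
  have : (fun k : zpowers x => indE x μ k) = phiE μ := by
    funext k
    exact indE_of_mem hp hx hcent hN hμ k
  rw [this, classInner_phiE_self hp hp2 hx hμ hμ1]
  norm_num

/-- The exceptional character attached to `μ`. -/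
noncomputable def excChar (x : G) (χ₁ : G → ℂ) (μ : zpowers x → ℂ) : G → ℂ :=
  fun g => χ₁ g - 1 + indE x μ g

theorem excChar_eq (χ₁ : G → ℂ) (μ : zpowers x → ℂ) :
    excChar x χ₁ μ = χ₁ - (fun _ => 1) + indE x μ := rfl

theorem isIrr_excChar (hp : p.Prime) (hp3 : 3 ≤ p) (hx : orderOf x = p)
    (hcent : ∀ c : G, c * x = x * c → c ∈ zpowers x) (hN : Nat.card (nrm x) = 2 * p)
    {χ₁ : G → ℂ} (h₁ : IsIrrCharacter G χ₁) (hne : χ₁ ≠ fun _ => 1) (hd : χ₁ 1 = (p : ℂ) - 1)
    (hv : ∀ y ∈ zpowers x, y ≠ 1 → χ₁ y = -1)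
    {μ : zpowers x → ℂ} (hμ : IsIrrCharacter (zpowers x) μ) (hμ1 : μ ≠ fun _ => 1) :
    IsIrrCharacter G (excChar x χ₁ μ) := by
  have hp2 : p ≠ 2 := by omega
  have hcl₁ := Helper20.isClassFunction_of_isCharacter (Helper20.isCharacter_of_isIrrCharacter h₁)
  have hgen : IsGeneralizedCharacter G (excChar x χ₁ μ) := by
    rw [excChar_eq]
    exact Helper32.genChar_add (Helper32.genChar_sub (Helper32.genChar_of_irr h₁)
      (Helper32.genChar_of_irr Helper83.isIrr_trivial)) (genChar_indE hp hx hcent hN hμ)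
  have e1 := classInner_indE_one hp hx hN hμ hμ1
  have e2 : classInner (indE x μ) χ₁ = -1 := by
    rw [classInner_indE_const hp hx hN hμ hμ1 hcl₁ hv]
    simp
  have e3 := classInner_indE_self hp hp2 hx hcent hN hμ hμ1
  have e1' : classInner (fun _ => 1) (indE x μ) = 1 := by
    rw [← Helper20.classInner_conj_symm, e1, map_one]
  have e2' : classInner χ₁ (indE x μ) = -1 := by
    rw [← Helper20.classInner_conj_symm, e2]
    simp
  have hnorm : classInner (excChar x χ₁ μ) (excChar x χ₁ μ) = 1 := by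
    rw [excChar_eq]
    simp only [Helper20.classInner_add_left, Helper20.classInner_add_right,
      Helper20.classInner_sub_left, Helper20.classInner_sub_right]
    rw [Helper20.classInner_irr_self h₁, Helper20.classInner_irr_self Helper83.isIrr_trivial,
      Helper20.classInner_irr_ne h₁ Helper83.isIrr_trivial hne,
      Helper20.classInner_irr_ne Helper83.isIrr_trivial h₁ hne.symm, e1, e2, e3, e1', e2']
    ring
  rcases Helper32.genChar_norm_one hgen hnorm with h | h
  · exact h
  · exfalso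
    obtain ⟨n, hn, hn1⟩ := Helper32.irr_apply_one h
    have h1 : excChar x χ₁ μ 1 = (p : ℂ) - 2 := by
      unfold excChar
      rw [hd, indE_of_not_sing hμ (fun h => h.1 rfl)]
      ring
    rw [Pi.neg_apply, h1] at hn1
    have h2 : ((n + p : ℕ) : ℂ) = ((2 : ℕ) : ℂ) := by
      push_cast
      linear_combination -hn1
    have h3 : n + p = 2 := by exact_mod_cast h2
    omega

end Exc

end Cfsg.Agent.Lib.Helper96
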