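import Cfsg.Agent.Lib.Helper96.Exc2
import Cfsg.Agent.Lib.Helper96.AltSq
import Cfsg.Agent.Lib.Helper4.CharDecomp
import Cfsg.Agent.Lib.Helper20.CharColumn

/-!
# The alternating square of `χ₁` is the sum of the exceptional characters
-/

set_option autoImplicit false
set_option linter.unusedSectionVars false

namespace Cfsg.Agent.Lib.Helper96

open Cfsg Subgroup
open scoped Classical
open scoped ComplexConjugate

section Const

variable {G : Type*} [Group G] [Fintype G]

/-- A character whose degree is at most the sum of the degrees of a set of constituents is the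
sum of these constituents. -/
theorem char_eq_sum_of_constituents [Fintype (IrrCharacter G)] {Ψ : G → ℂ} (hΨ : IsCharacter G Ψ)
    (S : Finset (IrrCharacter G)) {d D : ℕ} (hd : ∀ ψ ∈ S, (ψ : G → ℂ) 1 = d)
    (hS : ∀ ψ ∈ S, classInner Ψ (ψ : G → ℂ) ≠ 0) (hD : Ψ 1 = D) (hle : D ≤ S.card * d) :
    Ψ = (fun g => ∑ ψ ∈ S, (ψ : G → ℂ) g) ∧ D = S.card * d := by
  obtain ⟨m, hm, hdec⟩ := Helper4.char_eq_sum_nat_irr hΨ
  have hdeg : ∀ ψ : IrrCharacter G, ∃ n : ℕ, 0 < n ∧ (ψ : G → ℂ) 1 = n :=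
    fun ψ => Helper83.isIrr_one ψ.2
  choose deg hdeg0 hdeg1 using hdeg
  have hD' : D = ∑ ψ : IrrCharacter G, m ψ * deg ψ := by
    have h1 := congrFun hdec 1
    rw [hD, Finset.sum_apply] at h1
    simp only [Pi.smul_apply, smul_eq_mul, hdeg1] at h1
    exact_mod_cast h1
  have hSd : ∑ ψ : IrrCharacter G, (if ψ ∈ S then 1 else 0) * deg ψ = S.card * d := by
    simp only [ite_mul, one_mul, zero_mul]
    rw [Finset.sum_ite_mem, Finset.univ_inter, Finset.sum_congr rfl (g := fun _ => d),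
      Finset.sum_const, smul_eq_mul]
    intro ψ hψ
    have := hd ψ hψ
    rw [hdeg1] at this
    exact_mod_cast this
  have hterm : ∀ ψ ∈ (Finset.univ : Finset (IrrCharacter G)),
      (if ψ ∈ S then 1 else 0) * deg ψ ≤ m ψ * deg ψ := by
    intro ψ _
    refine Nat.mul_le_mul_right _ ?_
    split_ifs with h
    · have h1 := hS ψ h
      rw [hm] at h1
      have : m ψ ≠ 0 := fun h0 => h1 (by rw [h0]; simp)
      omega
    · exact Nat.zero_le _
  have hsum_le := Finset.sum_le_sum hterm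
  have hsum_eq : ∑ ψ : IrrCharacter G, (if ψ ∈ S then 1 else 0) * deg ψ
      = ∑ ψ : IrrCharacter G, m ψ * deg ψ := by
    rw [hSd, ← hD'] at hsum_le ⊢
    omega
  have hm' : ∀ ψ : IrrCharacter G, m ψ = if ψ ∈ S then 1 else 0 := by
    intro ψ
    have := (Finset.sum_eq_sum_iff_of_le hterm).1 hsum_eq ψ (Finset.mem_univ _)
    exact (Nat.eq_of_mul_eq_mul_right (hdeg0 ψ) this).symm
  constructor
  · rw [hdec]
    funext g
    rw [Finset.sum_apply]
    simp only [Pi.smul_apply, smul_eq_mul, hm', Nat.cast_ite, Nat.cast_one, Nat.cast_zero,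
      ite_mul, one_mul, zero_mul]
    rw [Finset.sum_ite_mem, Finset.univ_inter]
  · rw [hD', ← hsum_eq, hSd]

end Const

section CountP

variable {G : Type*} [Group G] [Fintype G] {p : ℕ} {x : G}

theorem card_irr_zpowers [Fintype (IrrCharacter (zpowers x))] (hx : orderOf x = p) :
    Fintype.card (IrrCharacter (zpowers x)) = p := by
  have h1 := Helper20.sum_irr_mul_conj (1 : zpowers x) 1
  rw [if_pos (IsConj.refl _)] at h1
  have h2 : ∀ χ : IrrCharacter (zpowers x),
      (χ : zpowers x → ℂ) 1 * conj ((χ : zpowers x → ℂ) 1) = 1 := by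
    intro χ
    rw [mu_one χ.2]
    simp
  rw [Finset.sum_congr rfl fun χ _ => h2 χ, Finset.sum_const, Finset.card_univ] at h1
  have h3 : Subgroup.centralizer ({1} : Set (zpowers x)) = ⊤ := by
    rw [eq_top_iff]
    intro k _
    rw [Subgroup.mem_centralizer_iff]
    intro h hh
    rw [Set.mem_singleton_iff.1 hh]
    simp
  rw [h3, Subgroup.card_top, card_zpowers_eq hx] at h1
  simp only [nsmul_eq_mul, mul_one] at h1
  exact_mod_cast h1

end CountP

section K

variable {G : Type*} [Group G] [Fintype G] {p : ℕ} {x : G}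

theorem excChar_eq_imp (hp : p.Prime) (hx : orderOf x = p)
    (hcent : ∀ c : G, c * x = x * c → c ∈ zpowers x) (hN : Nat.card (nrm x) = 2 * p)
    {χ₁ : G → ℂ} {μ μ' : zpowers x → ℂ} (hμ : IsIrrCharacter (zpowers x) μ)
    (hμ' : IsIrrCharacter (zpowers x) μ') (h : excChar x χ₁ μ = excChar x χ₁ μ') :
    μ = μ' ∨ (fun k => conj (μ k)) = μ' := by
  have h1 : phiE μ = phiE μ' := by
    funext k
    have := congrFun h k
    unfold excChar at this
    rw [indE_of_mem hp hx hcent hN hμ, indE_of_mem hp hx hcent hN hμ'] at this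
    linear_combination this
  by_contra hcon
  push Not at hcon
  have hb := Helper4.isIrrCharacter_conj hμ
  have hb' := Helper4.isIrrCharacter_conj hμ'
  have e1 := classInner_phiE_left μ μ'
  have e2 := classInner_phiE_left μ' μ'
  obtain ⟨n, hn⟩ := Helper20.isCharacter_classInner_nat
    (Helper20.isCharacter_of_isIrrCharacter hb') hμ'
  rw [h1, e2, Helper20.classInner_irr_self hμ', Helper20.classInner_irr_ne hμ hμ' hcon.1,
    Helper20.classInner_irr_ne hb hμ' hcon.2, hn] at e1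
  have h2 : ((n + 1 : ℕ) : ℂ) = 0 := by
    push_cast
    linear_combination -e1
  exact absurd (by exact_mod_cast h2 : n + 1 = 0) (Nat.succ_ne_zero n)

/-- The key identity coming from `Λ²χ₁ = ∑ Θ`. -/
theorem altSq_identity (hp : p.Prime) (hp3 : 3 ≤ p) (hx : orderOf x = p)
    (hcent : ∀ c : G, c * x = x * c → c ∈ zpowers x) (hN : Nat.card (nrm x) = 2 * p)
    {χ₁ : G → ℂ} (h₁ : IsIrrCharacter G χ₁) (hne : χ₁ ≠ fun _ => 1) (hd : χ₁ 1 = (p : ℂ) - 1)
    (hv : ∀ y ∈ zpowers x, y ≠ 1 → χ₁ y = -1) (hreal : ∀ g, conj (χ₁ g) = χ₁ g)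
    (hnu : Helper78.fsNu χ₁ = 1) {g : G} (hg : ¬ sing x g) :
    χ₁ g ^ 2 - χ₁ (g * g) = ((p : ℂ) - 1) * (χ₁ g - 1) := by
  have hp2 : p ≠ 2 := by omega
  have hc₁ := Helper20.isCharacter_of_isIrrCharacter h₁
  have hΨ := isCharacter_altSq hc₁
  have hΨcl := Helper20.isClassFunction_of_isCharacter hΨ
  have := Helper20.finite_irrCharacter (G := G)
  have := Fintype.ofFinite (IrrCharacter G)
  have := Helper20.finite_irrCharacter (G := zpowers x)
  have := Fintype.ofFinite (IrrCharacter (zpowers x))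
  obtain ⟨m, hm⟩ := hp.odd_of_ne_two hp2
  have hm1 : 1 ≤ m := by omega
  -- values of the alternating square
  have hΨP : ∀ y ∈ zpowers x, y ≠ 1 → (fun g => (χ₁ g ^ 2 - χ₁ (g * g)) / 2) y = 1 := by
    intro y hy hy1
    have hyy : y * y ≠ 1 := fun h => hy1 (eq_one_of_mem_of_sq hp hp2 hx hy h)
    show (χ₁ y ^ 2 - χ₁ (y * y)) / 2 = 1
    rw [hv y hy hy1, hv (y * y) (mul_mem hy hy) hyy]
    norm_num
  have hΨ1 : classInner (fun g => (χ₁ g ^ 2 - χ₁ (g * g)) / 2) (fun _ => 1) = 0 := by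
    have e1 := Helper20.classInner_irr_self h₁
    unfold classInner at e1 ⊢
    unfold Helper78.fsNu at hnu
    have e2 : ∑ g : G, (χ₁ g ^ 2 - χ₁ (g * g)) / 2 * conj (1 : ℂ)
        = (∑ g : G, χ₁ g * conj (χ₁ g) - ∑ g : G, χ₁ (g * g)) / 2 := by
      rw [← Finset.sum_sub_distrib, Finset.sum_div]
      refine Finset.sum_congr rfl fun g _ => ?_
      rw [hreal, map_one]
      ring
    rw [e2]
    linear_combination (1 / 2 : ℂ) * e1 - (1 / 2 : ℂ) * hnu
  obtain ⟨b, hb⟩ := Helper20.isCharacter_classInner_nat hΨ h₁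
  -- the map to the exceptional characters
  let triv : IrrCharacter (zpowers x) := ⟨fun _ => 1, Helper83.isIrr_trivial⟩
  let f : IrrCharacter (zpowers x) → IrrCharacter G := fun μ =>
    if h : (μ : zpowers x → ℂ) ≠ fun _ => 1 then
      ⟨excChar x χ₁ μ, isIrr_excChar hp hp3 hx hcent hN h₁ hne hd hv μ.2 h⟩
    else ⟨fun _ => 1, Helper83.isIrr_trivial⟩
  have hf : ∀ μ : IrrCharacter (zpowers x), μ ≠ triv → (f μ : G → ℂ) = excChar x χ₁ μ := by
    intro μ hμ
    have h : (μ : zpowers x → ℂ) ≠ fun _ => 1 := fun h => hμ (Subtype.ext h)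
    simp only [f, dif_pos h]
  have hTcard : ((Finset.univ : Finset (IrrCharacter (zpowers x))).erase triv).card = 2 * m := by
    rw [Finset.card_erase_of_mem (Finset.mem_univ _), Finset.card_univ, card_irr_zpowers hx, hm]
    omega
  have hfib : ((Finset.univ : Finset (IrrCharacter (zpowers x))).erase triv).card
      ≤ 2 * (((Finset.univ : Finset (IrrCharacter (zpowers x))).erase triv).image f).card := by
    refine Finset.card_le_mul_card_image _ 2 ?_
    intro ψ hψ
    obtain ⟨μ₀, hμ₀, rfl⟩ := Finset.mem_image.1 hψ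
    have hμ₀' := Finset.ne_of_mem_erase hμ₀
    refine le_trans (Finset.card_le_card (t := {μ₀, ⟨fun k => conj ((μ₀ : zpowers x → ℂ) k),
      Helper4.isIrrCharacter_conj μ₀.2⟩}) ?_) Finset.card_le_two
    intro μ hμ
    rw [Finset.mem_filter] at hμ
    have hμ' := Finset.ne_of_mem_erase hμ.1
    have h1 : excChar x χ₁ (μ₀ : zpowers x → ℂ) = excChar x χ₁ (μ : zpowers x → ℂ) := by
      rw [← hf μ₀ hμ₀', ← hf μ hμ', hμ.2]
    rw [Finset.mem_insert, Finset.mem_singleton]
    rcases excChar_eq_imp hp hx hcent hN μ₀.2 μ.2 h1 with h2 | h2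
    · left
      exact Subtype.ext h2.symm
    · right
      exact Subtype.ext h2.symm
  have hScard : m ≤ (((Finset.univ : Finset (IrrCharacter (zpowers x))).erase triv).image f).card := by
    omega
  have hval : ∀ ψ ∈ ((Finset.univ : Finset (IrrCharacter (zpowers x))).erase triv).image f,
      ∀ k : G, ¬ sing x k → (ψ : G → ℂ) k = χ₁ k - 1 := by
    intro ψ hψ k hk
    obtain ⟨μ₀, hμ₀, rfl⟩ := Finset.mem_image.1 hψ
    rw [hf μ₀ (Finset.ne_of_mem_erase hμ₀)]
    unfold excChar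
    rw [indE_of_not_sing μ₀.2 hk, add_zero]
  have hone : ¬ sing x (1 : G) := fun h => h.1 rfl
  have hA : ∀ ψ ∈ ((Finset.univ : Finset (IrrCharacter (zpowers x))).erase triv).image f,
      (ψ : G → ℂ) 1 = ((2 * m - 1 : ℕ) : ℂ) := by
    intro ψ hψ
    rw [hval ψ hψ 1 hone, hd, hm]
    have : 1 ≤ 2 * m := by omega
    push_cast [Nat.cast_sub this]
    ring
  have hB : ∀ ψ ∈ ((Finset.univ : Finset (IrrCharacter (zpowers x))).erase triv).image f,
      classInner (fun g => (χ₁ g ^ 2 - χ₁ (g * g)) / 2) (ψ : G → ℂ) ≠ 0 := by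
    intro ψ hψ
    obtain ⟨μ₀, hμ₀, rfl⟩ := Finset.mem_image.1 hψ
    have hμ₀' := Finset.ne_of_mem_erase hμ₀
    have hμ₀1 : (μ₀ : zpowers x → ℂ) ≠ fun _ => 1 := fun h => hμ₀' (Subtype.ext h)
    rw [hf μ₀ hμ₀', excChar_eq, Helper20.classInner_add_right, Helper20.classInner_sub_right, hb,
      hΨ1, ← Helper20.classInner_conj_symm (indE x _),
      classInner_indE_const hp hx hN μ₀.2 hμ₀1 hΨcl hΨP]
    simp only [map_one, sub_zero]
    exact_mod_cast Nat.succ_ne_zero b
  have hC : (fun g => (χ₁ g ^ 2 - χ₁ (g * g)) / 2) 1 = ((m * (2 * m - 1) : ℕ) : ℂ) := by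
    show (χ₁ 1 ^ 2 - χ₁ (1 * 1)) / 2 = _
    rw [mul_one, hd, hm]
    have : 1 ≤ 2 * m := by omega
    push_cast [Nat.cast_sub this]
    ring
  obtain ⟨hdec, hDeq⟩ := char_eq_sum_of_constituents hΨ _ hA hB hC (Nat.mul_le_mul_right _ hScard)
  have hS' : (((Finset.univ : Finset (IrrCharacter (zpowers x))).erase triv).image f).card = m := by
    have : 0 < 2 * m - 1 := by omega
    exact (Nat.eq_of_mul_eq_mul_right this hDeq).symm
  have h2 : (χ₁ g ^ 2 - χ₁ (g * g)) / 2
      = ∑ ψ ∈ ((Finset.univ : Finset (IrrCharacter (zpowers x))).erase triv).image f,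
        (ψ : G → ℂ) g := congrFun hdec g
  rw [Finset.sum_congr rfl fun ψ hψ => hval ψ hψ g hg, Finset.sum_const, hS', nsmul_eq_mul] at h2
  rw [hm]
  push_cast
  linear_combination 2 * h2

end K

end Cfsg.Agent.Lib.Helper96
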