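import Cfsg.Agent.Lib.Helper96.Exc3
import Cfsg.Agent.Lib.Helper82.ClassSum

/-!
# The order formula `|G| = p (p-1) (p-2)`
-/

set_option autoImplicit false
set_option linter.unusedSectionVars false

namespace Cfsg.Agent.Lib.Helper96

open Cfsg Subgroup
open scoped Classical
open scoped ComplexConjugate

section SingFacts

variable {G : Type*} [Group G] [Fintype G] {p : ℕ} {x : G}

theorem sing_of_mem {y : G} (hy : y ∈ zpowers x) (hy1 : y ≠ 1) : sing x y :=
  ⟨hy1, 1, by simpa using hy⟩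

theorem class_const_of_sing {ψ : G → ℂ} (hψ : IsClassFunction G ψ) {c : ℂ}
    (hc : ∀ y ∈ zpowers x, y ≠ 1 → ψ y = c) {g : G} (hg : sing x g) : ψ g = c := by
  obtain ⟨h1, z, hz⟩ := hg
  have h2 : ψ (z⁻¹ * g * z) = ψ g := by
    have := hψ g z⁻¹
    rwa [inv_inv] at this
  rw [← h2]
  refine hc _ hz ?_
  intro h
  apply h1
  have : g = z * (z⁻¹ * g * z) * z⁻¹ := by group
  rw [this, h]
  group

theorem not_sing_of_sq (hp : p.Prime) (hp2 : p ≠ 2) (hx : orderOf x = p) {g : G}
    (hg : g * g = 1) : ¬ sing x g := by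
  rintro ⟨h1, z, hz⟩
  apply h1
  have h2 : (z⁻¹ * g * z) * (z⁻¹ * g * z) = 1 := by
    have : (z⁻¹ * g * z) * (z⁻¹ * g * z) = z⁻¹ * (g * g) * z := by group
    rw [this, hg]
    group
  have h3 := eq_one_of_mem_of_sq hp hp2 hx hz h2
  have : g = z * (z⁻¹ * g * z) * z⁻¹ := by group
  rw [this, h3]
  group

/-- The number of elements conjugate to a nontrivial power of `x`. -/
theorem count_sing (hp : p.Prime) (hx : orderOf x = p) (hN : Nat.card (nrm x) = 2 * p) :
    2 * (p : ℂ) * (∑ g : G, if sing x g then (1 : ℂ) else 0) = ((p : ℂ) - 1) * (Nat.card G : ℂ) := by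
  have hf₀ : IsClassFunction G (fun g : G => if g = 1 then (0 : ℂ) else 1) := by
    intro g h
    have : h * g * h⁻¹ = 1 ↔ g = 1 := by
      constructor
      · intro e
        have : g = h⁻¹ * (h * g * h⁻¹) * h := by group
        rw [this, e]; group
      · rintro rfl; group
    simp only [this]
  have h1 : indP x (fun g : G => if g = 1 then (0 : ℂ) else 1)
      = fun g => if sing x g then (1 : ℂ) else 0 := by
    funext g
    by_cases hg : sing x g
    · rw [if_pos hg]
      refine class_const_of_sing (isClassFunction_indP x _) ?_ hg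
      intro y hy hy1
      rw [indP_apply_of_mem hp hx hf₀ (by simp) hy, if_neg hy1]
    · rw [if_neg hg]
      exact indP_apply_of_not_sing (by simp) hg
  have h2 := classInner_indP x (fun g : G => if g = 1 then (0 : ℂ) else 1)
    (Helper20.isClassFunction_of_isCharacter (Helper20.isCharacter_of_isIrrCharacter
      (Helper83.isIrr_trivial (G := G))))
  rw [h1] at h2
  have h3 : ksum (zpowers x) (fun g => (if g = 1 then (0 : ℂ) else 1) * conj (1 : ℂ))
      = (p : ℂ) - 1 := by
    rw [ksum_of_const (c := 1)]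
    · rw [card_zpowers_eq hx]; simp
    · intro y _ hy1
      simp [hy1]
  rw [h3, hN] at h2
  unfold classInner at h2
  simp only [map_one, mul_one] at h2
  have hG : (Nat.card G : ℂ) ≠ 0 := Helper20.card_ne_zero_complex
  have hp0 : (p : ℂ) ≠ 0 := by exact_mod_cast hp.ne_zero
  push_cast at h2
  field_simp at h2
  linear_combination h2

end SingFacts

section Values

variable {G : Type*} [Group G] [Fintype G]

/-- The hypotheses of the order formula. -/
structure ExcData (p : ℕ) (x : G) (χ₁ : G → ℂ) : Prop where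
  hp : p.Prime
  hp5 : 5 ≤ p
  hx : orderOf x = p
  hcent : ∀ c : G, c * x = x * c → c ∈ zpowers x
  hN : Nat.card (nrm x) = 2 * p
  h₁ : IsIrrCharacter G χ₁
  hne : χ₁ ≠ fun _ => 1
  hd : χ₁ 1 = (p : ℂ) - 1
  hv : ∀ y ∈ zpowers x, y ≠ 1 → χ₁ y = -1
  hint : ∀ g, ∃ n : ℤ, χ₁ g = n
  hnu : Helper78.fsNu χ₁ = 1
  hfaith : ∀ g, χ₁ g = χ₁ 1 → g = 1

variable {p : ℕ} {x : G} {χ₁ : G → ℂ}

theorem ExcData.hp2 (D : ExcData p x χ₁) : p ≠ 2 := by
  have := D.hp5
  omega

theorem ExcData.hreal (D : ExcData p x χ₁) (g : G) : conj (χ₁ g) = χ₁ g := by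
  obtain ⟨n, hn⟩ := D.hint g
  rw [hn]
  simp

theorem ExcData.hcl (D : ExcData p x χ₁) : IsClassFunction G χ₁ :=
  Helper20.isClassFunction_of_isCharacter (Helper20.isCharacter_of_isIrrCharacter D.h₁)

theorem ExcData.key (D : ExcData p x χ₁) {g : G} (hg : ¬ sing x g) :
    χ₁ g ^ 2 - χ₁ (g * g) = ((p : ℂ) - 1) * (χ₁ g - 1) :=
  altSq_identity D.hp (by have := D.hp5; omega) D.hx D.hcent D.hN D.h₁ D.hne D.hd D.hv D.hreal
    D.hnu hg

theorem ExcData.le_deg (D : ExcData p x χ₁) {g : G} {n : ℤ} (hn : χ₁ g = n) :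
    n ≤ (p : ℤ) - 1 := by
  have h1 := Helper20.isCharacter_norm_le (Helper20.isCharacter_of_isIrrCharacter D.h₁) g
  rw [D.hd, hn] at h1
  have h2 : ((p : ℂ) - 1).re = (p : ℝ) - 1 := by simp
  rw [h2] at h1
  have h3 : ‖((n : ℤ) : ℂ)‖ = |(n : ℝ)| := by
    rw [← Complex.ofReal_intCast, Complex.norm_real, Real.norm_eq_abs]
  rw [h3] at h1
  have h4 : (n : ℝ) ≤ (p : ℝ) - 1 := le_trans (le_abs_self _) h1
  exact_mod_cast h4

/-- Values at non-singular elements are non-negative, and zero only for `g * g = 1`. -/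
theorem ExcData.value_nonneg (D : ExcData p x χ₁) {g : G} (hg : ¬ sing x g) {n : ℤ}
    (hn : χ₁ g = n) : 0 ≤ n ∧ (n = 0 → g * g = 1) := by
  obtain ⟨w, hw⟩ := D.hint (g * g)
  have hk := D.key hg
  rw [hn, hw] at hk
  have hk' : n ^ 2 - w = ((p : ℤ) - 1) * (n - 1) := by exact_mod_cast hk
  have hw' := D.le_deg hw
  have hp5 : (5 : ℤ) ≤ p := by exact_mod_cast D.hp5
  constructor
  · by_contra hneg
    push Not at hneg
    nlinarith
  · intro h0
    apply D.hfaith
    rw [hw, D.hd]
    rw [h0] at hk'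
    have : w = (p : ℤ) - 1 := by linarith
    rw [this]
    push_cast
    ring

/-- Involutions have value `0`. -/
theorem ExcData.value_invol (D : ExcData p x χ₁) {g : G} (hg : g * g = 1) (hg1 : g ≠ 1) :
    χ₁ g = 0 := by
  obtain ⟨n, hn⟩ := D.hint g
  have hk := D.key (not_sing_of_sq D.hp D.hp2 D.hx hg)
  rw [hg, D.hd, hn] at hk
  have hk' : n ^ 2 - ((p : ℤ) - 1) = ((p : ℤ) - 1) * (n - 1) := by exact_mod_cast hk
  have h1 : n * (n - ((p : ℤ) - 1)) = 0 := by linarith
  rcases mul_eq_zero.1 h1 with h2 | h2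
  · rw [hn, h2]; simp
  · exfalso
    apply hg1
    apply D.hfaith
    rw [hn, D.hd]
    have : n = (p : ℤ) - 1 := by linarith
    rw [this]
    push_cast
    ring

end Values

section Invol

variable {G : Type*} [Group G] [Fintype G]

/-- Indicator function of the involutions. -/
noncomputable def invI (g : G) : ℂ := if g * g = 1 ∧ g ≠ 1 then 1 else 0

theorem invI_conj : IsClassFunction G (invI (G := G)) := by
  intro g a
  unfold invI
  have h1 : a * g * a⁻¹ * (a * g * a⁻¹) = 1 ↔ g * g = 1 := by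
    have e : a * g * a⁻¹ * (a * g * a⁻¹) = a * (g * g) * a⁻¹ := by group
    rw [e]
    constructor
    · intro h
      have : g * g = a⁻¹ * (a * (g * g) * a⁻¹) * a := by group
      rw [this, h]; group
    · intro h
      rw [h]; group
  have h2 : a * g * a⁻¹ = 1 ↔ g = 1 := by
    constructor
    · intro h
      have : g = a⁻¹ * (a * g * a⁻¹) * a := by group
      rw [this, h]; group
    · rintro rfl; group
  simp only [h1, ne_eq, h2]

theorem invI_real (g : G) : conj (invI g) = invI g := by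
  unfold invI
  split_ifs <;> simp

theorem sum_class_mul {i : G → ℂ} (hi : IsClassFunction G i) {χ : G → ℂ}
    (hχ : IsIrrCharacter G χ) (t : G) :
    ∑ s : G, i s * χ (s * t) = (∑ s : G, i s * χ s) * χ t / χ 1 := by
  have hG : (Nat.card G : ℂ) ≠ 0 := Helper20.card_ne_zero_complex
  have h1 : ∀ a : G, ∑ s : G, i s * χ (a * s * a⁻¹ * t) = ∑ s : G, i s * χ (s * t) := by
    intro a
    refine Fintype.sum_equiv (MulAut.conj a).toEquiv _ _ ?_
    intro s
    show i s * χ (a * s * a⁻¹ * t) = i (a * s * a⁻¹) * χ (a * s * a⁻¹ * t)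
    rw [hi]
  have h2 : (Nat.card G : ℂ) * ∑ s : G, i s * χ (s * t)
      = ∑ a : G, ∑ s : G, i s * χ (a * s * a⁻¹ * t) := by
    rw [Finset.sum_congr rfl (fun a _ => h1 a), Finset.sum_const, Finset.card_univ, nsmul_eq_mul,
      Nat.card_eq_fintype_card]
  rw [Finset.sum_comm] at h2
  have h3 : ∀ s : G, ∑ a : G, i s * χ (a * s * a⁻¹ * t)
      = (Nat.card G : ℂ) * (i s * χ s * χ t / χ 1) := by
    intro s
    rw [← Finset.mul_sum, Helper82.isIrr_sum_conj_mul hχ]
    ring
  rw [Finset.sum_congr rfl (fun s _ => h3 s), ← Finset.mul_sum] at h2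
  have h4 := mul_left_cancel₀ hG h2
  rw [h4, Finset.sum_mul, Finset.sum_div]

theorem sum_sum_class_mul {i : G → ℂ} (hi : IsClassFunction G i) {χ : G → ℂ}
    (hχ : IsIrrCharacter G χ) :
    ∑ t : G, ∑ s : G, i s * i t * χ (s * t) = (∑ s : G, i s * χ s) ^ 2 / χ 1 := by
  have h1 : ∀ t : G, ∑ s : G, i s * i t * χ (s * t)
      = (∑ s : G, i s * χ s) / χ 1 * (i t * χ t) := by
    intro t
    have : ∑ s : G, i s * i t * χ (s * t) = i t * ∑ s : G, i s * χ (s * t) := by
      rw [Finset.mul_sum]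
      refine Finset.sum_congr rfl fun s _ => ?_
      ring
    rw [this, sum_class_mul hi hχ]
    ring
  rw [Finset.sum_congr rfl (fun t _ => h1 t), ← Finset.mul_sum]
  ring

/-- The number of ways of writing `g` as a product of two "elements of `i`". -/
noncomputable def convI (i : G → ℂ) (g : G) : ℂ := ∑ s : G, i s * i (s⁻¹ * g)

theorem convI_class {i : G → ℂ} (hi : IsClassFunction G i) : IsClassFunction G (convI i) := by
  intro g a
  unfold convI
  symm
  refine Fintype.sum_equiv (MulAut.conj a).toEquiv _ _ ?_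
  intro s
  show i s * i (s⁻¹ * g) = i (a * s * a⁻¹) * i ((a * s * a⁻¹)⁻¹ * (a * g * a⁻¹))
  have : (a * s * a⁻¹)⁻¹ * (a * g * a⁻¹) = a * (s⁻¹ * g) * a⁻¹ := by group
  rw [this, hi, hi]

theorem sum_sum_eq_convI (i F : G → ℂ) :
    ∑ t : G, ∑ s : G, i s * i t * F (s * t) = ∑ g : G, convI i g * F g := by
  rw [Finset.sum_comm]
  unfold convI
  simp only [Finset.sum_mul]
  rw [Finset.sum_comm (s := Finset.univ) (t := Finset.univ)
    (f := fun g s => i s * i (s⁻¹ * g) * F g)]
  refine Finset.sum_congr rfl fun s _ => ?_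
  refine Fintype.sum_equiv (Equiv.mulLeft s) _ _ ?_
  intro t
  simp

end Invol

section Formula

variable {G : Type*} [Group G] [Fintype G] {p : ℕ} {x : G} {χ₁ : G → ℂ}

theorem ExcData.convI_of_mem (D : ExcData p x χ₁) {y : G} (hy : y ∈ zpowers x) (hy1 : y ≠ 1) :
    convI invI y = p := by
  unfold convI
  have h1 : ∀ s : G, invI s * invI (s⁻¹ * y)
      = if s ∈ nrm x ∧ s ∉ zpowers x then (1 : ℂ) else 0 := by
    intro s
    by_cases hs : s ∈ nrm x ∧ s ∉ zpowers x
    · rw [if_pos hs]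
      have e1 : s * s = 1 := nrm_sq_eq_one D.hp D.hp2 D.hx D.hcent D.hN hs.1 hs.2
      have e2 : s ≠ 1 := fun h => hs.2 (h ▸ one_mem _)
      have hs' : s⁻¹ * y ∈ nrm x ∧ s⁻¹ * y ∉ zpowers x := by
        refine ⟨mul_mem (inv_mem hs.1) (zpowers_le_nrm x hy), fun h => hs.2 ?_⟩
        have h3 := mul_mem h (inv_mem hy)
        rw [mul_inv_cancel_right] at h3
        simpa using inv_mem h3
      have e3 := nrm_sq_eq_one D.hp D.hp2 D.hx D.hcent D.hN hs'.1 hs'.2
      have e4 : s⁻¹ * y ≠ 1 := fun h => hs'.2 (h ▸ one_mem _)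
      unfold invI
      rw [if_pos ⟨e1, e2⟩, if_pos ⟨e3, e4⟩, one_mul]
    · rw [if_neg hs]
      unfold invI
      by_cases h1 : s * s = 1 ∧ s ≠ 1
      · by_cases h2 : (s⁻¹ * y) * (s⁻¹ * y) = 1 ∧ s⁻¹ * y ≠ 1
        · exfalso
          apply hs
          have hsinv : s⁻¹ = s := inv_eq_of_mul_eq_one_left h1.1
          have h3 : s * y * s⁻¹ = y⁻¹ := by
            have e := h2.1
            rw [hsinv] at e ⊢
            refine eq_inv_of_mul_eq_one_left ?_
            rw [← e]
            group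
          exact mem_nrm_of_inverts D.hp D.hp2 D.hx hy hy1 h3
        · rw [if_neg h2, mul_zero]
      · rw [if_neg h1, zero_mul]
  rw [Finset.sum_congr rfl fun s _ => h1 s]
  have h2 : ∀ s : G, (if s ∈ nrm x ∧ s ∉ zpowers x then (1 : ℂ) else 0)
      = (if s ∈ nrm x then 1 else 0) - (if s ∈ zpowers x then 1 else 0) := by
    intro s
    by_cases a : s ∈ zpowers x
    · have := zpowers_le_nrm x a
      simp [a, this]
    · by_cases b : s ∈ nrm x <;> simp [a, b]
  rw [Finset.sum_congr rfl fun s _ => h2 s, Finset.sum_sub_distrib]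
  have e1 : ∑ s : G, (if s ∈ nrm x then (1 : ℂ) else 0) = ksum (nrm x) (fun _ => 1) := rfl
  have e2 : ∑ s : G, (if s ∈ zpowers x then (1 : ℂ) else 0) = ksum (zpowers x) (fun _ => 1) := rfl
  rw [e1, e2, ksum_one, ksum_one, D.hN, card_zpowers_eq D.hx]
  push_cast
  ring

theorem convI_invI_real (g : G) : conj (convI invI g) = convI invI g := by
  unfold convI
  rw [map_sum]
  refine Finset.sum_congr rfl fun s _ => ?_
  rw [map_mul, invI_real, invI_real]

/-- The count of the pairs of involutions with product `x`. -/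
theorem ExcData.invol_formula (D : ExcData p x χ₁) :
    ((p : ℂ) - 1) * (∑ s : G, invI s) ^ 2 = p * ((p : ℂ) - 2) * (Nat.card G : ℂ) := by
  have := Helper20.finite_irrCharacter (G := zpowers x)
  have := Fintype.ofFinite (IrrCharacter (zpowers x))
  have hp3 : 3 ≤ p := by have := D.hp5; omega
  have hnt : Nontrivial (IrrCharacter (zpowers x)) := by
    rw [← Fintype.one_lt_card_iff_nontrivial, card_irr_zpowers D.hx]
    omega
  obtain ⟨μ, hμ⟩ := exists_ne (⟨fun _ => 1, Helper83.isIrr_trivial⟩ : IrrCharacter (zpowers x))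
  have hμ1 : (μ : zpowers x → ℂ) ≠ fun _ => 1 := fun h => hμ (Subtype.ext h)
  have hΘ := isIrr_excChar D.hp hp3 D.hx D.hcent D.hN D.h₁ D.hne D.hd D.hv μ.2 hμ1
  have hΘ1 : excChar x χ₁ μ 1 = (p : ℂ) - 2 := by
    unfold excChar
    rw [D.hd, indE_of_not_sing μ.2 (fun h => h.1 rfl)]
    ring
  -- the three sums
  have S1 : ∑ s : G, invI s * (fun _ : G => (1 : ℂ)) s = ∑ s : G, invI s := by simp
  have S2 : ∑ s : G, invI s * χ₁ s = 0 := by
    refine Finset.sum_eq_zero fun s _ => ?_
    unfold invI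
    split_ifs with h
    · rw [D.value_invol h.1 h.2, mul_zero]
    · rw [zero_mul]
  have S3 : ∑ s : G, invI s * excChar x χ₁ μ s = -∑ s : G, invI s := by
    rw [← Finset.sum_neg_distrib]
    refine Finset.sum_congr rfl fun s _ => ?_
    unfold invI
    split_ifs with h
    · unfold excChar
      rw [D.value_invol h.1 h.2, indE_of_not_sing μ.2 (not_sing_of_sq D.hp D.hp2 D.hx h.1)]
      ring
    · simp
  have T1 := sum_sum_class_mul invI_conj (Helper83.isIrr_trivial (G := G))
  have T2 := sum_sum_class_mul invI_conj D.h₁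
  have T3 := sum_sum_class_mul invI_conj hΘ
  rw [S1] at T1
  rw [S2] at T2
  rw [S3, hΘ1] at T3
  -- the induced class function
  have hE : ∀ g : G, indE x μ g = excChar x χ₁ μ g - χ₁ g + 1 := by
    intro g
    unfold excChar
    ring
  have T4 : ∑ t : G, ∑ s : G, invI s * invI t * indE x μ (s * t)
      = (-∑ s : G, invI s) ^ 2 / ((p : ℂ) - 2) - 0 ^ 2 / χ₁ 1 + (∑ s : G, invI s) ^ 2 / 1 := by
    rw [← T1, ← T2, ← T3, ← Finset.sum_sub_distrib, ← Finset.sum_add_distrib]
    refine Finset.sum_congr rfl fun t _ => ?_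
    rw [← Finset.sum_sub_distrib, ← Finset.sum_add_distrib]
    refine Finset.sum_congr rfl fun s _ => ?_
    rw [hE]
    ring
  rw [sum_sum_eq_convI] at T4
  have h5 := classInner_indE_const D.hp D.hx D.hN μ.2 hμ1 (convI_class invI_conj)
    (c := (p : ℂ)) (fun y hy hy1 => D.convI_of_mem hy hy1)
  unfold classInner at h5
  have h6 : ∑ g : G, indE x μ g * conj (convI invI g) = ∑ g : G, convI invI g * indE x μ g := by
    refine Finset.sum_congr rfl fun g _ => ?_
    rw [convI_invI_real, mul_comm]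
  rw [h6, T4, Complex.conj_natCast] at h5
  have hG : (Nat.card G : ℂ) ≠ 0 := Helper20.card_ne_zero_complex
  have hp2' : (p : ℂ) - 2 ≠ 0 := by
    intro h
    have : (p : ℂ) = ((2 : ℕ) : ℂ) := by push_cast; linear_combination h
    exact D.hp2 (by exact_mod_cast this)
  field_simp at h5
  linear_combination h5

end Formula

end Cfsg.Agent.Lib.Helper96
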