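import Cfsg.Agent.Lib.Helper96.Exc4

/-!
# The order formula `|G| = p (p-1) (p-2)`: the final count
-/

set_option autoImplicit false
set_option linter.unusedSectionVars false

namespace Cfsg.Agent.Lib.Helper96

open Cfsg Subgroup
open scoped Classical
open scoped ComplexConjugate

section Arith

theorem order_arith {P n A Ds X₁ X₂ : ℤ} (hP : 5 ≤ P) (h1 : 2 * P * Ds = (P - 1) * n)
    (h2 : (P - 1) * A ^ 2 = P * (P - 2) * n) (h3 : X₂ = A - P * (P - 2))
    (h4 : X₁ = -n + 2 * Ds - (P - 2) + A) (hX₂ : 0 ≤ X₂) (hX₁ : 0 ≤ X₁) :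
    n = P * (P - 1) * (P - 2) := by
  have hA : A = X₂ + P * (P - 2) := by linarith
  have hn : n = P * ((P - 1) * (P - 2) + X₂ - X₁) := by
    have : P * X₁ = -n - P * (P - 2) + P * A := by
      rw [h4]
      linear_combination h1
    rw [hA] at this
    linear_combination this
  have key : P * (P - 2) ^ 2 * X₂ + (P - 1) * X₂ ^ 2 + P ^ 2 * (P - 2) * X₁ = 0 := by
    rw [hA, hn] at h2
    linear_combination h2
  have hP2 : 0 < P - 2 := by linarith
  have hP1 : 0 < P - 1 := by linarith
  have hP0 : 0 < P := by linarith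
  have t1 : 0 ≤ P * (P - 2) ^ 2 * X₂ := by positivity
  have t2 : 0 ≤ (P - 1) * X₂ ^ 2 := by positivity
  have t3 : 0 ≤ P ^ 2 * (P - 2) * X₁ := by positivity
  have e1 : P * (P - 2) ^ 2 * X₂ = 0 := by linarith
  have e3 : P ^ 2 * (P - 2) * X₁ = 0 := by linarith
  have hX₂0 : X₂ = 0 := by
    rcases mul_eq_zero.1 e1 with h | h
    · exfalso
      have : 0 < P * (P - 2) ^ 2 := by positivity
      linarith
    · exact h
  have hX₁0 : X₁ = 0 := by
    rcases mul_eq_zero.1 e3 with h | h
    · exfalso
      have : 0 < P ^ 2 * (P - 2) := by positivity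
      linarith
    · exact h
  rw [hn, hX₂0, hX₁0]
  ring

end Arith

section Count

variable {G : Type*} [Group G] [Fintype G] {p : ℕ} {x : G} {χ₁ : G → ℂ}

theorem ExcData.card_eq (D : ExcData p x χ₁) : Nat.card G = p * (p - 1) * (p - 2) := by
  choose v hv using D.hint
  have hp5 := D.hp5
  have hG : (Nat.card G : ℂ) ≠ 0 := Helper20.card_ne_zero_complex
  -- moments
  have M1 : ∑ g : G, v g = 0 := by
    have h := sum_eq_zero_of_irr_ne_one D.h₁ D.hne
    simp only [hv] at h
    exact_mod_cast h
  have M2 : ∑ g : G, (v g) ^ 2 = (Nat.card G : ℤ) := by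
    have h := Helper20.classInner_irr_self D.h₁
    unfold classInner at h
    have h' : ∑ g : G, χ₁ g * conj (χ₁ g) = (Nat.card G : ℂ) := by
      field_simp at h
      linear_combination h
    simp only [hv, map_intCast] at h'
    have h'' : ((∑ g : G, (v g) ^ 2 : ℤ) : ℂ) = ((Nat.card G : ℤ) : ℂ) := by
      push_cast
      rw [← h']
      refine Finset.sum_congr rfl fun g _ => ?_
      ring
    exact_mod_cast h''
  have M0 : ∑ _g : G, (1 : ℤ) = (Nat.card G : ℤ) := by
    simp [Nat.card_eq_fintype_card]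
  have ME : ∑ g : G, (if g = 1 then (1 : ℤ) else 0) = 1 := by
    simp
  have MS : 2 * (p : ℤ) * (∑ g : G, if sing x g then (1 : ℤ) else 0)
      = ((p : ℤ) - 1) * (Nat.card G : ℤ) := by
    have h := count_sing D.hp D.hx D.hN
    have : (∑ g : G, if sing x g then (1 : ℂ) else 0)
        = ((∑ g : G, if sing x g then (1 : ℤ) else 0 : ℤ) : ℂ) := by
      push_cast
      rfl
    rw [this] at h
    exact_mod_cast h
  have MI : ((p : ℤ) - 1) * (∑ g : G, if g * g = 1 ∧ g ≠ 1 then (1 : ℤ) else 0) ^ 2
      = p * ((p : ℤ) - 2) * (Nat.card G : ℤ) := by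
    have h := D.invol_formula
    have : (∑ g : G, invI g)
        = ((∑ g : G, if g * g = 1 ∧ g ≠ 1 then (1 : ℤ) else 0 : ℤ) : ℂ) := by
      push_cast
      rfl
    rw [this] at h
    exact_mod_cast h
  -- pointwise analysis
  have hv1 : v 1 = (p : ℤ) - 1 := by
    have := D.hd
    rw [hv] at this
    exact_mod_cast this
  have hpt : ∀ g : G,
      0 ≤ (v g) ^ 2 - 1 - (((p : ℤ) - 1) ^ 2 - 1) * (if g = 1 then (1 : ℤ) else 0)
          + (if g * g = 1 ∧ g ≠ 1 then (1 : ℤ) else 0) ∧
      0 ≤ (v g - 1) + 2 * (if sing x g then (1 : ℤ) else 0)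
          - ((p : ℤ) - 2) * (if g = 1 then (1 : ℤ) else 0)
          + (if g * g = 1 ∧ g ≠ 1 then (1 : ℤ) else 0) := by
    intro g
    by_cases h1 : g = 1
    · subst h1
      have hs : ¬ sing x (1 : G) := fun h => h.1 rfl
      simp only [hv1, if_true, if_neg hs, ne_eq, not_true_eq_false, and_false, if_false]
      constructor <;> linarith
    · by_cases hs : sing x g
      · have hvg : v g = -1 := by
          have := class_const_of_sing D.hcl D.hv hs
          rw [hv] at this
          exact_mod_cast this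
        have hi : ¬ (g * g = 1 ∧ g ≠ 1) := fun h => not_sing_of_sq D.hp D.hp2 D.hx h.1 hs
        rw [if_neg h1, if_pos hs, if_neg hi, hvg]
        constructor <;> norm_num
      · by_cases hi : g * g = 1
        · have hvg : v g = 0 := by
            have := D.value_invol hi h1
            rw [hv] at this
            exact_mod_cast this
          rw [if_neg h1, if_neg hs, if_pos ⟨hi, h1⟩, hvg]
          constructor <;> norm_num
        · have h2 := D.value_nonneg hs (hv g)
          have h3 : 1 ≤ v g := by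
            have : v g ≠ 0 := fun h => hi (h2.2 h)
            have := h2.1
            omega
          have hi' : ¬ (g * g = 1 ∧ g ≠ 1) := fun h => hi h.1
          rw [if_neg h1, if_neg hs, if_neg hi']
          constructor <;> nlinarith
  have hX₂ := Finset.sum_nonneg (s := Finset.univ) fun g _ => (hpt g).1
  have hX₁ := Finset.sum_nonneg (s := Finset.univ) fun g _ => (hpt g).2
  have hfin := order_arith (P := p) (n := Nat.card G)
    (A := ∑ g : G, if g * g = 1 ∧ g ≠ 1 then (1 : ℤ) else 0)
    (Ds := ∑ g : G, if sing x g then (1 : ℤ) else 0) (by exact_mod_cast hp5) MS MI ?_ ?_ hX₂ hX₁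
  · have h1 : 1 ≤ p := by omega
    have h2 : 2 ≤ p := by omega
    have : ((Nat.card G : ℕ) : ℤ) = ((p * (p - 1) * (p - 2) : ℕ) : ℤ) := by
      rw [hfin]
      push_cast [Nat.cast_sub h1, Nat.cast_sub h2]
      ring
    exact_mod_cast this
  · rw [Finset.sum_add_distrib, Finset.sum_sub_distrib, Finset.sum_sub_distrib, ← Finset.mul_sum,
      M2, M0, ME]
    ring
  · rw [Finset.sum_add_distrib, Finset.sum_sub_distrib, Finset.sum_add_distrib,
      Finset.sum_sub_distrib, ← Finset.mul_sum, ← Finset.mul_sum, M1, M0, ME]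
    ring

end Count

end Cfsg.Agent.Lib.Helper96
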