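import Cfsg.Agent.Lib.Helper96.Exc5
import Cfsg.Agent.Lib.Helper82.CharKer

/-!
# No proper normal subgroup contains `x`
-/

set_option autoImplicit false
set_option linter.unusedSectionVars false

namespace Cfsg.Agent.Lib.Helper96

open Cfsg Subgroup
open scoped Classical
open scoped ComplexConjugate

theorem exists_nontrivial_irr {Q : Type*} [Group Q] [Finite Q] [Nontrivial Q] :
    ∃ l : Q → ℂ, IsIrrCharacter Q l ∧ l ≠ fun _ => 1 := by
  have := Fintype.ofFinite Q
  have := Helper20.finite_irrCharacter (G := Q)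
  have := Fintype.ofFinite (IrrCharacter Q)
  obtain ⟨q, hq⟩ := exists_ne (1 : Q)
  by_contra hcon
  push Not at hcon
  have h1 := Helper20.sum_irr_mul_conj q 1
  rw [if_neg (by rw [isConj_one_left]; exact hq)] at h1
  have h2 : ∀ χ : IrrCharacter Q, (χ : Q → ℂ) q * conj ((χ : Q → ℂ) 1) = 1 := by
    intro χ
    rw [hcon χ χ.2]
    simp
  rw [Finset.sum_congr rfl fun χ _ => h2 χ, Finset.sum_const, Finset.card_univ] at h1
  simp only [nsmul_eq_mul, mul_one] at h1
  have h3 : Fintype.card (IrrCharacter Q) = 0 := by exact_mod_cast h1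
  have : IsEmpty (IrrCharacter Q) := Fintype.card_eq_zero_iff.1 h3
  exact this.elim ⟨fun _ => 1, Helper83.isIrr_trivial⟩

section Simple

variable {G : Type*} [Group G] [Fintype G] {p : ℕ} {x : G} {χ₁ : G → ℂ}

theorem ExcData.eq_top_of_mem (D : ExcData p x χ₁) (K : Subgroup G) [K.Normal] (hxK : x ∈ K) :
    K = ⊤ := by
  by_contra hK
  have hnt : Nontrivial (G ⧸ K) := by
    rw [← Finite.one_lt_card_iff_nontrivial]
    have h1 : K.index ≠ 1 := fun h => hK (Subgroup.index_eq_one.1 h)
    have h2 : K.index ≠ 0 := Subgroup.index_ne_zero_of_finite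
    have h3 : Nat.card (G ⧸ K) = K.index := rfl
    omega
  obtain ⟨l, hl, hl1⟩ := exists_nontrivial_irr (Q := G ⧸ K)
  have hψ := Helper82.isIrr_inflate hl
  have hψ1 : (fun g : G => l (g : G ⧸ K)) ≠ fun _ => 1 := by
    intro h
    apply hl1
    funext q
    obtain ⟨g, rfl⟩ := QuotientGroup.mk_surjective q
    exact congrFun h g
  have hconst : ∀ y ∈ zpowers x, y ≠ 1 →
      (fun g : G => l (g : G ⧸ K)) y = (fun g : G => l (g : G ⧸ K)) 1 := by
    intro y hy _
    have hyK : y ∈ K := (zpowers_le.2 hxK) hy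
    show l (y : G ⧸ K) = l ((1 : G) : G ⧸ K)
    rw [(QuotientGroup.eq_one_iff y).2 hyK]
    rfl
  obtain ⟨n, hn0, hn1⟩ := Helper83.isIrr_one hψ
  have := Helper20.finite_irrCharacter (G := zpowers x)
  have := Fintype.ofFinite (IrrCharacter (zpowers x))
  have hp5 := D.hp5
  have hp3 : 3 ≤ p := by omega
  have hnt' : Nontrivial (IrrCharacter (zpowers x)) := by
    rw [← Fintype.one_lt_card_iff_nontrivial, card_irr_zpowers D.hx]
    omega
  obtain ⟨μ, hμ⟩ := exists_ne (⟨fun _ => 1, Helper83.isIrr_trivial⟩ : IrrCharacter (zpowers x))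
  have hμ1 : (μ : zpowers x → ℂ) ≠ fun _ => 1 := fun h => hμ (Subtype.ext h)
  have hΘ := isIrr_excChar D.hp hp3 D.hx D.hcent D.hN D.h₁ D.hne D.hd D.hv μ.2 hμ1
  have hΘ1 : excChar x χ₁ μ 1 = (p : ℂ) - 2 := by
    unfold excChar
    rw [D.hd, indE_of_not_sing μ.2 (fun h => h.1 rfl)]
    ring
  have e := classInner_indE_const D.hp D.hx D.hN μ.2 hμ1
    (Helper20.isClassFunction_of_isCharacter (Helper20.isCharacter_of_isIrrCharacter hψ)) hconst
  have hn1' : (fun g : G => l (g : G ⧸ K)) 1 = (n : ℂ) := hn1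
  rw [hn1', Complex.conj_natCast] at e
  have hE : indE x μ = excChar x χ₁ μ - χ₁ + fun _ => 1 := by
    funext g
    simp only [Pi.add_apply, Pi.sub_apply]
    unfold excChar
    ring
  rw [hE, Helper20.classInner_add_left, Helper20.classInner_sub_left,
    Helper20.classInner_irr_ne Helper83.isIrr_trivial hψ hψ1.symm] at e
  obtain ⟨m, hm⟩ := Helper20.isCharacter_classInner_nat
    (Helper20.isCharacter_of_isIrrCharacter D.h₁) hψ
  by_cases h : excChar x χ₁ μ = fun g : G => l (g : G ⧸ K)
  · have hne' : χ₁ ≠ fun g : G => l (g : G ⧸ K) := by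
      intro h'
      have h2 := congrFun (h.trans h'.symm) 1
      rw [hΘ1, D.hd] at h2
      have : (1 : ℂ) = 0 := by linear_combination -h2
      exact one_ne_zero this
    rw [Helper20.classInner_irr_ne D.h₁ hψ hne', ← h, Helper20.classInner_irr_self hΘ] at e
    have h3 := congrFun h 1
    rw [hΘ1] at h3
    have h3' : (p : ℂ) - 2 = (n : ℂ) := h3.trans hn1
    have : (p : ℂ) = ((3 : ℕ) : ℂ) := by
      push_cast
      linear_combination h3' - e
    have : p = 3 := by exact_mod_cast this
    omega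
  · rw [Helper20.classInner_irr_ne hΘ hψ h, hm] at e
    have : ((n + m : ℕ) : ℂ) = 0 := by
      push_cast
      linear_combination -e
    have : n + m = 0 := by exact_mod_cast this
    omega

end Simple

end Cfsg.Agent.Lib.Helper96
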