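import Mathlib

set_option autoImplicit false

namespace Cfsg.Agent.Lib.Helper96.FourTrans

open Finset

/-- Twisted Burnside: for a transitive action on a nonempty finite set and any self-map `s`,
the pairs `(g, x)` with `g • x = s x` are as many as the group elements. -/
theorem twisted_burnside {G X : Type*} [Group G] [Fintype G] [MulAction G X] [Fintype X]
    [DecidableEq X] [Nonempty X] [MulAction.IsPretransitive G X] (s : X → X) :
    ∑ g : G, (univ.filter (fun x : X => g • x = s x)).card = Fintype.card G := by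
  classical
  have h1 : ∀ x y : X, (univ.filter (fun g : G => g • x = y)).card
      = Fintype.card (MulAction.stabilizer G x) := by
    intro x y
    obtain ⟨g0, hg0⟩ := MulAction.exists_smul_eq G x y
    rw [← Fintype.card_subtype]
    refine Fintype.card_congr
      { toFun := fun g => ⟨g0⁻¹ * g.1, ?_⟩
        invFun := fun g => ⟨g0 * g.1, ?_⟩
        left_inv := fun g => by simp
        right_inv := fun g => by simp }
    · rw [MulAction.mem_stabilizer_iff, mul_smul, g.2, ← hg0, inv_smul_smul]
    · rw [mul_smul, g.2, hg0]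
  have h2 : ∀ x : X, Fintype.card X * Fintype.card (MulAction.stabilizer G x)
      = Fintype.card G := by
    intro x
    have := MulAction.card_orbit_mul_card_stabilizer_eq_card_group G x
    rw [← this]
    congr 1
    have h3 : MulAction.orbit G x = Set.univ := MulAction.orbit_eq_univ G x
    rw [← Fintype.card_congr (Equiv.Set.univ X)]
    exact Fintype.card_congr (Equiv.setCongr h3.symm)
  have h4 : ∑ g : G, (univ.filter (fun x : X => g • x = s x)).card
      = ∑ x : X, (univ.filter (fun g : G => g • x = s x)).card := by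
    simp only [card_filter]
    exact sum_comm
  rw [h4]
  simp only [h1]
  obtain ⟨x0⟩ := ‹Nonempty X›
  have h5 : ∀ x : X, Fintype.card (MulAction.stabilizer G x)
      = Fintype.card (MulAction.stabilizer G x0) := by
    intro x
    have hpos : 0 < Fintype.card X := Fintype.card_pos
    exact Nat.eq_of_mul_eq_mul_left hpos ((h2 x).trans (h2 x0).symm)
  rw [sum_congr rfl (fun x _ => h5 x), sum_const, card_univ, smul_eq_mul, h2]

variable {Ω : Type*} [Fintype Ω] [DecidableEq Ω]

/-- fixed points -/
def FF (p : Equiv.Perm Ω) : Finset Ω := univ.filter (fun x => p x = x)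

/-- points on 2-cycles -/
def TT (p : Equiv.Perm Ω) : Finset Ω := univ.filter (fun x => p (p x) = x ∧ p x ≠ x)

theorem card_fix_sq (p : Equiv.Perm Ω) :
    (univ.filter (fun x => p (p x) = x)).card = (FF p).card + (TT p).card := by
  rw [FF, TT, ← card_union_of_disjoint]
  · congr 1
    ext x
    simp only [mem_filter, mem_univ, true_and, mem_union]
    constructor
    · intro h
      by_cases h1 : p x = x
      · exact Or.inl h1
      · exact Or.inr ⟨h, h1⟩
    · rintro (h | h)
      · rw [h, h]
      · exact h.1
  · rw [disjoint_left]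
    intro x hx hx'
    simp only [mem_filter, mem_univ, true_and] at hx hx'
    exact hx'.2 hx

/-- tuples of distinct fixed points -/
theorem cnt_id (p : Equiv.Perm Ω) (k : ℕ) :
    (univ.filter (fun τ : Fin k ↪ Ω => ∀ i, p (τ i) = τ i)).card
      = (FF p).card.descFactorial k := by
  have h : Fintype.card (Fin k ↪ {x // x ∈ FF p}) = (FF p).card.descFactorial k := by
    rw [Fintype.card_embedding_eq, Fintype.card_coe, Fintype.card_fin]
  rw [← h, ← Fintype.card_subtype]
  refine Fintype.card_congr
    { toFun := fun τ => ⟨fun i => ⟨τ.1 i, by simp [FF, τ.2 i]⟩, fun i j hij =>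
        τ.1.injective (congrArg Subtype.val hij)⟩
      invFun := fun ρ => ⟨ρ.trans (Function.Embedding.subtype _), fun i => by
        have h1 : (ρ i).1 ∈ univ.filter (fun x => p x = x) := (ρ i).2
        exact (mem_filter.1 h1).2⟩
      left_inv := fun τ => by ext i; rfl
      right_inv := fun ρ => by ext i; rfl }

/-- peeling off a transposed pair -/
theorem peel2 (p : Equiv.Perm Ω) (k : ℕ) (Q : (Fin k ↪ Ω) → Prop) [DecidablePred Q] :
    (univ.filter (fun τ : Fin (k + 2) ↪ Ω => p (τ 0) = τ 1 ∧ p (τ 1) = τ 0 ∧
        Q (Fin.Embedding.tail (Fin.Embedding.tail τ)))).card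
      = ∑ ρ ∈ univ.filter Q, ((TT p).filter
          (fun x : Ω => x ∉ Set.range ρ ∧ p x ∉ Set.range ρ)).card := by
  rw [← card_sigma]
  refine card_bij (fun τ _ => ⟨Fin.Embedding.tail (Fin.Embedding.tail τ), τ 0⟩) ?_ ?_ ?_
  · intro τ hτ
    simp only [mem_filter, mem_univ, true_and] at hτ
    obtain ⟨h0, h1, hQ⟩ := hτ
    simp only [mem_sigma, mem_filter, mem_univ, true_and, TT]
    refine ⟨hQ, ⟨by rw [h0, h1], ?_⟩, ?_, ?_⟩
    · rw [h0]
      intro h
      have := τ.injective h
      simp at this
    · rintro ⟨i, hi⟩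
      have : τ i.succ.succ = τ 0 := hi
      have := τ.injective this
      simp at this
    · rintro ⟨i, hi⟩
      rw [h0] at hi
      have : τ i.succ.succ = τ 1 := hi
      have := τ.injective this
      rw [← Fin.succ_zero_eq_one, Fin.succ_inj] at this
      simp at this
  · intro τ hτ τ' hτ' h
    simp only [mem_filter, mem_univ, true_and] at hτ hτ'
    simp only [Sigma.mk.injEq] at h
    obtain ⟨h1, h2⟩ := h
    have h2' : τ 0 = τ' 0 := eq_of_heq h2
    ext i
    refine Fin.cases h2' (fun i => ?_) i
    refine Fin.cases ?_ (fun i => ?_) i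
    · rw [Fin.succ_zero_eq_one, ← hτ.1, ← hτ'.1, h2']
    · exact congrArg (fun ρ : Fin k ↪ Ω => ρ i) h1
  · rintro ⟨ρ, x⟩ h
    simp only [mem_sigma, mem_filter, mem_univ, true_and, TT] at h
    obtain ⟨hQ, ⟨hx1, hx2⟩, hx3, hx4⟩ := h
    have hx5 : x ∉ Set.range (Fin.Embedding.cons ρ hx4) := by
      rintro ⟨i, hi⟩
      revert hi
      refine Fin.cases ?_ (fun i => ?_) i
      · intro hi
        exact hx2 hi
      · intro hi
        exact hx3 ⟨i, hi⟩
    refine ⟨Fin.Embedding.cons (Fin.Embedding.cons ρ hx4) hx5, ?_, ?_⟩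
    · simp only [mem_filter, mem_univ, true_and]
      refine ⟨rfl, hx1, hQ⟩
    · rfl

end Cfsg.Agent.Lib.Helper96.FourTrans
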