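import Cfsg.Agent.Lib.Helper96.FourTransA

set_option autoImplicit false
set_option linter.unusedSectionVars false

namespace Cfsg.Agent.Lib.Helper96.FourTrans

open Finset

variable {Ω : Type*} [Fintype Ω] [DecidableEq Ω]

theorem cnt1 (p : Equiv.Perm Ω) (a : ℕ) :
    (univ.filter (fun τ : Fin (a + 2) ↪ Ω => p (τ 0) = τ 1 ∧ p (τ 1) = τ 0 ∧
        ∀ i, p (Fin.Embedding.tail (Fin.Embedding.tail τ) i)
          = Fin.Embedding.tail (Fin.Embedding.tail τ) i)).card
      = (FF p).card.descFactorial a * (TT p).card := by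
  rw [peel2 p a (fun ρ => ∀ i, p (ρ i) = ρ i), ← cnt_id, ← smul_eq_mul, ← sum_const]
  refine sum_congr rfl (fun ρ hρ => ?_)
  simp only [mem_filter, mem_univ, true_and] at hρ
  congr 1
  rw [filter_eq_self]
  intro x hx
  simp only [TT, mem_filter, mem_univ, true_and] at hx
  constructor
  · rintro ⟨i, rfl⟩
    exact hx.2 (hρ i)
  · rintro ⟨i, hi⟩
    have := hρ i
    rw [hi, hx.1] at this
    exact hx.2 this.symm

theorem cnt2 (p : Equiv.Perm Ω) :
    (univ.filter (fun τ : Fin (2 + 2) ↪ Ω => p (τ 0) = τ 1 ∧ p (τ 1) = τ 0 ∧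
        (p (Fin.Embedding.tail (Fin.Embedding.tail τ) 0)
          = Fin.Embedding.tail (Fin.Embedding.tail τ) 1 ∧
         p (Fin.Embedding.tail (Fin.Embedding.tail τ) 1)
          = Fin.Embedding.tail (Fin.Embedding.tail τ) 0))).card + 2 * (TT p).card
      = (TT p).card * (TT p).card := by
  rw [peel2 p 2 (fun ρ => p (ρ 0) = ρ 1 ∧ p (ρ 1) = ρ 0)]
  have h0 : (univ.filter (fun ρ : Fin 2 ↪ Ω => p (ρ 0) = ρ 1 ∧ p (ρ 1) = ρ 0)).card
      = (TT p).card := by
    have := cnt1 p 0
    simp only [Nat.descFactorial_zero, one_mul] at this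
    rw [← this]
    congr 1
    ext τ
    simp only [mem_filter, mem_univ, true_and]
    constructor
    · rintro ⟨h1, h2⟩
      exact ⟨h1, h2, fun i => i.elim0⟩
    · rintro ⟨h1, h2, -⟩
      exact ⟨h1, h2⟩
  have h1 : ∀ ρ ∈ univ.filter (fun ρ : Fin 2 ↪ Ω => p (ρ 0) = ρ 1 ∧ p (ρ 1) = ρ 0),
      ((TT p).filter (fun x : Ω => x ∉ Set.range ρ ∧ p x ∉ Set.range ρ)).card + 2
        = (TT p).card := by
    intro ρ hρ
    simp only [mem_filter, mem_univ, true_and] at hρ
    have hne : ρ 0 ≠ ρ 1 := by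
      intro h
      have := ρ.injective h
      simp at this
    have h2 : (TT p).filter (fun x : Ω => x ∉ Set.range ρ ∧ p x ∉ Set.range ρ)
        = (TT p) \ {ρ 0, ρ 1} := by
      ext x
      simp only [mem_filter, mem_sdiff, mem_insert, mem_singleton, Set.mem_range, not_exists,
        Fin.forall_fin_two, not_or]
      constructor
      · rintro ⟨hx, ⟨h3, h4⟩, -⟩
        exact ⟨hx, fun h => h3 h.symm, fun h => h4 h.symm⟩
      · rintro ⟨hx, h3, h4⟩
        refine ⟨hx, ⟨fun h => h3 h.symm, fun h => h4 h.symm⟩, ?_, ?_⟩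
        · intro h
          apply h4
          rw [← hρ.2] at h
          exact (p.injective h).symm
        · intro h
          apply h3
          rw [← hρ.1] at h
          exact (p.injective h).symm
    rw [h2, card_sdiff_of_subset, card_pair hne]
    · have : 2 ≤ (TT p).card := by
        rw [← card_pair hne]
        apply card_le_card
        intro x hx
        simp only [mem_insert, mem_singleton] at hx
        simp only [TT, mem_filter, mem_univ, true_and]
        rcases hx with rfl | rfl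
        · rw [hρ.1, hρ.2]; exact ⟨rfl, hne.symm⟩
        · rw [hρ.2, hρ.1]; exact ⟨rfl, hne⟩
      omega
    · intro x hx
      simp only [mem_insert, mem_singleton] at hx
      simp only [TT, mem_filter, mem_univ, true_and]
      rcases hx with rfl | rfl
      · rw [hρ.1, hρ.2]; exact ⟨rfl, hne.symm⟩
      · rw [hρ.2, hρ.1]; exact ⟨rfl, hne⟩
  have h3 : ∑ ρ ∈ univ.filter (fun ρ : Fin 2 ↪ Ω => p (ρ 0) = ρ 1 ∧ p (ρ 1) = ρ 0),
      (((TT p).filter (fun x : Ω => x ∉ Set.range ρ ∧ p x ∉ Set.range ρ)).card + 2)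
        = (TT p).card * (TT p).card := by
    rw [sum_congr rfl h1, sum_const, h0, smul_eq_mul]
  rw [sum_add_distrib, sum_const, h0, smul_eq_mul] at h3
  rw [← h3, mul_comm 2]

section moments

variable {G : Type*} [Group G] [Fintype G] [MulAction G Ω]

/-- number of fixed points -/
def ff (g : G) : ℕ := (FF (MulAction.toPerm g : Equiv.Perm Ω)).card

/-- number of points on 2-cycles -/
def tt (g : G) : ℕ := (TT (MulAction.toPerm g : Equiv.Perm Ω)).card

theorem nonempty_emb {k : ℕ} (hk : k ≤ Fintype.card Ω) : Nonempty (Fin k ↪ Ω) := by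
  rw [Function.Embedding.nonempty_iff_card_le, Fintype.card_fin]
  exact hk

theorem mom_id (k : ℕ) (hk : k ≤ Fintype.card Ω) [MulAction.IsMultiplyPretransitive G Ω k] :
    ∑ g : G, (ff (Ω := Ω) g).descFactorial k = Fintype.card G := by
  have := nonempty_emb (Ω := Ω) hk
  have hT : MulAction.IsPretransitive G (Fin k ↪ Ω) := inferInstance
  rw [← twisted_burnside (G := G) (X := Fin k ↪ Ω) id]
  refine sum_congr rfl (fun g _ => ?_)
  rw [ff, ← cnt_id]
  congr 1
  ext τ
  simp only [mem_filter, mem_univ, true_and, id, DFunLike.ext_iff, Function.Embedding.smul_apply,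
    MulAction.toPerm_apply]

theorem mom1 (a : ℕ) (hk : a + 2 ≤ Fintype.card Ω)
    [MulAction.IsMultiplyPretransitive G Ω (a + 2)] :
    ∑ g : G, (ff (Ω := Ω) g).descFactorial a * tt (Ω := Ω) g = Fintype.card G := by
  have := nonempty_emb (Ω := Ω) hk
  have hT : MulAction.IsPretransitive G (Fin (a + 2) ↪ Ω) := inferInstance
  rw [← twisted_burnside (G := G) (X := Fin (a + 2) ↪ Ω)
    (fun τ => (Equiv.swap 0 1).toEmbedding.trans τ)]
  refine sum_congr rfl (fun g _ => ?_)
  rw [ff, tt, ← cnt1]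
  congr 1
  ext τ
  simp only [mem_filter, mem_univ, true_and, DFunLike.ext_iff, Function.Embedding.smul_apply,
    MulAction.toPerm_apply, Function.Embedding.trans_apply, Equiv.coe_toEmbedding]
  constructor
  · rintro ⟨h0, h1, h2⟩ i
    refine Fin.cases ?_ (fun i => ?_) i
    · rw [Equiv.swap_apply_left]; exact h0
    · refine Fin.cases ?_ (fun i => ?_) i
      · rw [Fin.succ_zero_eq_one, Equiv.swap_apply_right]; exact h1
      · rw [Equiv.swap_apply_of_ne_of_ne (Fin.succ_ne_zero _)]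
        · exact h2 i
        · rw [← Fin.succ_zero_eq_one, Ne, Fin.succ_inj]
          exact Fin.succ_ne_zero _
  · intro h
    refine ⟨?_, ?_, fun i => ?_⟩
    · have := h 0
      rwa [Equiv.swap_apply_left] at this
    · have := h 1
      rwa [Equiv.swap_apply_right] at this
    · have := h i.succ.succ
      rw [Equiv.swap_apply_of_ne_of_ne (Fin.succ_ne_zero _)] at this
      · exact this
      · rw [← Fin.succ_zero_eq_one, Ne, Fin.succ_inj]
        exact Fin.succ_ne_zero _

/-- the count for the cycle shape (01)(23) -/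
noncomputable def cc (g : G) : ℕ :=
  (univ.filter (fun τ : Fin (2 + 2) ↪ Ω =>
    (MulAction.toPerm g : Equiv.Perm Ω) (τ 0) = τ 1 ∧
    (MulAction.toPerm g : Equiv.Perm Ω) (τ 1) = τ 0 ∧
        ((MulAction.toPerm g : Equiv.Perm Ω) (Fin.Embedding.tail (Fin.Embedding.tail τ) 0)
          = Fin.Embedding.tail (Fin.Embedding.tail τ) 1 ∧
         (MulAction.toPerm g : Equiv.Perm Ω) (Fin.Embedding.tail (Fin.Embedding.tail τ) 1)
          = Fin.Embedding.tail (Fin.Embedding.tail τ) 0))).card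

theorem cc_add (g : G) : cc (Ω := Ω) g + 2 * tt (Ω := Ω) g = tt (Ω := Ω) g * tt (Ω := Ω) g :=
  cnt2 _

theorem mom2 (hk : 4 ≤ Fintype.card Ω) [MulAction.IsMultiplyPretransitive G Ω 4] :
    ∑ g : G, cc (Ω := Ω) g = Fintype.card G := by
  have := nonempty_emb (Ω := Ω) hk
  have hT : MulAction.IsPretransitive G (Fin (2 + 2) ↪ Ω) :=
    (inferInstance : MulAction.IsMultiplyPretransitive G Ω 4)
  rw [← twisted_burnside (G := G) (X := Fin (2 + 2) ↪ Ω)
    (fun τ => (Equiv.swap 0 1 * Equiv.swap 2 3 : Equiv.Perm (Fin (2 + 2))).toEmbedding.trans τ)]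
  refine sum_congr rfl (fun g _ => ?_)
  rw [cc]
  congr 1
  ext τ
  simp only [mem_filter, mem_univ, true_and, DFunLike.ext_iff, Function.Embedding.smul_apply,
    MulAction.toPerm_apply, Function.Embedding.trans_apply, Equiv.coe_toEmbedding]
  have e0 : (Equiv.swap 0 1 * Equiv.swap 2 3 : Equiv.Perm (Fin (2 + 2))) 0 = 1 := by decide
  have e1 : (Equiv.swap 0 1 * Equiv.swap 2 3 : Equiv.Perm (Fin (2 + 2))) 1 = 0 := by decide
  have e2 : (Equiv.swap 0 1 * Equiv.swap 2 3 : Equiv.Perm (Fin (2 + 2))) 2 = 3 := by decide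
  have e3 : (Equiv.swap 0 1 * Equiv.swap 2 3 : Equiv.Perm (Fin (2 + 2))) 3 = 2 := by decide
  constructor
  · rintro ⟨h0, h1, h2, h3⟩ i
    fin_cases i
    · show g • τ 0 = τ ((Equiv.swap 0 1 * Equiv.swap 2 3 : Equiv.Perm (Fin (2 + 2))) 0)
      rw [e0]; exact h0
    · show g • τ 1 = τ ((Equiv.swap 0 1 * Equiv.swap 2 3 : Equiv.Perm (Fin (2 + 2))) 1)
      rw [e1]; exact h1
    · show g • τ 2 = τ ((Equiv.swap 0 1 * Equiv.swap 2 3 : Equiv.Perm (Fin (2 + 2))) 2)
      rw [e2]; exact h2
    · show g • τ 3 = τ ((Equiv.swap 0 1 * Equiv.swap 2 3 : Equiv.Perm (Fin (2 + 2))) 3)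
      rw [e3]; exact h3
  · intro h
    refine ⟨?_, ?_, ?_, ?_⟩
    · have := h 0
      rwa [e0] at this
    · have := h 1
      rwa [e1] at this
    · have := h 2
      rw [e2] at this
      exact this
    · have := h 3
      rw [e3] at this
      exact this

end moments

end Cfsg.Agent.Lib.Helper96.FourTrans
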