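import Cfsg.Agent.Lib.Helper96.FourTransB
import Cfsg.Agent.Lib.Helper96.AltSq
import Cfsg.Agent.Lib.Helper4.PermChar
import Cfsg.Agent.Lib.Helper32.GenChar

set_option autoImplicit false
set_option linter.unusedSectionVars false

namespace Cfsg.Agent.Lib.Helper96.FourTrans

open Finset Cfsg
open scoped ComplexConjugate

variable {Ω : Type*} [Fintype Ω] [DecidableEq Ω]
variable {G : Type*} [Group G] [Fintype G] [MulAction G Ω]

theorem card_fixedBy (g : G) : Nat.card (MulAction.fixedBy Ω g) = ff (Ω := Ω) g := by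
  rw [ff, FF, Nat.card_eq_fintype_card, Fintype.card_subtype]
  rfl

theorem card_fixedBy_sq (g : G) :
    Nat.card (MulAction.fixedBy Ω (g * g)) = ff (Ω := Ω) g + tt (Ω := Ω) g := by
  rw [ff, tt, ← card_fix_sq, Nat.card_eq_fintype_card, Fintype.card_subtype]
  congr 1
  ext x
  simp only [mem_filter, mem_univ, true_and, MulAction.mem_fixedBy, mul_smul,
    MulAction.toPerm_apply]

/-- the character `Sym²(π) - 2π` -/
noncomputable def psiS (G : Type*) [Group G] (Ω : Type*) [MulAction G Ω] (g : G) : ℂ :=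
  ((Nat.card (MulAction.fixedBy Ω g) : ℂ) ^ 2 + (Nat.card (MulAction.fixedBy Ω (g * g)) : ℂ)) / 2
    - ((Nat.card (MulAction.fixedBy Ω g) : ℂ) + (Nat.card (MulAction.fixedBy Ω g) : ℂ))

/-- the character `Alt²(π) + 1 - π` -/
noncomputable def psiA (G : Type*) [Group G] (Ω : Type*) [MulAction G Ω] (g : G) : ℂ :=
  (((Nat.card (MulAction.fixedBy Ω g) : ℂ) ^ 2 - (Nat.card (MulAction.fixedBy Ω (g * g)) : ℂ)) / 2
    + 1) - (Nat.card (MulAction.fixedBy Ω g) : ℂ)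

theorem psiS_eq (g : G) : psiS G Ω g
    = (((ff (Ω := Ω) g : ℂ)) ^ 2 - 3 * (ff (Ω := Ω) g : ℂ) + (tt (Ω := Ω) g : ℂ)) / 2 := by
  rw [psiS, card_fixedBy, card_fixedBy_sq]
  push_cast
  ring

theorem psiA_eq (g : G) : psiA G Ω g
    = (((ff (Ω := Ω) g : ℂ)) ^ 2 - 3 * (ff (Ω := Ω) g : ℂ) + 2 - (tt (Ω := Ω) g : ℂ)) / 2 := by
  rw [psiA, card_fixedBy, card_fixedBy_sq]
  push_cast
  ring

theorem psiS_genChar : IsGeneralizedCharacter G (psiS G Ω) := by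
  have h1 : IsCharacter G (fun g => (Nat.card (MulAction.fixedBy Ω g) : ℂ)) :=
    Helper4.isCharacter_fixedBy
  exact ⟨_, _, isCharacter_symSq h1, Helper20.isCharacter_add h1 h1, rfl⟩

theorem psiA_genChar : IsGeneralizedCharacter G (psiA G Ω) := by
  have h1 : IsCharacter G (fun g => (Nat.card (MulAction.fixedBy Ω g) : ℂ)) :=
    Helper4.isCharacter_fixedBy
  exact ⟨_, _, Helper20.isCharacter_add (isCharacter_altSq h1)
    (Helper20.isCharacter_of_isIrrCharacter Helper83.isIrr_trivial), h1, rfl⟩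

theorem cast_desc2 (n : ℕ) : ((n.descFactorial 2 : ℕ) : ℂ) = (n : ℂ) * ((n : ℂ) - 1) := by
  rw [← descPochhammer_eval_eq_descFactorial ℂ]
  simp [descPochhammer_succ_right]

theorem cast_desc4 (n : ℕ) : ((n.descFactorial 4 : ℕ) : ℂ)
    = (n : ℂ) * ((n : ℂ) - 1) * ((n : ℂ) - 2) * ((n : ℂ) - 3) := by
  rw [← descPochhammer_eval_eq_descFactorial ℂ]
  simp [descPochhammer_succ_right]

section norm

variable (hk : 4 ≤ Fintype.card Ω) [MulAction.IsMultiplyPretransitive G Ω 4]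

include hk

theorem moments :
    (∑ g : G, (ff (Ω := Ω) g : ℂ) = Fintype.card G) ∧
    (∑ g : G, (ff (Ω := Ω) g : ℂ) * ((ff (Ω := Ω) g : ℂ) - 1) = Fintype.card G) ∧
    (∑ g : G, (ff (Ω := Ω) g : ℂ) * ((ff (Ω := Ω) g : ℂ) - 1) * ((ff (Ω := Ω) g : ℂ) - 2)
      * ((ff (Ω := Ω) g : ℂ) - 3) = Fintype.card G) ∧
    (∑ g : G, (tt (Ω := Ω) g : ℂ) = Fintype.card G) ∧
    (∑ g : G, (ff (Ω := Ω) g : ℂ) * (tt (Ω := Ω) g : ℂ) = Fintype.card G) ∧
    (∑ g : G, (ff (Ω := Ω) g : ℂ) * ((ff (Ω := Ω) g : ℂ) - 1) * (tt (Ω := Ω) g : ℂ)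
      = Fintype.card G) ∧
    (∑ g : G, ((tt (Ω := Ω) g : ℂ) * (tt (Ω := Ω) g : ℂ) - 2 * (tt (Ω := Ω) g : ℂ))
      = Fintype.card G) := by
  have hk' : 4 ≤ Nat.card Ω := by rwa [Nat.card_eq_fintype_card]
  have i1 : MulAction.IsMultiplyPretransitive G Ω 1 :=
    MulAction.isMultiplyPretransitive_of_le (n := 4) (by norm_num) hk'
  have i2 : MulAction.IsMultiplyPretransitive G Ω 2 :=
    MulAction.isMultiplyPretransitive_of_le (n := 4) (by norm_num) hk'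
  have i3 : MulAction.IsMultiplyPretransitive G Ω 3 :=
    MulAction.isMultiplyPretransitive_of_le (n := 4) (by norm_num) hk'
  have i2' : MulAction.IsMultiplyPretransitive G Ω (0 + 2) := i2
  have i3' : MulAction.IsMultiplyPretransitive G Ω (1 + 2) := i3
  have i4' : MulAction.IsMultiplyPretransitive G Ω (2 + 2) :=
    (inferInstance : MulAction.IsMultiplyPretransitive G Ω 4)
  have m1 := congrArg (Nat.cast : ℕ → ℂ) (mom_id (G := G) (Ω := Ω) 1 (by omega))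
  have m2 := congrArg (Nat.cast : ℕ → ℂ) (mom_id (G := G) (Ω := Ω) 2 (by omega))
  have m4 := congrArg (Nat.cast : ℕ → ℂ) (mom_id (G := G) (Ω := Ω) 4 (by omega))
  have t0 := congrArg (Nat.cast : ℕ → ℂ) (mom1 (G := G) (Ω := Ω) 0 (by omega))
  have t1 := congrArg (Nat.cast : ℕ → ℂ) (mom1 (G := G) (Ω := Ω) 1 (by omega))
  have t2 := congrArg (Nat.cast : ℕ → ℂ) (mom1 (G := G) (Ω := Ω) 2 (by omega))
  have c2 := congrArg (Nat.cast : ℕ → ℂ) (mom2 (G := G) (Ω := Ω) hk)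
  simp only [Nat.cast_sum, Nat.cast_mul, cast_desc2, cast_desc4, Nat.descFactorial_one,
    Nat.descFactorial_zero, Nat.cast_one, one_mul] at m1 m2 m4 t0 t1 t2 c2
  refine ⟨m1, m2, m4, t0, t1, t2, ?_⟩
  rw [← c2]
  refine sum_congr rfl (fun g _ => ?_)
  have := congrArg (Nat.cast : ℕ → ℂ) (cc_add (Ω := Ω) g)
  push_cast at this
  linear_combination -this

theorem norm_psiS : classInner (psiS G Ω) (psiS G Ω) = 1 := by
  obtain ⟨m1, m2, m4, t0, t1, t2, c2⟩ := moments (G := G) (Ω := Ω) hk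
  have hG : (Fintype.card G : ℂ) ≠ 0 := by
    exact_mod_cast Fintype.card_ne_zero
  rw [classInner, Nat.card_eq_fintype_card]
  have h1 : ∀ g : G, psiS G Ω g * conj (psiS G Ω g)
      = (1 / 4 : ℂ) * ((ff (Ω := Ω) g : ℂ) * ((ff (Ω := Ω) g : ℂ) - 1) * ((ff (Ω := Ω) g : ℂ) - 2)
          * ((ff (Ω := Ω) g : ℂ) - 3))
        - (1 / 2 : ℂ) * ((ff (Ω := Ω) g : ℂ) * ((ff (Ω := Ω) g : ℂ) - 1))
        + (ff (Ω := Ω) g : ℂ)
        + (1 / 2 : ℂ) * ((ff (Ω := Ω) g : ℂ) * ((ff (Ω := Ω) g : ℂ) - 1) * (tt (Ω := Ω) g : ℂ))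
        - ((ff (Ω := Ω) g : ℂ) * (tt (Ω := Ω) g : ℂ))
        + (1 / 4 : ℂ) * ((tt (Ω := Ω) g : ℂ) * (tt (Ω := Ω) g : ℂ) - 2 * (tt (Ω := Ω) g : ℂ))
        + (1 / 2 : ℂ) * (tt (Ω := Ω) g : ℂ) := by
    intro g
    rw [psiS_eq]
    simp only [map_div₀, map_add, map_sub, map_mul, map_pow, map_natCast, map_ofNat]
    ring
  simp only [h1, sum_add_distrib, sum_sub_distrib, ← mul_sum, m1, m2, m4, t0, t1, t2, c2]
  field_simp
  ring

theorem norm_psiA : classInner (psiA G Ω) (psiA G Ω) = 1 := by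
  obtain ⟨m1, m2, m4, t0, t1, t2, c2⟩ := moments (G := G) (Ω := Ω) hk
  have hG : (Fintype.card G : ℂ) ≠ 0 := by
    exact_mod_cast Fintype.card_ne_zero
  rw [classInner, Nat.card_eq_fintype_card]
  have h1 : ∀ g : G, psiA G Ω g * conj (psiA G Ω g)
      = (1 / 4 : ℂ) * ((ff (Ω := Ω) g : ℂ) * ((ff (Ω := Ω) g : ℂ) - 1) * ((ff (Ω := Ω) g : ℂ) - 2)
          * ((ff (Ω := Ω) g : ℂ) - 3))
        + (1 / 2 : ℂ) * ((ff (Ω := Ω) g : ℂ) * ((ff (Ω := Ω) g : ℂ) - 1))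
        - (ff (Ω := Ω) g : ℂ)
        - (1 / 2 : ℂ) * ((ff (Ω := Ω) g : ℂ) * ((ff (Ω := Ω) g : ℂ) - 1) * (tt (Ω := Ω) g : ℂ))
        + ((ff (Ω := Ω) g : ℂ) * (tt (Ω := Ω) g : ℂ))
        + (1 / 4 : ℂ) * ((tt (Ω := Ω) g : ℂ) * (tt (Ω := Ω) g : ℂ) - 2 * (tt (Ω := Ω) g : ℂ))
        - (1 / 2 : ℂ) * (tt (Ω := Ω) g : ℂ) + 1 := by
    intro g
    rw [psiA_eq]
    simp only [map_div₀, map_add, map_sub, map_mul, map_pow, map_natCast, map_ofNat]
    ring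
  simp only [h1, sum_add_distrib, sum_sub_distrib, ← mul_sum, m1, m2, m4, t0, t1, t2, c2,
    sum_const, card_univ, nsmul_eq_mul, mul_one]
  field_simp
  ring

theorem ff_one : ff (Ω := Ω) (1 : G) = Fintype.card Ω := by
  simp [ff, FF]

theorem tt_one : tt (Ω := Ω) (1 : G) = 0 := by
  simp [tt, TT]

theorem irr_of_norm {φ : G → ℂ} (hφ : IsGeneralizedCharacter G φ)
    (h : classInner φ φ = 1) (r : ℝ) (hr : 0 ≤ r) (hn : φ 1 = r) : IsIrrCharacter G φ := by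
  rcases Helper32.genChar_norm_one hφ h with h1 | h1
  · exact h1
  · exfalso
    obtain ⟨m, hm, hm1⟩ := Helper32.irr_apply_one h1
    rw [Pi.neg_apply, hn] at hm1
    have h2 : -r = (m : ℝ) := by exact_mod_cast hm1
    have h3 : (0 : ℝ) < m := by exact_mod_cast hm
    linarith

theorem psiS_irr : IsIrrCharacter G (psiS G Ω) := by
  have h4 : (4 : ℝ) ≤ (Fintype.card Ω : ℝ) := by exact_mod_cast hk
  refine irr_of_norm hk psiS_genChar (norm_psiS hk)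
    ((((Fintype.card Ω : ℝ)) ^ 2 - 3 * (Fintype.card Ω : ℝ)) / 2) (by nlinarith) ?_
  rw [psiS_eq, ff_one hk, tt_one hk]
  push_cast
  ring

theorem psiA_irr : IsIrrCharacter G (psiA G Ω) := by
  have h4 : (4 : ℝ) ≤ (Fintype.card Ω : ℝ) := by exact_mod_cast hk
  refine irr_of_norm hk psiA_genChar (norm_psiA hk)
    ((((Fintype.card Ω : ℝ)) ^ 2 - 3 * (Fintype.card Ω : ℝ) + 2) / 2) (by nlinarith) ?_
  rw [psiA_eq, ff_one hk, tt_one hk]
  push_cast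
  ring

end norm

end Cfsg.Agent.Lib.Helper96.FourTrans
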