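import Cfsg.Agent.Lib.Helper96.FourTransC

set_option autoImplicit false
set_option linter.unusedSectionVars false

namespace Cfsg.Agent.Lib.Helper96.FourTrans

open Finset Cfsg Equiv.Perm

variable {α : Type*} [Fintype α] [DecidableEq α]

theorem card_FF (x : Equiv.Perm α) : (FF x).card + x.cycleType.sum = Fintype.card α := by
  rw [sum_cycleType]
  have : FF x = x.supportᶜ := by
    ext a
    simp [FF]
  rw [this, card_compl]
  have := card_le_univ x.support
  omega

theorem two_mem_cycleType {x : Equiv.Perm α} {a : α} (h1 : x (x a) = a) (h2 : x a ≠ a) :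
    2 ∈ x.cycleType := by
  have hc : (x.cycleOf a).IsCycle := isCycle_cycleOf x h2
  have hmem : x.cycleOf a ∈ x.cycleFactorsFinset := by
    rw [cycleOf_mem_cycleFactorsFinset_iff, mem_support]
    exact h2
  have hca : x.cycleOf a a ≠ a := by
    rw [cycleOf_apply_self]; exact h2
  have hsq : (x.cycleOf a) ^ 2 = 1 := by
    rw [hc.pow_eq_one_iff' hca, cycleOf_pow_apply_self, pow_two, Equiv.Perm.mul_apply]
    exact h1
  have hd : (x.cycleOf a).support.card ∣ 2 := by
    rw [← hc.orderOf]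
    exact orderOf_dvd_of_pow_eq_one hsq
  have h2le := hc.two_le_card_support
  have hle := Nat.le_of_dvd (by norm_num) hd
  have hcard : (x.cycleOf a).support.card = 2 := le_antisymm hle h2le
  rw [cycleType_def, Multiset.mem_map]
  exact ⟨x.cycleOf a, hmem, hcard⟩

theorem TT_eq_empty {x : Equiv.Perm α} (h : 2 ∉ x.cycleType) : (TT x).card = 0 := by
  rw [card_eq_zero, TT, filter_eq_empty_iff]
  rintro a - ⟨h1, h2⟩
  exact h (two_mem_cycleType h1 h2)

/-- the data of a permutation with prescribed cycle type without 2-cycles -/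
theorem exists_elt (n : ℕ) (m : Multiset ℕ) (r : ℕ) (hsum : r + m.sum = n)
    (h3 : ∀ a ∈ m, 3 ≤ a) (hev : Even (m.sum + Multiset.card m)) :
    ∃ x : Equiv.Perm (Fin n), x ∈ alternatingGroup (Fin n) ∧ orderOf x = m.lcm ∧
      (FF x).card = r ∧ (TT x).card = 0 := by
  obtain ⟨x, hx⟩ := (Equiv.Perm.exists_with_cycleType_iff (α := Fin n) (m := m)).2
    ⟨by rw [Fintype.card_fin]; omega, fun a ha => by have := h3 a ha; omega⟩
  refine ⟨x, ?_, ?_, ?_, ?_⟩
  · rw [Equiv.Perm.mem_alternatingGroup, sign_of_cycleType, hx]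
    exact hev.neg_one_pow
  · rw [← lcm_cycleType, hx]
  · have := card_FF x
    rw [hx, Fintype.card_fin] at this
    omega
  · apply TT_eq_empty
    rw [hx]
    intro h
    have := h3 2 h
    omega

theorem exists_two_elt (n : ℕ) (hn : 8 ≤ n) :
    ∃ x : Equiv.Perm (Fin n), x ∈ alternatingGroup (Fin n) ∧ (∃ j : ℕ, orderOf x = 2 ^ j) ∧
      (FF x).card = n % 4 ∧ (TT x).card = 0 := by
  have key : ∃ m : Multiset ℕ, n % 4 + m.sum = n ∧ (∀ a ∈ m, 3 ≤ a) ∧
      Even (m.sum + Multiset.card m) ∧ ∀ a ∈ m, a ∣ 2 ^ 3 := by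
    rcases Nat.even_or_odd (n / 4) with he | ho
    · refine ⟨Multiset.replicate (n / 4) 4, ?_, ?_, ?_, ?_⟩
      · rw [Multiset.sum_replicate, smul_eq_mul]; omega
      · intro a ha
        rw [Multiset.eq_of_mem_replicate ha]; norm_num
      · rw [Multiset.sum_replicate, smul_eq_mul, Multiset.card_replicate]
        obtain ⟨k, hk⟩ := he
        exact ⟨5 * k, by omega⟩
      · intro a ha
        rw [Multiset.eq_of_mem_replicate ha]; norm_num
    · refine ⟨8 ::ₘ Multiset.replicate (n / 4 - 2) 4, ?_, ?_, ?_, ?_⟩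
      · rw [Multiset.sum_cons, Multiset.sum_replicate, smul_eq_mul]; omega
      · intro a ha
        rw [Multiset.mem_cons] at ha
        rcases ha with rfl | ha
        · norm_num
        · rw [Multiset.eq_of_mem_replicate ha]; norm_num
      · rw [Multiset.sum_cons, Multiset.sum_replicate, smul_eq_mul, Multiset.card_cons,
          Multiset.card_replicate]
        obtain ⟨k, hk⟩ := ho
        exact ⟨5 * k + 2, by omega⟩
      · intro a ha
        rw [Multiset.mem_cons] at ha
        rcases ha with rfl | ha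
        · norm_num
        · rw [Multiset.eq_of_mem_replicate ha]; norm_num
  obtain ⟨m, h1, h2, h3, h4⟩ := key
  obtain ⟨x, hx1, hx2, hx3, hx4⟩ := exists_elt n m (n % 4) h1 h2 h3
  refine ⟨x, hx1, ?_, hx3, hx4⟩
  have : orderOf x ∣ 2 ^ 3 := by
    rw [hx2, Multiset.lcm_dvd]
    exact h4
  obtain ⟨j, -, hj⟩ := (Nat.dvd_prime_pow Nat.prime_two).1 this
  exact ⟨j, hj⟩

theorem exists_three_elt (n : ℕ) (hn : 3 ≤ n) :
    ∃ x : Equiv.Perm (Fin n), x ∈ alternatingGroup (Fin n) ∧ orderOf x = 3 ∧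
      (FF x).card = n % 3 ∧ (TT x).card = 0 := by
  obtain ⟨x, hx1, hx2, hx3, hx4⟩ := exists_elt n (Multiset.replicate (n / 3) 3) (n % 3)
    (by rw [Multiset.sum_replicate, smul_eq_mul]; omega)
    (fun a ha => by rw [Multiset.eq_of_mem_replicate ha])
    (by
      rw [Multiset.sum_replicate, smul_eq_mul, Multiset.card_replicate]
      exact ⟨2 * (n / 3), by omega⟩)
  refine ⟨x, hx1, ?_, hx3, hx4⟩
  rw [hx2]
  obtain ⟨k, hk⟩ : ∃ k, n / 3 = k + 1 := ⟨n / 3 - 1, by omega⟩
  rw [hk]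
  clear hk hx2
  induction k with
  | zero => simp
  | succ k ih => rw [Multiset.replicate_succ, Multiset.lcm_cons, ih]; simp

theorem exists_two_elt_seven :
    ∃ x : Equiv.Perm (Fin 7), x ∈ alternatingGroup (Fin 7) ∧ (∃ j : ℕ, orderOf x = 2 ^ j) ∧
      (FF x).card = 1 ∧ (TT x).card = 2 := by
  refine ⟨c[0, 1, 2, 3] * c[4, 5], ?_, ?_, ?_, ?_⟩
  · rw [Equiv.Perm.mem_alternatingGroup]
    decide
  · have h : (c[0, 1, 2, 3] * c[4, 5] : Equiv.Perm (Fin 7)) ^ 2 ^ 2 = 1 := by decide
    obtain ⟨j, -, hj⟩ := (Nat.dvd_prime_pow Nat.prime_two).1 (orderOf_dvd_of_pow_eq_one h)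
    exact ⟨j, hj⟩
  · unfold FF
    decide
  · unfold TT
    decide

end Cfsg.Agent.Lib.Helper96.FourTrans
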