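import Mathlib
import Cfsg.Agent.Lib.Helper96.SylowAct

/-!
The centraliser of a subgroup `H` permutes the `H`-orbits; consequences for the order of the
centraliser of a Sylow subgroup of prime order.
-/

set_option autoImplicit false

namespace Cfsg.Agent.Lib.Helper96

open Subgroup MulAction

section OrbAct
variable {G Ω : Type*} [Group G] [MulAction G Ω] (H : Subgroup G)

/-- the centraliser of `H` permutes the `H`-orbits -/
def orbMap (c : centralizer (H : Set G)) : orbitRel.Quotient H Ω → orbitRel.Quotient H Ω :=
  Quotient.map' (fun ω => (c : G) • ω) (by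
    intro a b hab
    obtain ⟨h, rfl⟩ := hab
    refine ⟨h, ?_⟩
    change (h : G) • (c : G) • b = (c : G) • (h : G) • b
    rw [← mul_smul, ← mul_smul, (mem_centralizer_iff.1 c.2) h h.2])

/-- the action of the centraliser of `H` on the set of `H`-orbits -/
@[instance_reducible]
def orbAction : MulAction (centralizer (H : Set G)) (orbitRel.Quotient H Ω) where
  smul c := orbMap H c
  one_smul := by
    intro b
    induction b using Quotient.inductionOn' with
    | h ω =>
      change Quotient.mk'' (((1 : centralizer (H : Set G)) : G) • ω) = _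
      simp
  mul_smul := by
    intro c d b
    induction b using Quotient.inductionOn' with
    | h ω =>
      change Quotient.mk'' (((c * d : centralizer (H : Set G)) : G) • ω)
        = Quotient.mk'' ((c : G) • (d : G) • ω)
      simp [mul_smul]

theorem pow_smul_eq_of_smul_eq (c h : G) (hc : Commute c h) (ω : Ω) (h1 : c • ω = h • ω) (j : ℕ) :
    c ^ j • ω = h ^ j • ω := by
  induction j with
  | zero => simp
  | succ j ih =>
    rw [pow_succ', mul_smul, ih, ← mul_smul, (hc.pow_right j).eq, mul_smul, h1, ← mul_smul,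
      ← pow_succ]

/-- If `H` has exponent dividing `m` and the action is faithful, the centraliser of `H` has a
normal subgroup of exponent dividing `m` whose index divides the factorial of the number of
`H`-orbits. -/
theorem exists_ker_orbAction [Finite Ω] (hf : ∀ g : G, (∀ ω : Ω, g • ω = ω) → g = 1) (m : ℕ)
    (hm : ∀ h ∈ H, h ^ m = 1) :
    ∃ K : Subgroup (centralizer (H : Set G)), (∀ c ∈ K, c ^ m = 1) ∧
      K.index ∣ (Nat.card (orbitRel.Quotient H Ω)).factorial := by
  classical
  let _ := orbAction (Ω := Ω) H
  let φ := MulAction.toPermHom (centralizer (H : Set G)) (orbitRel.Quotient H Ω)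
  refine ⟨φ.ker, ?_, ?_⟩
  · intro c hc
    apply Subtype.ext
    rw [Subgroup.coe_pow, Subgroup.coe_one]
    apply hf
    intro ω
    have h1 : φ c (Quotient.mk'' ω) = Quotient.mk'' ω := by
      rw [MonoidHom.mem_ker.1 hc]; rfl
    have h2 : (Quotient.mk'' ((c : G) • ω) : orbitRel.Quotient H Ω) = Quotient.mk'' ω := h1
    rw [Quotient.eq''] at h2
    obtain ⟨h, hh⟩ := h2
    have hh' : (c : G) • ω = (h : G) • ω := hh.symm
    have hcomm : Commute (c : G) (h : G) := ((mem_centralizer_iff.1 c.2) h h.2).symm
    rw [pow_smul_eq_of_smul_eq (c : G) (h : G) hcomm ω hh' m, hm h h.2, one_smul]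
  · have : Fintype (orbitRel.Quotient H Ω) := Fintype.ofFinite _
    rw [Subgroup.index_ker, Nat.card_eq_fintype_card (α := orbitRel.Quotient H Ω),
      ← Fintype.card_perm, ← Nat.card_eq_fintype_card]
    exact card_subgroup_dvd_card _

end OrbAct

section SylPrime
variable {S : Type*} [Group S] [Finite S] {p : ℕ} [Fact p.Prime]

theorem exists_generator_of_prime_card (R : Subgroup S) (hR : Nat.card R = p) :
    ∃ x : S, orderOf x = p ∧ zpowers x = R := by
  obtain ⟨x, hx⟩ := exists_prime_orderOf_dvd_card' (G := R) p (by rw [hR])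
  refine ⟨x, by rw [Subgroup.orderOf_coe, hx], ?_⟩
  apply eq_of_le_of_card_ge
  · rw [zpowers_le]; exact x.2
  · rw [Nat.card_zpowers, Subgroup.orderOf_coe, hx, hR]

theorem zpowers_eq_of_prime_card (R : Subgroup S) (hR : Nat.card R = p) (y : S) (hy : y ∈ R)
    (hy1 : y ≠ 1) : zpowers y = R := by
  apply eq_of_le_of_card_ge
  · rw [zpowers_le]; exact hy
  · rw [Nat.card_zpowers, hR]
    have h1 : orderOf y ∣ p := by
      rw [← hR]
      have := orderOf_dvd_natCard (⟨y, hy⟩ : R)
      rwa [← Subgroup.orderOf_coe] at this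
    rcases (Nat.dvd_prime Fact.out).1 h1 with h | h
    · exact absurd (orderOf_eq_one_iff.1 h) hy1
    · exact h.ge

theorem not_sq_dvd_card (P : Sylow p S) (hP : Nat.card (P : Subgroup S) = p) :
    ¬ p ^ 2 ∣ Nat.card S := by
  intro h
  have h1 := P.card_eq_multiplicity
  rw [hP] at h1
  have h2 := (Nat.Prime.pow_dvd_iff_le_factorization Fact.out Nat.card_pos.ne').1 h
  have h3 : p ^ 2 ∣ p ^ (Nat.card S).factorization p := pow_dvd_pow p h2
  rw [← h1] at h3
  have h4 := Nat.le_of_dvd (Fact.out : p.Prime).pos h3
  have h5 : 1 < p := (Fact.out : p.Prime).one_lt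
  nlinarith

open Classical in
/-- number of orbits of a Sylow subgroup of prime order on the set of Sylow subgroups -/
theorem card_orbits_mul_of_prime (P : Sylow p S) (hP : Nat.card (P : Subgroup S) = p) :
    Nat.card (orbitRel.Quotient (P : Subgroup S) (Sylow p S)) * p
      = Nat.card (Sylow p S) + (p - 1) := by
  have : Fintype (Sylow p S) := Fintype.ofFinite _
  have : Fintype (P : Subgroup S) := Fintype.ofFinite _
  have : Fintype (Quotient (orbitRel (P : Subgroup S) (Sylow p S))) := Fintype.ofFinite _
  have h1 := sum_card_fixedBy_eq_card_orbits_mul_card_group (P : Subgroup S) (Sylow p S)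
  have h2 : ∀ a ∈ (Finset.univ : Finset (P : Subgroup S)).erase 1,
      Fintype.card (fixedBy (Sylow p S) a) = 1 := by
    intro a ha
    have ha1 : a ≠ 1 := (Finset.mem_erase.1 ha).1
    have h3 : zpowers (a : S) = (P : Subgroup S) :=
      zpowers_eq_of_prime_card _ hP a a.2 (fun h => ha1 (Subtype.ext h))
    have h4 := fixedBy_eq_singleton_of_zpowers P (a : S) h3
    have h5 : fixedBy (Sylow p S) a = {P} := h4
    rw [← Nat.card_eq_fintype_card, h5]
    simp
  rw [← Finset.add_sum_erase _ _ (Finset.mem_univ (1 : (P : Subgroup S))),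
    Finset.sum_congr rfl h2, Finset.sum_const, smul_eq_mul, mul_one,
    Finset.card_erase_of_mem (Finset.mem_univ _), Finset.card_univ,
    ← Nat.card_eq_fintype_card (α := (P : Subgroup S)), hP] at h1
  have h6 : Fintype.card (fixedBy (Sylow p S) (1 : (P : Subgroup S))) = Nat.card (Sylow p S) := by
    have h7 : fixedBy (Sylow p S) (1 : (P : Subgroup S)) = Set.univ := by
      ext Q; simp
    rw [← Nat.card_eq_fintype_card, h7]
    simp
  rw [h6] at h1
  rw [h1, Nat.card_eq_fintype_card]

/-- the order of the centraliser of a Sylow subgroup of prime order in a simple group -/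
theorem card_centralizer_dvd_of_prime [IsSimpleGroup S] (hn : 1 < Nat.card (Sylow p S))
    (P : Sylow p S) (hP : Nat.card (P : Subgroup S) = p) :
    Nat.card (centralizer ((P : Subgroup S) : Set S)) ∣
      p * (Nat.card (orbitRel.Quotient (P : Subgroup S) (Sylow p S))).factorial := by
  obtain ⟨K, hK1, hK2⟩ := exists_ker_orbAction (Ω := Sylow p S) (P : Subgroup S)
    (sylow_faithful hn) p (by
      intro h hh
      have := pow_card_eq_one' (G := (P : Subgroup S)) (x := ⟨h, hh⟩)
      rw [hP] at this
      exact congrArg Subtype.val this)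
  have hKp : IsPGroup p K := by
    intro c
    refine ⟨1, ?_⟩
    rw [pow_one]
    exact Subtype.ext (hK1 c c.2)
  obtain ⟨j, hj⟩ := IsPGroup.iff_card.1 hKp
  have h1 : Nat.card K ∣ Nat.card S :=
    (card_subgroup_dvd_card K).trans (card_subgroup_dvd_card _)
  have h2 : Nat.card K ∣ p := by
    rw [hj] at h1 ⊢
    rcases j with _ | _ | j
    · simp
    · simp
    · exfalso
      exact not_sq_dvd_card P hP ((pow_dvd_pow p (by omega)).trans h1)
  rw [← K.card_mul_index]
  exact mul_dvd_mul h2 hK2

end SylPrime

end Cfsg.Agent.Lib.Helper96
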