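import Mathlib
import Cfsg.Agent.Lib.Helper96.SylowAct

/-!
Sylow subgroups meeting in a subgroup of index `p`: the "lines" `{R | P ⊓ Q ≤ R}` form a partial
linear space without proper triangles.  Under arithmetic conditions on the number `n` of Sylow
`p`-subgroups of a simple group this forces the Sylow subgroups to have order `p`.
-/

set_option autoImplicit false

namespace Cfsg.Agent.Lib.Helper96

open Subgroup MulAction
open scoped Pointwise

section Lines
variable {S : Type*} [Group S] [Finite S] {p : ℕ} [Fact p.Prime]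

/-- two Sylow subgroups meeting in a subgroup of index `p` -/
def SAdj (P Q : Sylow p S) : Prop :=
  Nat.card ((P : Subgroup S) ⊓ Q : Subgroup S) * p = Nat.card (P : Subgroup S)

theorem SAdj.symm {P Q : Sylow p S} (h : SAdj P Q) : SAdj Q P := by
  unfold SAdj at h ⊢
  rw [inf_comm, h, card_sylow_eq_card P Q]

theorem SAdj.ne {P Q : Sylow p S} (h : SAdj P Q) : P ≠ Q := by
  rintro rfl
  unfold SAdj at h
  rw [inf_idem] at h
  have h0 : 0 < Nat.card (P : Subgroup S) := Nat.card_pos
  have h1 : 1 < p := (Fact.out : p.Prime).one_lt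
  nlinarith

omit [Finite S] [Fact p.Prime] in
theorem SAdj.smul {P Q : Sylow p S} (h : SAdj P Q) (g : S) : SAdj (g • P) (g • Q) := by
  unfold SAdj at h ⊢
  rw [Sylow.coe_subgroup_smul, Sylow.coe_subgroup_smul, ← Subgroup.smul_inf,
    ← Nat.card_congr (Subgroup.equivSMul (MulAut.conj g) ((P : Subgroup S) ⊓ Q)).toEquiv,
    ← Nat.card_congr (Subgroup.equivSMul (MulAut.conj g) (P : Subgroup S)).toEquiv]
  exact h

omit [Finite S] [Fact p.Prime] in
theorem SAdj.of_smul {P Q : Sylow p S} (g : S) (h : SAdj (g • P) (g • Q)) : SAdj P Q := by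
  have := h.smul g⁻¹
  rwa [inv_smul_smul, inv_smul_smul] at this

/-- a subgroup of index `p` of a Sylow subgroup is normalised by it -/
theorem conj_mem_of_index_p (P : Sylow p S) (D : Subgroup S) (hD : D ≤ P)
    (hcard : Nat.card D * p = Nat.card (P : Subgroup S)) (x : S) (hx : x ∈ (P : Subgroup S))
    (d : S) (hd : d ∈ D) : x * d * x⁻¹ ∈ D := by
  have h1 : (D.subgroupOf (P : Subgroup S)).index = p := by
    have h2 := relIndex_mul_relIndex ⊥ D (P : Subgroup S) bot_le hD
    rw [relIndex_bot_left, relIndex_bot_left, ← hcard] at h2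
    exact Nat.eq_of_mul_eq_mul_left Nat.card_pos h2
  obtain ⟨k, hk⟩ := IsPGroup.iff_card.1 P.2
  have hk0 : k ≠ 0 := by
    rintro rfl
    rw [pow_zero] at hk
    rw [hk] at hcard
    have := Nat.eq_one_of_mul_eq_one_left hcard
    exact (Fact.out : p.Prime).one_lt.ne' this
  have h3 : (Nat.card (P : Subgroup S)).minFac = p := by
    rw [hk, Nat.pow_minFac hk0, (Fact.out : p.Prime).minFac_eq]
  have hn : (D.subgroupOf (P : Subgroup S)).Normal :=
    normal_of_index_eq_minFac_card (by rw [h1, h3])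
  have h4 := hn.conj_mem ⟨d, hD hd⟩ (by rw [mem_subgroupOf]; exact hd) ⟨x, hx⟩
  rw [mem_subgroupOf] at h4
  exact h4

/-- two distinct Sylow subgroups containing `D` of index `p` meet exactly in `D` -/
theorem inf_eq_of_le (R R' : Sylow p S) (hne : R ≠ R') (D : Subgroup S) (h1 : D ≤ R) (h2 : D ≤ R')
    (hcard : Nat.card D * p = Nat.card (R : Subgroup S)) :
    ((R : Subgroup S) ⊓ R' : Subgroup S) = D := by
  symm
  apply eq_of_le_of_card_ge (le_inf h1 h2)
  have hd1 : Nat.card D ∣ Nat.card ((R : Subgroup S) ⊓ R' : Subgroup S) :=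
    card_dvd_of_le (le_inf h1 h2)
  have hd2 : Nat.card ((R : Subgroup S) ⊓ R' : Subgroup S) ∣ Nat.card (R : Subgroup S) :=
    card_dvd_of_le inf_le_left
  obtain ⟨j, hj⟩ := hd1
  rw [hj, ← hcard] at hd2
  have hjp : j ∣ p := Nat.dvd_of_mul_dvd_mul_left Nat.card_pos hd2
  rcases (Nat.dvd_prime Fact.out).1 hjp with rfl | rfl
  · rw [hj, mul_one]
  · exfalso
    apply hne
    have h3 : ((R : Subgroup S) ⊓ R' : Subgroup S) = R :=
      eq_of_le_of_card_ge inf_le_left (by rw [hj, hcard])
    have h4 : (R : Subgroup S) ≤ R' := by rw [← h3]; exact inf_le_right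
    exact Sylow.ext (R.3 R'.2 h4).symm

theorem sadj_of_le (R R' : Sylow p S) (hne : R ≠ R') (D : Subgroup S) (h1 : D ≤ R) (h2 : D ≤ R')
    (hcard : Nat.card D * p = Nat.card (R : Subgroup S)) : SAdj R R' := by
  unfold SAdj
  rw [inf_eq_of_le R R' hne D h1 h2 hcard, hcard]

omit [Finite S] [Fact p.Prime] in
theorem mem_smul_sylow_iff (g x : S) (X : Sylow p S) :
    x ∈ ((g • X : Sylow p S) : Subgroup S) ↔ g⁻¹ * x * g ∈ (X : Subgroup S) := by
  rw [Sylow.coe_subgroup_smul, Subgroup.mem_pointwise_smul_iff_inv_smul_mem, MulAut.smul_def,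
    MulAut.conj_inv_apply]

/-- no proper triangles -/
theorem triangle {P Q X : Sylow p S} (hPQ : SAdj P Q) (hQX : SAdj Q X) (hPX : SAdj P X) :
    ((P : Subgroup S) ⊓ Q : Subgroup S) ≤ X := by
  have hD : IsPGroup p ((P : Subgroup S) ⊓ Q : Subgroup S) := P.2.to_le inf_le_left
  by_contra hcon
  apply hcon
  apply le_sylow_of_fixes _ hD
  intro d hd
  by_contra hdX
  have hPX' : Nat.card ((P : Subgroup S) ⊓ X : Subgroup S) * p = Nat.card (X : Subgroup S) := by
    rw [hPX, card_sylow_eq_card P X]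
  have hQX' : Nat.card ((Q : Subgroup S) ⊓ X : Subgroup S) * p = Nat.card (X : Subgroup S) := by
    rw [hQX, card_sylow_eq_card Q X]
  have e1 : ((X : Subgroup S) ⊓ (d • X : Sylow p S) : Subgroup S) = (P : Subgroup S) ⊓ X := by
    apply inf_eq_of_le X (d • X) (fun h => hdX h.symm) _ inf_le_right _ hPX'
    intro y hy
    rw [mem_smul_sylow_iff]
    have := conj_mem_of_index_p P _ inf_le_left hPX d⁻¹ (inv_mem hd.1) y hy
    rw [inv_inv] at this
    exact this.2
  have e2 : ((X : Subgroup S) ⊓ (d • X : Sylow p S) : Subgroup S) = (Q : Subgroup S) ⊓ X := by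
    apply inf_eq_of_le X (d • X) (fun h => hdX h.symm) _ inf_le_right _ hQX'
    intro y hy
    rw [mem_smul_sylow_iff]
    have := conj_mem_of_index_p Q _ inf_le_left hQX d⁻¹ (inv_mem hd.2) y hy
    rw [inv_inv] at this
    exact this.2
  have e3 : ((P : Subgroup S) ⊓ X : Subgroup S) = (P : Subgroup S) ⊓ Q := by
    apply eq_of_le_of_card_ge
    · apply le_inf inf_le_left
      rw [← e1, e2]
      exact inf_le_left
    · have h1 : Nat.card ((P : Subgroup S) ⊓ X : Subgroup S) * p
          = Nat.card ((P : Subgroup S) ⊓ Q : Subgroup S) * p := by rw [hPX, hPQ]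
      exact (Nat.eq_of_mul_eq_mul_right (Fact.out : p.Prime).pos h1).ge
  apply hcon
  rw [← e3]
  exact inf_le_right

/-- number of neighbours -/
noncomputable def nbCard (P : Sylow p S) : ℕ := Nat.card {Q : Sylow p S // SAdj P Q}

omit [Finite S] [Fact p.Prime] in
theorem nbCard_smul (g : S) (P : Sylow p S) : nbCard (g • P) = nbCard P := by
  unfold nbCard
  apply Nat.card_congr
  refine ⟨fun Q => ⟨g⁻¹ • Q.1, ?_⟩, fun Q => ⟨g • Q.1, Q.2.smul g⟩, ?_, ?_⟩
  · have := Q.2.smul g⁻¹
    rwa [inv_smul_smul] at this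
  · intro Q; simp
  · intro Q; simp

theorem nbCard_eq (P Q : Sylow p S) : nbCard P = nbCard Q := by
  obtain ⟨g, rfl⟩ := exists_smul_eq S P Q
  rw [nbCard_smul]

theorem dvd_card_orbit_of_not_sadj (P Q : Sylow p S) (hne : Q ≠ P) (h : ¬ SAdj P Q) :
    p ^ 2 ∣ Nat.card (orbit (P : Subgroup S) Q) := by
  obtain ⟨i, hi⟩ := P.2.card_orbit Q
  have h1 := card_orbit_mul_card_inf P Q
  rw [hi] at h1 ⊢
  rcases i with _ | _ | i
  · exfalso
    apply hne
    rw [pow_zero, one_mul] at h1
    have h3 : ((P : Subgroup S) ⊓ Q : Subgroup S) = P :=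
      eq_of_le_of_card_ge inf_le_left h1.ge
    have h4 : (P : Subgroup S) ≤ Q := by rw [← h3]; exact inf_le_right
    exact Sylow.ext (P.3 Q.2 h4)
  · exfalso
    apply h
    unfold SAdj
    rw [← h1]
    ring
  · exact pow_dvd_pow p (by omega)

open Classical in
theorem card_eq_one_add_nbCard_add (P : Sylow p S) :
    ∃ b : ℕ, Nat.card (Sylow p S) = 1 + nbCard P + p ^ 2 * b := by
  let A : SubMulAction (P : Subgroup S) (Sylow p S) :=
    { carrier := {Q | Q ≠ P ∧ ¬ SAdj P Q}
      smul_mem' := by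
        rintro x Q ⟨h1, h2⟩
        have hx : (x : S) • P = P := sylow_smul_self P x x.2
        refine ⟨?_, ?_⟩
        · intro h
          apply h1
          have h3 : (x : S) • Q = (x : S) • P := by rw [hx]; exact h
          exact smul_left_cancel _ h3
        · intro h
          apply h2
          have h3 : SAdj ((x : S) • P) ((x : S) • Q) := by rw [hx]; exact h
          exact h3.of_smul }
  have hA : p ^ 2 ∣ Nat.card A := by
    apply dvd_card_of_dvd_card_orbit (G := (P : Subgroup S))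
    intro a
    have h1 := dvd_card_orbit_of_not_sadj P a.1 a.2.1 a.2.2
    have h2 := index_stabilizer (P : Subgroup S) a
    have h3 := index_stabilizer (P : Subgroup S) (a : Sylow p S)
    rw [SubMulAction.stabilizer_of_subMul] at h2
    have h4 : Nat.card (orbit (P : Subgroup S) a) = Nat.card (orbit (P : Subgroup S) (a : Sylow p S)) := by
      change (orbit (P : Subgroup S) a).ncard = (orbit (P : Subgroup S) (a : Sylow p S)).ncard
      rw [← h2, ← h3]
    rw [h4]
    exact h1
  obtain ⟨b, hb⟩ := hA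
  refine ⟨b, ?_⟩
  rw [← hb]
  have : Fintype (Sylow p S) := Fintype.ofFinite _
  have e1 : Nat.card A = (Finset.univ.filter (fun Q : Sylow p S => Q ≠ P ∧ ¬ SAdj P Q)).card := by
    rw [← Fintype.card_subtype, ← Nat.card_eq_fintype_card]
    rfl
  have e2 : nbCard P = (Finset.univ.filter (fun Q : Sylow p S => SAdj P Q)).card := by
    rw [← Fintype.card_subtype, ← Nat.card_eq_fintype_card]
    rfl
  have e3 := Finset.card_filter_add_card_filter_not (s := (Finset.univ : Finset (Sylow p S)))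
    (fun Q : Sylow p S => SAdj P Q)
  have e4 := Finset.card_filter_add_card_filter_not
    (s := (Finset.univ.filter (fun Q : Sylow p S => ¬ SAdj P Q))) (fun Q : Sylow p S => Q = P)
  have e5 : ((Finset.univ.filter (fun Q : Sylow p S => ¬ SAdj P Q)).filter
      (fun Q : Sylow p S => Q = P)) = {P} := by
    ext Q
    simp only [Finset.mem_filter, Finset.mem_univ, true_and, Finset.mem_singleton]
    constructor
    · exact fun h => h.2
    · rintro rfl
      exact ⟨fun h => h.ne rfl, rfl⟩
  have e6 : ((Finset.univ.filter (fun Q : Sylow p S => ¬ SAdj P Q)).filter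
      (fun Q : Sylow p S => ¬ Q = P)) = Finset.univ.filter (fun Q : Sylow p S => Q ≠ P ∧ ¬ SAdj P Q) := by
    ext Q
    simp only [Finset.mem_filter, Finset.mem_univ, true_and]
    tauto
  rw [e5, e6, Finset.card_singleton] at e4
  rw [Nat.card_eq_fintype_card, e1, e2, ← Finset.card_univ]
  omega

theorem card_line_modEq (D : Subgroup S) (hD : IsPGroup p D) :
    Nat.card (Sylow p S) ≡ Nat.card {R : Sylow p S // D ≤ R} [MOD p] := by
  have h1 := hD.card_modEq_card_fixedPoints (Sylow p S)
  have h2 : Nat.card (fixedPoints D (Sylow p S)) = Nat.card {R : Sylow p S // D ≤ R} := by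
    apply Nat.card_congr
    apply Equiv.subtypeEquivRight
    intro R
    exact hD.sylow_mem_fixedPoints_iff
  rwa [h2] at h1

open Classical in
theorem line_facts (P Q : Sylow p S) (h : SAdj P Q) :
    ∃ k : ℕ, k = Nat.card {R : Sylow p S // ((P : Subgroup S) ⊓ Q : Subgroup S) ≤ R} ∧ 2 ≤ k ∧
      k ≤ nbCard P + 1 ∧ k * (nbCard P + 1 - k) + k ≤ Nat.card (Sylow p S) ∧
      (k = nbCard P + 1 → ∀ X : Sylow p S, SAdj P X → ((P : Subgroup S) ⊓ Q : Subgroup S) ≤ X) := by
  have : Fintype (Sylow p S) := Fintype.ofFinite _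
  set D : Subgroup S := (P : Subgroup S) ⊓ Q with hDdef
  set L : Finset (Sylow p S) := Finset.univ.filter (fun R : Sylow p S => D ≤ R) with hL
  let nbF : Sylow p S → Finset (Sylow p S) := fun R => Finset.univ.filter (fun Y => SAdj R Y)
  have hnb : ∀ R, (nbF R).card = nbCard P := by
    intro R
    rw [nbCard_eq P R, ← Fintype.card_subtype, ← Nat.card_eq_fintype_card]
    rfl
  have hk : L.card = Nat.card {R : Sylow p S // D ≤ R} := by
    rw [← Fintype.card_subtype, ← Nat.card_eq_fintype_card]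
  have hcardD : ∀ R : Sylow p S, Nat.card D * p = Nat.card (R : Subgroup S) := by
    intro R
    rw [card_sylow_eq_card R P]
    exact h
  have hPL : P ∈ L := by simp [hL, hDdef]
  have hQL : Q ∈ L := by simp [hL, hDdef]
  have hsub : ∀ R ∈ L, nbF R ∩ L = L.erase R := by
    intro R hR
    have hR' : D ≤ R := (Finset.mem_filter.1 hR).2
    ext Y
    simp only [nbF, Finset.mem_inter, Finset.mem_filter, Finset.mem_univ, true_and,
      Finset.mem_erase]
    constructor
    · rintro ⟨h1, h2⟩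
      exact ⟨fun e => h1.ne e.symm, h2⟩
    · rintro ⟨h1, h2⟩
      have h2' : D ≤ Y := (Finset.mem_filter.1 h2).2
      exact ⟨sadj_of_le R Y (fun e => h1 e.symm) D hR' h2' (hcardD R), h2⟩
  have hE : ∀ R ∈ L, (nbF R \ L).card = nbCard P + 1 - L.card := by
    intro R hR
    have h1 := Finset.card_sdiff_add_card_inter (nbF R) L
    rw [hsub R hR, Finset.card_erase_of_mem hR, hnb R] at h1
    have h2 : 0 < L.card := Finset.card_pos.2 ⟨R, hR⟩
    omega
  have hle : L.card ≤ nbCard P + 1 := by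
    have h1 := Finset.card_sdiff_add_card_inter (nbF P) L
    rw [hsub P hPL, Finset.card_erase_of_mem hPL, hnb P] at h1
    omega
  have hdisj : ∀ R ∈ L, ∀ R' ∈ L, R ≠ R' → Disjoint (nbF R \ L) (nbF R' \ L) := by
    intro R hR R' hR' hne
    rw [Finset.disjoint_left]
    intro Y hY hY'
    rw [Finset.mem_sdiff] at hY hY'
    apply hY.2
    have hRD : D ≤ R := (Finset.mem_filter.1 hR).2
    have hRD' : D ≤ R' := (Finset.mem_filter.1 hR').2
    have a1 : SAdj R Y := (Finset.mem_filter.1 hY.1).2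
    have a2 : SAdj R' Y := (Finset.mem_filter.1 hY'.1).2
    have a3 : SAdj R R' := sadj_of_le R R' hne D hRD hRD' (hcardD R)
    have h3 := triangle a3 a2 a1
    rw [inf_eq_of_le R R' hne D hRD hRD' (hcardD R)] at h3
    exact Finset.mem_filter.2 ⟨Finset.mem_univ _, h3⟩
  have hbi := Finset.card_biUnion hdisj
  rw [Finset.sum_congr rfl hE, Finset.sum_const, smul_eq_mul] at hbi
  have hsubs : L.biUnion (fun R => nbF R \ L) ⊆ Finset.univ \ L := by
    intro Y hY
    obtain ⟨R, _, hY'⟩ := Finset.mem_biUnion.1 hY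
    exact Finset.mem_sdiff.2 ⟨Finset.mem_univ _, (Finset.mem_sdiff.1 hY').2⟩
  have hc := Finset.card_le_card hsubs
  have hc2 := Finset.card_sdiff_add_card_inter (Finset.univ : Finset (Sylow p S)) L
  rw [Finset.univ_inter, Finset.card_univ, ← Nat.card_eq_fintype_card] at hc2
  refine ⟨L.card, hk, ?_, hle, ?_, ?_⟩
  · have : ({P, Q} : Finset (Sylow p S)) ⊆ L := by
      intro Y hY
      rcases Finset.mem_insert.1 hY with rfl | hY
      · exact hPL
      · rw [Finset.mem_singleton.1 hY]; exact hQL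
    have h2 := Finset.card_le_card this
    rwa [Finset.card_pair h.ne] at h2
  · rw [hbi] at hc
    omega
  · intro hkk X hX
    have h1 := hE P hPL
    rw [hkk, Nat.sub_self, Finset.card_eq_zero] at h1
    have h2 : X ∈ nbF P := Finset.mem_filter.2 ⟨Finset.mem_univ _, hX⟩
    by_contra hcon
    have h3 : X ∈ nbF P \ L := by
      rw [Finset.mem_sdiff]
      exact ⟨h2, fun h4 => hcon (Finset.mem_filter.1 h4).2⟩
    rw [h1] at h3
    exact absurd h3 (Finset.notMem_empty _)

/-- Under arithmetic conditions on the number `n` of Sylow `p`-subgroups of a simple group, the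
Sylow `p`-subgroups have order `p`. -/
theorem card_sylow_eq_p_of_arith [IsSimpleGroup S] (n : ℕ) (hn : Nat.card (Sylow p S) = n)
    (hn1 : 1 < n) (hdiv : ∀ d, d ∣ n → d ≡ 1 [MOD p] → d = 1 ∨ d = n)
    (harith : ∀ θ k b, n = 1 + θ + p ^ 2 * b → 2 ≤ k → k ≡ 1 [MOD p] → k ≤ θ + 1 →
      k * (θ + 1 - k) + k ≤ n → k = θ + 1)
    (hex : ∀ b, n ≠ 1 + p ^ 2 * b) (P : Sylow p S) : Nat.card (P : Subgroup S) = p := by
  have hmod : n ≡ 1 [MOD p] := by rw [← hn]; exact card_sylow_modEq_one p S
  -- every neighbour of `P'` lies on the line through `P'` and `Q'`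
  have hstar : ∀ P' Q' X : Sylow p S, SAdj P' Q' → SAdj P' X →
      ((P' : Subgroup S) ⊓ Q' : Subgroup S) ≤ X := by
    intro P' Q' X h1 h2
    obtain ⟨k, hk, hk2, hle, hineq, himp⟩ := line_facts P' Q' h1
    obtain ⟨b, hb⟩ := card_eq_one_add_nbCard_add P'
    have hkm : k ≡ 1 [MOD p] := by
      have := card_line_modEq ((P' : Subgroup S) ⊓ Q' : Subgroup S) (P'.2.to_le inf_le_left)
      rw [← hk, hn] at this
      exact this.symm.trans hmod
    rw [hn] at hb hineq
    exact himp (harith _ k b hb hk2 hkm hle hineq) X h2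
  -- there is a neighbour
  have hexQ : ∃ Q : Sylow p S, SAdj P Q := by
    by_contra hcon
    push Not at hcon
    obtain ⟨b, hb⟩ := card_eq_one_add_nbCard_add P
    have h0 : nbCard P = 0 := by
      unfold nbCard
      have : IsEmpty {Q : Sylow p S // SAdj P Q} := ⟨fun Q => hcon Q.1 Q.2⟩
      exact Nat.card_of_isEmpty
    rw [h0, hn, add_zero] at hb
    exact hex b hb
  obtain ⟨Q, hPQ⟩ := hexQ
  set D : Subgroup S := (P : Subgroup S) ⊓ Q with hDdef
  have hcardD : ∀ R : Sylow p S, Nat.card D * p = Nat.card (R : Subgroup S) := by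
    intro R
    rw [card_sylow_eq_card R P]
    exact hPQ
  let B : Set (Sylow p S) := {R | D ≤ R}
  have hPB : P ∈ B := (inf_le_left : (P : Subgroup S) ⊓ Q ≤ P)
  have hQB : Q ∈ B := (inf_le_right : (P : Subgroup S) ⊓ Q ≤ Q)
  -- neighbours of points of `B` are in `B`
  have hclosed : ∀ Y Z : Sylow p S, Y ∈ B → SAdj Y Z → Z ∈ B := by
    intro Y Z hY hYZ
    have hex2 : ∃ Q' ∈ B, Q' ≠ Y := by
      by_cases hYP : Y = P
      · exact ⟨Q, hQB, fun e => hPQ.ne (hYP.symm.trans e.symm)⟩
      · exact ⟨P, hPB, fun e => hYP e.symm⟩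
    obtain ⟨Q', hQ'B, hQ'Y⟩ := hex2
    have h1 : SAdj Y Q' := sadj_of_le Y Q' hQ'Y.symm D hY hQ'B (hcardD Y)
    have h2 := hstar Y Q' Z h1 hYZ
    rwa [inf_eq_of_le Y Q' hQ'Y.symm D hY hQ'B (hcardD Y)] at h2
  have hsub : ∀ (g : S) (a : Sylow p S), a ∈ B → g • a ∈ B → ∀ R ∈ B, g • R ∈ B := by
    intro g a ha hga R hR
    by_cases hRa : R = a
    · rw [hRa]; exact hga
    · have h1 : SAdj a R := sadj_of_le a R (fun e => hRa e.symm) D ha hR (hcardD a)
      exact hclosed _ _ hga (h1.smul g)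
  have hblock : IsBlock S B := by
    rw [isBlock_iff_smul_eq_of_mem]
    intro g a ha hga
    apply Set.Subset.antisymm
    · rintro _ ⟨R, hR, rfl⟩
      exact hsub g a ha hga R hR
    · intro R hR
      refine ⟨g⁻¹ • R, hsub g⁻¹ (g • a) hga (by rwa [inv_smul_smul]) R hR, ?_⟩
      simp
  have hdvd := hblock.ncard_dvd_card ⟨P, hPB⟩
  rw [hn] at hdvd
  have hBk : B.ncard = Nat.card {R : Sylow p S // D ≤ R} := rfl
  have hBm : B.ncard ≡ 1 [MOD p] := by
    have := card_line_modEq D (P.2.to_le inf_le_left)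
    rw [← hBk, hn] at this
    exact this.symm.trans hmod
  have hB2 : B.ncard ≠ 1 := by
    intro h1
    rw [Set.ncard_eq_one] at h1
    obtain ⟨a, ha⟩ := h1
    rw [ha] at hPB hQB
    exact hPQ.ne ((Set.mem_singleton_iff.1 hPB).trans (Set.mem_singleton_iff.1 hQB).symm)
  have hBn : B.ncard = n := (hdiv _ hdvd hBm).resolve_left hB2
  have hBuniv : B = Set.univ := by
    rw [Set.eq_univ_iff_ncard, hn]
    exact hBn
  have hDbot : D = ⊥ := by
    rw [eq_bot_iff]
    intro d hd
    rw [mem_bot]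
    apply sylow_faithful (p := p) (by rw [hn]; exact hn1)
    intro R
    have hR : R ∈ B := by rw [hBuniv]; trivial
    exact fixes_of_le_sylow D R hR d hd
  have := hcardD P
  rw [hDbot, card_bot, one_mul] at this
  exact this.symm

end Lines

end Cfsg.Agent.Lib.Helper96
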