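import Cfsg.Agent.Lib.Helper96.TwoP9
import Cfsg.Agent.S0719

/-!
# Degree `2p`: the abstract form of Wielandt's theorem (fixed-point-free case)
-/

set_option autoImplicit false
set_option linter.unusedSectionVars false

namespace Cfsg.Agent.Lib.Helper96

open Cfsg Subgroup
open scoped Classical
open scoped ComplexConjugate

section Main

variable {G : Type*} [Group G] [Fintype G] {Ω : Type*} [Fintype Ω] [MulAction G Ω] {p : ℕ}

theorem step6 [FaithfulSMul G Ω] (hp : p.Prime) (hp2 : p ≠ 2)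
    (hcard : Fintype.card Ω = 2 * p)
    (hprim : MulAction.IsPreprimitive G Ω) {x : G} (hx : orderOf x = p)
    (hfpf : ∀ g : G, orderOf g = p → ∀ a : Ω, g • a ≠ a)
    (hcent : ∀ c : G, c * x = x * c → c ∈ zpowers x) {χ₁ : G → ℂ}
    (hirr : IsIrrCharacter G χ₁) (hne1 : χ₁ ≠ fun _ => 1)
    (hmult : classInner (fun g : G => (Nat.card (MulAction.fixedBy Ω g) : ℂ)) χ₁ = 1)
    (h01 : ksum (zpowers x) χ₁ = 0)
    (hN : χ₁ 1 * p = (Nat.card (nrm x) : ℂ))
    (huniq : ∀ ψ : G → ℂ, IsIrrCharacter G ψ → (∀ y ∈ zpowers x, ψ y = χ₁ y) → ψ = χ₁)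
    (a₀ : Ω) : False := by
  have hsum := sum_eq_zero_of_irr_ne_one hirr hne1
  obtain ⟨n, ρ, hρ, rfl⟩ := id hirr
  by_cases hns : ∀ n ∈ nrm x, n • a₀ ∈ orb x a₀
  · exact step6_nonswap hp hcard hprim hx hfpf hcent ρ hsum hmult h01 hN a₀ hns
  · push Not at hns
    obtain ⟨w, hw, hwa⟩ := hns
    exact step6_swap hp hp2 hcard hprim hx hfpf hcent ρ hirr hsum hmult h01 hN huniq a₀ hw hwa

theorem classInner_decomp_left (χ₀ : G → ℂ) (X : Finset (IrrCharacter G)) (ψ : G → ℂ) :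
    classInner (fun g => 1 + χ₀ g + ∑ χ ∈ X, (χ : G → ℂ) g) ψ
      = classInner (fun _ => 1) ψ + classInner χ₀ ψ + ∑ χ ∈ X, classInner (χ : G → ℂ) ψ := by
  have : (fun g => 1 + χ₀ g + ∑ χ ∈ X, (χ : G → ℂ) g)
      = (fun _ => (1 : ℂ)) + χ₀ + ∑ χ ∈ X, (χ : G → ℂ) := by
    ext g; simp [Finset.sum_apply]
  rw [this, Helper20.classInner_add_left, Helper20.classInner_add_left,
    Helper20.classInner_sum_left]

theorem classInner_decomp_right (χ₀ : G → ℂ) (X : Finset (IrrCharacter G)) (φ : G → ℂ) :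
    classInner φ (fun g => 1 + χ₀ g + ∑ χ ∈ X, (χ : G → ℂ) g)
      = classInner φ (fun _ => 1) + classInner φ χ₀ + ∑ χ ∈ X, classInner φ (χ : G → ℂ) := by
  have : (fun g => 1 + χ₀ g + ∑ χ ∈ X, (χ : G → ℂ) g)
      = (fun _ => (1 : ℂ)) + χ₀ + ∑ χ ∈ X, (χ : G → ℂ) := by
    ext g; simp [Finset.sum_apply]
  rw [this, Helper20.classInner_add_right, Helper20.classInner_add_right,
    Helper20.classInner_sum_right]

/-- Wielandt's theorem for degree `2p`, when all elements of order `p` are fixed-point-free. -/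
theorem two_p_main [FaithfulSMul G Ω] (hp : p.Prime) (hp2 : p ≠ 2)
    (hcard : Fintype.card Ω = 2 * p)
    (hprim : MulAction.IsPreprimitive G Ω) {x : G} (hx : orderOf x = p)
    (hfpf : ∀ g : G, orderOf g = p → ∀ a : Ω, g • a ≠ a) (a₀ : Ω) :
    MulAction.IsMultiplyPretransitive G Ω 2 ∨
      (Nat.card (MulAction.orbitRel.Quotient (MulAction.stabilizer G a₀) Ω) = 3 ∧
        ∃ a : ℕ, 0 < a ∧ p = 2 * a ^ 2 + 2 * a + 1 ∧ ∀ b : Ω, b ≠ a₀ →
          Nat.card (MulAction.orbit (MulAction.stabilizer G a₀) b) = a * (2 * a + 1) ∨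
          Nat.card (MulAction.orbit (MulAction.stabilizer G a₀) b) = (a + 1) * (2 * a + 1)) := by
  by_cases hn2 : MulAction.IsMultiplyPretransitive G Ω 2
  · exact Or.inl hn2
  right
  have hcent : ∀ c : G, c * x = x * c → c ∈ zpowers x :=
    fun c hc => mem_zpowers_of_comm hp hp2 hcard hprim hx hfpf hn2 hc
  obtain ⟨χ₀, X, hχ₀, hχ₀1, hX1, hX0, hπ, hdeg0, -, hk0, hkn, hko⟩ :=
    decomposition hp hp2 hcard hprim hx hfpf hn2
  have hsumX : ∀ ψ ∈ X, ∑ χ ∈ X, classInner (χ : G → ℂ) (ψ : G → ℂ) = 1 := by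
    intro ψ hψ
    rw [Finset.sum_eq_single ψ]
    · exact Helper20.classInner_irr_self ψ.2
    · intro χ _ hne
      exact Helper20.classInner_irr_ne χ.2 ψ.2 (fun h => hne (Subtype.ext h))
    · intro h
      exact absurd hψ h
  have mX : ∀ ψ ∈ X, classInner (fun g : G => (Nat.card (MulAction.fixedBy Ω g) : ℂ))
      (ψ : G → ℂ) = 1 := by
    intro ψ hψ
    rw [hπ, classInner_decomp_left, hsumX ψ hψ,
      Helper20.classInner_irr_ne Helper83.isIrr_trivial ψ.2 (hX1 ψ hψ).symm,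
      Helper20.classInner_irr_ne hχ₀ ψ.2 (hX0 ψ hψ).symm]
    ring
  have m1 : classInner (fun g : G => (Nat.card (MulAction.fixedBy Ω g) : ℂ)) (fun _ => 1) = 1 := by
    rw [hπ, classInner_decomp_left, Helper20.classInner_irr_self Helper83.isIrr_trivial,
      Helper20.classInner_irr_ne hχ₀ Helper83.isIrr_trivial hχ₀1,
      Finset.sum_eq_zero fun χ hχ => Helper20.classInner_irr_ne χ.2 Helper83.isIrr_trivial
        (hX1 χ hχ)]
    ring
  have m0 : classInner (fun g : G => (Nat.card (MulAction.fixedBy Ω g) : ℂ)) χ₀ = 1 := by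
    rw [hπ, classInner_decomp_left, Helper20.classInner_irr_self hχ₀,
      Helper20.classInner_irr_ne Helper83.isIrr_trivial hχ₀ hχ₀1.symm,
      Finset.sum_eq_zero fun χ hχ => Helper20.classInner_irr_ne χ.2 hχ₀ (hX0 χ hχ)]
    ring
  have hrank : (Nat.card (MulAction.orbitRel.Quotient (MulAction.stabilizer G a₀) Ω) : ℂ)
      = 2 + X.card := by
    rw [rank_eq_classInner a₀]
    have h1 := classInner_decomp_right χ₀ X (fun g : G => (Nat.card (MulAction.fixedBy Ω g) : ℂ))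
    rw [← hπ, m1, m0, Finset.sum_congr rfl mX] at h1
    rw [h1]
    simp
    ring
  have hdeg : (2 * p : ℂ) = 1 + p + ∑ χ ∈ X, (χ : G → ℂ) 1 := by
    have h1 : (Nat.card (MulAction.fixedBy Ω (1 : G)) : ℂ)
        = 1 + χ₀ 1 + ∑ χ ∈ X, (χ : G → ℂ) 1 := congrFun hπ 1
    rw [hdeg0] at h1
    rw [← h1]
    have : MulAction.fixedBy Ω (1 : G) = Set.univ := by
      ext a; simp
    rw [this, Nat.card_coe_set_eq, Set.ncard_univ, Nat.card_eq_fintype_card, hcard]
    push_cast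
    ring
  rcases Nat.lt_or_ge 1 X.card with hX | hX
  · exfalso
    obtain ⟨χ₁, h₁, χ₂, h₂, hne⟩ := Finset.one_lt_card.1 hX
    obtain ⟨hN, huniq⟩ := bessel hp hx hcent χ₁.2 χ₂.2 (fun h => hne (Subtype.ext h))
      (hk0 χ₁ h₁) (hk0 χ₂ h₂) (hkn χ₁ h₁) (hkn χ₂ h₂) (hko χ₁ h₁ χ₂ h₂ hne)
      (hko χ₂ h₂ χ₁ h₁ hne.symm)
    exact step6 hp hp2 hcard hprim hx hfpf hcent χ₁.2 (hX1 χ₁ h₁) (mX χ₁ h₁) (hk0 χ₁ h₁) hN huniq a₀
  · have hX' : X.card = 0 ∨ X.card = 1 := by omega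
    rcases hX' with hX' | hX'
    · exfalso
      rw [Finset.card_eq_zero] at hX'
      rw [hX', Finset.sum_empty] at hdeg
      have : (p : ℂ) = 1 := by linear_combination hdeg
      have : p = 1 := by exact_mod_cast this
      exact hp.one_lt.ne' this
    · obtain ⟨χ₁, rfl⟩ := Finset.card_eq_one.1 hX'
      rw [Finset.sum_singleton] at hdeg
      have hr3 : Nat.card (MulAction.orbitRel.Quotient (MulAction.stabilizer G a₀) Ω) = 3 := by
        rw [hX'] at hrank
        have : (Nat.card (MulAction.orbitRel.Quotient (MulAction.stabilizer G a₀) Ω) : ℂ)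
            = ((3 : ℕ) : ℂ) := by
          rw [hrank]; norm_num
        exact_mod_cast this
      refine ⟨hr3, ?_⟩
      refine Cfsg.Agent.S0719.result hprim hcard a₀ hr3 (χ₁ : G → ℂ) χ₀ χ₁.2 hχ₀ ?_ ?_ hdeg0
      · rw [hπ]
        ext g
        rw [Finset.sum_singleton]
        ring
      · linear_combination -hdeg

end Main

end Cfsg.Agent.Lib.Helper96
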