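import Cfsg.Agent.Lib.Helper96.TwoP10
import Cfsg.Agent.S0713

/-!
# Degree `2p`: the remaining cases (`p = 2`, and a `p`-cycle in the group)
-/

set_option autoImplicit false
set_option linter.unusedSectionVars false

namespace Cfsg.Agent.Lib.Helper96

open Cfsg Subgroup

section Four

variable {G : Type*} [Group G] {Ω : Type*} [Fintype Ω] [MulAction G Ω]

/-- A primitive group of degree `4` is doubly transitive. -/
theorem two_trans_of_card_four [FaithfulSMul G Ω] (hprim : MulAction.IsPreprimitive G Ω)
    (hcard : Fintype.card Ω = 4) (a₀ : Ω) : MulAction.IsMultiplyPretransitive G Ω 2 := by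
  classical
  refine two_trans_of_stab_trans a₀ ?_
  intro b c hb hc
  by_contra hcon
  push Not at hcon
  have hnp : ¬ (Fintype.card Ω).Prime := by rw [hcard]; decide
  obtain ⟨h, hha, hhb⟩ := exists_moves (G := G) hnp hb
  obtain ⟨k, hka, hkc⟩ := exists_moves (G := G) hnp hc
  have h1 : (1 : G) • b ≠ c := hcon 1 (one_smul _ _)
  rw [one_smul] at h1
  have h2 : h • b ≠ c := hcon h hha
  have h3 : (k⁻¹ : G) • b ≠ c := hcon k⁻¹ (by rw [inv_smul_eq_iff, hka])
  have h4 : (k⁻¹ * h) • b ≠ c := hcon (k⁻¹ * h) (by rw [mul_smul, hha, inv_smul_eq_iff, hka])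
  have h5 : h • b ≠ a₀ := by
    intro e
    apply hb
    rw [← hha] at e
    exact smul_left_cancel h e
  have h6 : k • c ≠ a₀ := by
    intro e
    apply hc
    rw [← hka] at e
    exact smul_left_cancel k e
  have h3' : b ≠ k • c := by
    intro e
    apply h3
    rw [inv_smul_eq_iff]
    exact e
  have h4' : h • b ≠ k • c := by
    intro e
    apply h4
    rw [mul_smul, inv_smul_eq_iff]
    exact e
  have hnd : [a₀, b, h • b, c, k • c].Nodup := by
    simp only [List.nodup_cons, List.mem_cons, List.not_mem_nil, or_false, not_or,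
      List.nodup_nil, and_true, not_false_eq_true]
    exact ⟨⟨hb.symm, h5.symm, hc.symm, h6.symm⟩, ⟨hhb.symm, h1, h3'⟩, ⟨h2, h4'⟩, hkc.symm⟩
  have := hnd.length_le_card
  rw [hcard] at this
  simp at this

end Four

section Jordan

variable {α : Type*} [Fintype α] [DecidableEq α]

theorem two_trans_of_alternating_le (G : Subgroup (Equiv.Perm α)) (h : alternatingGroup α ≤ G)
    (hcard : 4 ≤ Fintype.card α) : MulAction.IsMultiplyPretransitive G α 2 := by
  have h1 := alternatingGroup.isMultiplyPretransitive α
  have h2 : MulAction.IsMultiplyPretransitive (alternatingGroup α) α 2 := by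
    refine MulAction.isMultiplyPretransitive_of_le (n := Nat.card α - 2) ?_ (Nat.sub_le _ _)
    rw [Nat.card_eq_fintype_card]
    omega
  rw [MulAction.is_two_pretransitive_iff] at h2 ⊢
  intro a b c d hab hcd
  obtain ⟨g, hg1, hg2⟩ := h2 hab hcd
  exact ⟨⟨g.1, h g.2⟩, hg1, hg2⟩

/-- If some element of order `p` has a fixed point, Jordan's theorem applies. -/
theorem two_trans_of_fixed_point {p : ℕ} (hp : p.Prime) (hp2 : p ≠ 2)
    (hα : Fintype.card α = 2 * p) (G : Subgroup (Equiv.Perm α))
    (hG : MulAction.IsPreprimitive G α) {g : Equiv.Perm α} (hg : g ∈ G) (hgo : orderOf g = p)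
    {a : α} (hga : g a = a) : MulAction.IsMultiplyPretransitive G α 2 := by
  have hp3 : 3 ≤ p := by
    have := hp.two_le
    omega
  obtain ⟨n, hn⟩ := Equiv.Perm.cycleType_prime_order (σ := g) (by rw [hgo]; exact hp)
  rw [hgo] at hn
  have hsum := Equiv.Perm.sum_cycleType g
  rw [hn, Multiset.sum_replicate, smul_eq_mul] at hsum
  have hlt : g.support.card < Fintype.card α := by
    refine Finset.card_lt_univ_of_notMem (x := a) ?_
    rw [Equiv.Perm.mem_support]
    exact fun h => h hga
  have hn0 : n = 0 := by
    rw [← hsum, hα] at hlt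
    by_contra h0
    have : 2 ≤ n + 1 := by omega
    have := Nat.mul_le_mul_right p this
    omega
  subst hn0
  have hcyc : g.IsCycle := by
    rw [← Equiv.Perm.card_cycleType_eq_one, hn]
    simp
  have hsupp : g.support.card = p := by
    rw [← hsum]; ring
  have := Cfsg.Agent.S0713.result G hG hp (by omega) (by omega) hcyc hsupp hg
  exact two_trans_of_alternating_le G this (by omega)

end Jordan

end Cfsg.Agent.Lib.Helper96
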