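import Cfsg.Agent.Lib.Helper96.TwoP10
import Cfsg.Agent.Lib.Helper96.Exc5
import Cfsg.Agent.Lib.Helper63.Generous
import Cfsg.Agent.Lib.Helper79.GaloisRat
import Cfsg.Agent.Lib.Helper4.CharIntegral

/-!
# Degree `2p`, not doubly transitive: the two characters, and the case `|N(⟨x⟩)| = 2p`
-/

set_option autoImplicit false
set_option linter.unusedSectionVars false

namespace Cfsg.Agent.Lib.Helper96

open Cfsg Subgroup
open scoped Classical
open scoped ComplexConjugate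

section Chars

variable {G : Type*} [Group G] [Fintype G] {Ω : Type*} [Fintype Ω] [MulAction G Ω] {p : ℕ}

/-- The decomposition of the permutation character of a uniprimitive group of degree `2p`. -/
theorem two_p_chars [FaithfulSMul G Ω] (hp : p.Prime) (hp2 : p ≠ 2)
    (hcard : Fintype.card Ω = 2 * p)
    (hprim : MulAction.IsPreprimitive G Ω) {x : G} (hx : orderOf x = p)
    (hfpf : ∀ g : G, orderOf g = p → ∀ a : Ω, g • a ≠ a)
    (hn2 : ¬ MulAction.IsMultiplyPretransitive G Ω 2) :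
    ∃ χ₁ χ₀ : G → ℂ, IsIrrCharacter G χ₁ ∧ IsIrrCharacter G χ₀ ∧ χ₁ ≠ (fun _ => 1) ∧
      χ₀ ≠ (fun _ => 1) ∧
      ((fun g : G => (Nat.card (MulAction.fixedBy Ω g) : ℂ)) = fun g => 1 + χ₁ g + χ₀ g) ∧
      χ₁ 1 = (p : ℂ) - 1 ∧ χ₀ 1 = p ∧ (∀ y ∈ zpowers x, y ≠ 1 → χ₀ y = 0) := by
  have hne : Nonempty Ω := by
    rw [← Fintype.card_pos_iff, hcard]
    have := hp.pos
    omega
  obtain ⟨a₀⟩ := hne
  have hcent : ∀ c : G, c * x = x * c → c ∈ zpowers x :=
    fun c hc => mem_zpowers_of_comm hp hp2 hcard hprim hx hfpf hn2 hc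
  obtain ⟨χ₀, X, hχ₀, hχ₀1, hX1, hX0, hπ, hdeg0, hχ₀P, hk0, hkn, hko⟩ :=
    decomposition hp hp2 hcard hprim hx hfpf hn2
  have hsumX : ∀ ψ ∈ X, ∑ χ ∈ X, classInner (χ : G → ℂ) (ψ : G → ℂ) = 1 := by
    intro ψ hψ
    rw [Finset.sum_eq_single ψ]
    · exact Helper20.classInner_irr_self ψ.2
    · intro χ _ hne
      exact Helper20.classInner_irr_ne χ.2 ψ.2 (fun h => hne (Subtype.ext h))
    · intro h
      exact absurd hψ h
  have mX : ∀ ψ ∈ X, classInner (fun g : G => (Nat.card (MulAction.fixedBy Ω g) : ℂ))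
      (ψ : G → ℂ) = 1 := by
    intro ψ hψ
    rw [hπ, classInner_decomp_left, hsumX ψ hψ,
      Helper20.classInner_irr_ne Helper83.isIrr_trivial ψ.2 (hX1 ψ hψ).symm,
      Helper20.classInner_irr_ne hχ₀ ψ.2 (hX0 ψ hψ).symm]
    ring
  have hdeg : (2 * p : ℂ) = 1 + p + ∑ χ ∈ X, (χ : G → ℂ) 1 := by
    have h1 : (Nat.card (MulAction.fixedBy Ω (1 : G)) : ℂ)
        = 1 + χ₀ 1 + ∑ χ ∈ X, (χ : G → ℂ) 1 := congrFun hπ 1
    rw [hdeg0] at h1
    rw [← h1]
    have : MulAction.fixedBy Ω (1 : G) = Set.univ := by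
      ext a; simp
    rw [this, Nat.card_coe_set_eq, Set.ncard_univ, Nat.card_eq_fintype_card, hcard]
    push_cast
    ring
  rcases Nat.lt_or_ge 1 X.card with hX | hX
  · exfalso
    obtain ⟨χ₁, h₁, χ₂, h₂, hne⟩ := Finset.one_lt_card.1 hX
    obtain ⟨hN, huniq⟩ := bessel hp hx hcent χ₁.2 χ₂.2 (fun h => hne (Subtype.ext h))
      (hk0 χ₁ h₁) (hk0 χ₂ h₂) (hkn χ₁ h₁) (hkn χ₂ h₂) (hko χ₁ h₁ χ₂ h₂ hne)
      (hko χ₂ h₂ χ₁ h₁ hne.symm)
    exact step6 hp hp2 hcard hprim hx hfpf hcent χ₁.2 (hX1 χ₁ h₁) (mX χ₁ h₁) (hk0 χ₁ h₁) hN huniq a₀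
  · have hX' : X.card = 0 ∨ X.card = 1 := by omega
    rcases hX' with hX' | hX'
    · exfalso
      rw [Finset.card_eq_zero] at hX'
      rw [hX', Finset.sum_empty] at hdeg
      have : (p : ℂ) = 1 := by linear_combination hdeg
      have : p = 1 := by exact_mod_cast this
      exact hp.one_lt.ne' this
    · obtain ⟨χ₁, rfl⟩ := Finset.card_eq_one.1 hX'
      rw [Finset.sum_singleton] at hdeg
      refine ⟨χ₁, χ₀, χ₁.2, hχ₀, hX1 χ₁ (Finset.mem_singleton_self _), hχ₀1, ?_, ?_, hdeg0, hχ₀P⟩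
      · rw [hπ]
        ext g
        rw [Finset.sum_singleton]
        ring
      · linear_combination -hdeg

/-- An irreducible constituent of degree `p - 1` is `χ₁`. -/
theorem eq_chi_one (hp2 : p ≠ 2) {χ₁ χ₀ : G → ℂ} (h₁ : IsIrrCharacter G χ₁)
    (h₀ : IsIrrCharacter G χ₀)
    (hπ : (fun g : G => (Nat.card (MulAction.fixedBy Ω g) : ℂ)) = fun g => 1 + χ₁ g + χ₀ g)
    (hd₀ : χ₀ 1 = p) {ψ : G → ℂ} (hψ : IsIrrCharacter G ψ)
    (hm : classInner (fun g : G => (Nat.card (MulAction.fixedBy Ω g) : ℂ)) ψ ≠ 0)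
    (hdψ : ψ 1 = (p : ℂ) - 1) : ψ = χ₁ := by
  by_contra hne
  apply hm
  have e : (fun g => 1 + χ₁ g + χ₀ g) = (fun _ => (1 : ℂ)) + χ₁ + χ₀ := rfl
  rw [hπ, e, Helper20.classInner_add_left, Helper20.classInner_add_left,
    Helper20.classInner_irr_ne h₁ hψ (fun h => hne h.symm)]
  have h1 : (fun _ => (1 : ℂ)) ≠ ψ := by
    intro h
    rw [← h] at hdψ
    have : ((2 : ℕ) : ℂ) = (p : ℂ) := by push_cast; linear_combination hdψ
    exact hp2 (by exact_mod_cast this.symm)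
  have h2 : χ₀ ≠ ψ := by
    intro h
    rw [← h, hd₀] at hdψ
    have : (1 : ℂ) = 0 := by linear_combination hdψ
    exact one_ne_zero this
  rw [Helper20.classInner_irr_ne Helper83.isIrr_trivial hψ h1, Helper20.classInner_irr_ne h₀ hψ h2]
  ring

theorem classInner_perm_chi_one {χ₁ χ₀ : G → ℂ} (h₁ : IsIrrCharacter G χ₁)
    (h₀ : IsIrrCharacter G χ₀) (hne1 : χ₁ ≠ fun _ => 1) (hne0 : χ₁ ≠ χ₀)
    (hπ : (fun g : G => (Nat.card (MulAction.fixedBy Ω g) : ℂ)) = fun g => 1 + χ₁ g + χ₀ g) :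
    classInner (fun g : G => (Nat.card (MulAction.fixedBy Ω g) : ℂ)) χ₁ = 1 := by
  have e : (fun g => 1 + χ₁ g + χ₀ g) = (fun _ => (1 : ℂ)) + χ₁ + χ₀ := rfl
  rw [hπ, e, Helper20.classInner_add_left, Helper20.classInner_add_left,
    Helper20.classInner_irr_self h₁, Helper20.classInner_irr_ne Helper83.isIrr_trivial h₁ hne1.symm,
    Helper20.classInner_irr_ne h₀ h₁ hne0.symm]
  ring

/-- A non-principal multiplicity-one constituent of a faithful primitive permutation character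
is faithful. -/
theorem faithful_of_constituent [FaithfulSMul G Ω] [MulAction.IsPreprimitive G Ω] [Nontrivial Ω]
    {χ : G → ℂ} (hχ : IsIrrCharacter G χ) (hne : χ ≠ fun _ => 1)
    (hm : classInner (fun g : G => (Nat.card (MulAction.fixedBy Ω g) : ℂ)) χ = 1) {g : G}
    (hg : χ g = χ 1) : g = 1 := by
  have hsum := sum_eq_zero_of_irr_ne_one hχ hne
  obtain ⟨n, ρ, hρ, rfl⟩ := hχ
  have hid : ρ g = LinearMap.id := (Helper82.rep_apply_eq_id_iff ρ g).2 hg
  refine FaithfulSMul.eq_of_smul_eq_smul (α := Ω) fun b => ?_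
  rw [one_smul]
  refine fix_lemma ρ hsum b ?_ ?_
  · intro h0
    have := trace_avg_stabilizer ρ b 1 (by rw [hm]; simp)
    rw [h0, map_zero] at this
    simp at this
  · rw [hid]
    rfl

theorem two_p_excData [FaithfulSMul G Ω] (hp : p.Prime) (hp5 : 5 ≤ p)
    (hcard : Fintype.card Ω = 2 * p)
    (hprim : MulAction.IsPreprimitive G Ω) {x : G} (hx : orderOf x = p)
    (hfpf : ∀ g : G, orderOf g = p → ∀ a : Ω, g • a ≠ a)
    (hn2 : ¬ MulAction.IsMultiplyPretransitive G Ω 2) (hN : Nat.card (nrm x) = 2 * p) :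
    ∃ χ₁ : G → ℂ, ExcData p x χ₁ ∧ ∀ y : G, orderOf y = p → χ₁ y = -1 := by
  have hp2 : p ≠ 2 := by omega
  have hnt : Nontrivial Ω := by
    rw [← Fintype.one_lt_card_iff_nontrivial, hcard]
    omega
  have hcent : ∀ c : G, c * x = x * c → c ∈ zpowers x :=
    fun c hc => mem_zpowers_of_comm hp hp2 hcard hprim hx hfpf hn2 hc
  obtain ⟨χ₁, χ₀, h₁, h₀, hne1, -, hπ, hd₁, hd₀, -⟩ :=
    two_p_chars hp hp2 hcard hprim hx hfpf hn2
  have hdeg_ne : ∀ {a b : G → ℂ}, a 1 = (p : ℂ) - 1 → b 1 = p → a ≠ b := by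
    intro a b ha hb h
    rw [h, hb] at ha
    have : (1 : ℂ) = 0 := by linear_combination ha
    exact one_ne_zero this
  have hmult := classInner_perm_chi_one h₁ h₀ hne1 (hdeg_ne hd₁ hd₀) hπ
  have hc₁ := Helper20.isCharacter_of_isIrrCharacter h₁
  have hord : ∀ y : G, orderOf y = p → χ₁ y = -1 := by
    intro y hy
    obtain ⟨χ₁', χ₀', h₁', h₀', hne1', -, hπ', hd₁', hd₀', hP'⟩ :=
      two_p_chars hp hp2 hcard hprim hy hfpf hn2
    have he : χ₁' = χ₁ := eq_chi_one hp2 h₁ h₀ hπ hd₀ h₁'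
      (by rw [classInner_perm_chi_one h₁' h₀' hne1' (hdeg_ne hd₁' hd₀') hπ']; exact one_ne_zero)
      hd₁'
    have hy1 : y ≠ 1 := by
      intro h
      rw [h, orderOf_one] at hy
      omega
    have h1 : (Nat.card (MulAction.fixedBy Ω y) : ℂ) = 1 + χ₁' y + χ₀' y := congrFun hπ' y
    rw [perm_char_zero hp hy hfpf (mem_zpowers y) hy1, hP' y (mem_zpowers y) hy1, he] at h1
    linear_combination -h1
  have hint : ∀ g : G, ∃ n : ℤ, χ₁ g = n := by
    intro g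
    have : NeZero (Nat.card G) := ⟨Nat.card_pos.ne'⟩
    obtain ⟨q, hq⟩ := Helper79.IsCharacter.exists_rat_of_pow_eq hc₁ (Nat.card G) g
      (pow_card_eq_one') (by
        intro k hk
        have hirr := Helper79.IsIrrCharacter.pow_coprime h₁ k hk
        have he : (fun g => χ₁ (g ^ k)) = χ₁ := by
          refine eq_chi_one hp2 h₁ h₀ hπ hd₀ hirr ?_ ?_
          · rw [classInner_perm_pow hk.symm, hmult]
            exact one_ne_zero
          · show χ₁ (1 ^ k) = _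
            rw [one_pow, hd₁]
        exact congrFun he g)
    have hi := Helper20.isCharacter_isIntegral hc₁ g
    rw [hq] at hi
    obtain ⟨z, hz⟩ := Helper4.exists_int_of_isIntegral_rat hi
    refine ⟨z, ?_⟩
    rw [hq, hz]
    simp
  have hreal : ∀ g, conj (χ₁ g) = χ₁ g := by
    intro g
    obtain ⟨n, hn⟩ := hint g
    rw [hn]
    simp
  refine ⟨χ₁, ⟨hp, hp5, hx, hcent, hN, h₁, hne1, hd₁, ?_, hint,
    Helper63.gen_nu_eq_one h₁ hreal hmult, fun g hg => faithful_of_constituent h₁ hne1 hmult hg⟩,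
    hord⟩
  intro y hy hy1
  exact hord y (orderOf_of_mem_zpowers hp hx hy hy1)

end Chars

end Cfsg.Agent.Lib.Helper96
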