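import Cfsg.Agent.Lib.Helper96.TwoP12
import Cfsg.Agent.Lib.Helper96.Exc6

/-!
# Uniprimitive groups of degree `2p` with `|N(⟨x⟩)| = 2p`
-/

set_option autoImplicit false
set_option linter.unusedSectionVars false

namespace Cfsg.Agent.Lib.Helper96

open Cfsg Subgroup
open scoped Classical

theorem two_p_arith {p a h : ℕ} (ha : 0 < a) (hpa : p = 2 * a ^ 2 + 2 * a + 1)
    (hh : 2 * p * h = p * (p - 1) * (p - 2)) (hdvd : (2 * a + 1) ∣ h) : a = 1 := by
  obtain ⟨c, hc⟩ := hdvd
  have hp0 : 0 < p := by rw [hpa]; positivity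
  have h1 : p - 1 = 2 * a ^ 2 + 2 * a := by omega
  have h2 : p - 2 + 1 = 2 * a ^ 2 + 2 * a := by
    have : 1 ≤ a ^ 2 := Nat.one_le_pow _ _ ha
    omega
  have h3 : 2 * h = (p - 1) * (p - 2) := by
    have : p * (2 * h) = p * ((p - 1) * (p - 2)) := by
      rw [← mul_assoc, ← mul_assoc, mul_comm p 2]
      exact hh
    exact Nat.eq_of_mul_eq_mul_left hp0 this
  have h4 : (2 * (h : ℤ)) = (2 * (a : ℤ) ^ 2 + 2 * a) * (2 * (a : ℤ) ^ 2 + 2 * a - 1) := by
    have e1 : ((p - 1 : ℕ) : ℤ) = 2 * (a : ℤ) ^ 2 + 2 * a := by rw [h1]; push_cast; ring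
    have e2 : ((p - 2 : ℕ) : ℤ) = 2 * (a : ℤ) ^ 2 + 2 * a - 1 := by
      have : ((p - 2 + 1 : ℕ) : ℤ) = 2 * (a : ℤ) ^ 2 + 2 * a := by rw [h2]; push_cast; ring
      push_cast at this
      linarith
    have : ((2 * h : ℕ) : ℤ) = (((p - 1) * (p - 2) : ℕ) : ℤ) := by rw [h3]
    push_cast at this
    rw [e1, e2] at this
    exact this
  have h5 : ((2 * a + 1 : ℤ)) ∣ 3 := by
    refine ⟨8 * (c : ℤ) - (2 * a + 1) ^ 3 + 4 * (2 * a + 1), ?_⟩
    have hc' : (h : ℤ) = (2 * a + 1) * c := by rw [hc]; push_cast; ring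
    rw [hc'] at h4
    linear_combination (-4 : ℤ) * h4
  have h6 := Int.le_of_dvd (by norm_num) h5
  omega

section Main

variable {G : Type*} [Group G] [Fintype G] {Ω : Type*} [Fintype Ω] [MulAction G Ω] {p : ℕ}

theorem two_p_dihedral [FaithfulSMul G Ω] (hp : p.Prime) (hp5 : 5 ≤ p)
    (hcard : Fintype.card Ω = 2 * p)
    (hprim : MulAction.IsPreprimitive G Ω) {x : G} (hx : orderOf x = p)
    (hfpf : ∀ g : G, orderOf g = p → ∀ a : Ω, g • a ≠ a)
    (hn2 : ¬ MulAction.IsMultiplyPretransitive G Ω 2) (hN : Nat.card (nrm x) = 2 * p) :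
    p = 5 ∧ Nat.card G = 60 ∧ IsSimpleGroup G := by
  have hp2 : p ≠ 2 := by omega
  have hnt : Nontrivial Ω := by
    rw [← Fintype.one_lt_card_iff_nontrivial, hcard]
    omega
  obtain ⟨χ₁, D, hord⟩ := two_p_excData hp hp5 hcard hprim hx hfpf hn2 hN
  have hG := D.card_eq
  obtain ⟨a₀, b, hba⟩ := hnt
  obtain ⟨-, a, ha0, hpa, hsub⟩ := (two_p_main hp hp2 hcard hprim hx hfpf a₀).resolve_left hn2
  have hH : 2 * p * Nat.card (MulAction.stabilizer G a₀) = p * (p - 1) * (p - 2) := by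
    rw [← hG, ← (MulAction.stabilizer G a₀).index_mul_card,
      MulAction.index_stabilizer_of_transitive, Nat.card_eq_fintype_card (α := Ω), hcard]
  have hdvd : (2 * a + 1) ∣ Nat.card (MulAction.stabilizer G a₀) := by
    have h1 : Nat.card (MulAction.orbit (MulAction.stabilizer G a₀) b)
        ∣ Nat.card (MulAction.stabilizer G a₀) := by
      rw [Nat.card_coe_set_eq, ← MulAction.index_stabilizer]
      exact Subgroup.index_dvd_card _
    rcases hsub b hba.symm with h2 | h2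
    · rw [h2] at h1
      exact (Dvd.intro_left _ rfl).trans h1
    · rw [h2] at h1
      exact (Dvd.intro_left _ rfl).trans h1
  have ha1 := two_p_arith ha0 hpa hH hdvd
  have hp5' : p = 5 := by rw [hpa, ha1]; norm_num
  refine ⟨hp5', by rw [hG, hp5'], ?_⟩
  have hntG : Nontrivial G := by
    refine ⟨x, 1, ?_⟩
    intro h
    rw [h, orderOf_one] at hx
    omega
  refine ⟨fun K hK => ?_⟩
  by_cases hKb : K = ⊥
  · exact Or.inl hKb
  right
  refine D.eq_top_of_mem K ?_
  obtain ⟨k, hk, hk1⟩ : ∃ k ∈ K, k ≠ 1 := by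
    by_contra hcon
    push Not at hcon
    exact hKb ((Subgroup.eq_bot_iff_forall K).2 hcon)
  have hmove : ∃ ω : Ω, k • ω ≠ ω := by
    by_contra hcon
    push Not at hcon
    apply hk1
    refine FaithfulSMul.eq_of_smul_eq_smul (α := Ω) fun ω => ?_
    rw [hcon ω, one_smul]
  obtain ⟨ω, hω⟩ := hmove
  have hfp : MulAction.fixedPoints K Ω ≠ Set.univ := by
    intro h
    have : ω ∈ MulAction.fixedPoints K Ω := by rw [h]; trivial
    exact hω (this ⟨k, hk⟩)
  have htr : MulAction.IsPretransitive K Ω :=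
    MulAction.IsQuasiPreprimitive.isPretransitive_of_normal hfp
  have hdK : p ∣ Nat.card K := by
    have h1 := MulAction.index_stabilizer_of_transitive K ω
    have h2 := (MulAction.stabilizer K ω).index_dvd_card
    rw [h1, Nat.card_eq_fintype_card, hcard] at h2
    exact (Dvd.intro_left 2 rfl).trans h2
  have : Fact p.Prime := ⟨hp⟩
  obtain ⟨y, hy⟩ := exists_prime_orderOf_dvd_card' p hdK
  have hy' : orderOf (y : G) = p := by rw [Subgroup.orderOf_coe]; exact hy
  have hval := hord y hy'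
  have hs : sing x (y : G) := by
    by_contra hs
    have := (D.value_nonneg hs (n := -1) (by rw [hval]; simp)).1
    omega
  obtain ⟨hy1, z, hz⟩ := hs
  have hzK : z⁻¹ * y * z ∈ K := by
    have := hK.conj_mem y y.2 z⁻¹
    rwa [inv_inv] at this
  have hz1 : z⁻¹ * (y : G) * z ≠ 1 := by
    intro h
    apply hy1
    have : (y : G) = z * (z⁻¹ * y * z) * z⁻¹ := by group
    rw [this, h]
    group
  exact (zpowers_le.2 hzK) (mem_zpowers_of_ne_one hp hx hz hz1)

end Main

end Cfsg.Agent.Lib.Helper96
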