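import Cfsg.Agent.Lib.Helper96.TwoP1
import Cfsg.Agent.S3559

/-!
# Degree `2p`: the centralizer of a fixed-point-free element of order `p`
-/

set_option autoImplicit false
set_option linter.unusedSectionVars false

namespace Cfsg.Agent.Lib.Helper96

open Cfsg Subgroup
open scoped Classical

section Cent

variable {G : Type*} [Group G] {Ω : Type*} [Fintype Ω] [MulAction G Ω] {p : ℕ}

theorem comm_of_mem_zpowers {x c y : G} (hc : c * x = x * c) (hy : y ∈ zpowers x) :
    c * y = y * c := by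
  obtain ⟨k, rfl⟩ := mem_zpowers_iff.1 hy
  exact (Commute.zpow_right (show Commute c x from hc) k)

/-- An element commuting with `x` and preserving an orbit of `x` is a power of `x`. -/
theorem mem_zpowers_of_comm_of_orb [FaithfulSMul G Ω] (hp : p.Prime)
    (hcard : Fintype.card Ω = 2 * p) {x : G} (hx : orderOf x = p)
    (hfpf : ∀ g : G, orderOf g = p → ∀ a : Ω, g • a ≠ a) {c : G} (hc : c * x = x * c) {a₀ : Ω}
    (hca : c • a₀ ∈ orb x a₀) : c ∈ zpowers x := by
  obtain ⟨y, hy, hya⟩ := hca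
  set c' := y⁻¹ * c with hc'
  have hc'x : c' * x = x * c' := by
    have h1 : y⁻¹ * x = x * y⁻¹ := zpowers_comm (inv_mem hy) (mem_zpowers x)
    rw [hc', mul_assoc, hc, ← mul_assoc, h1, mul_assoc]
  have hc'a : c' • a₀ = a₀ := by rw [hc', mul_smul, ← hya, inv_smul_smul]
  have hfixA : ∀ d ∈ orb x a₀, c' • d = d := by
    rintro d ⟨z, hz, rfl⟩
    rw [← mul_smul, comm_of_mem_zpowers hc'x hz, mul_smul, hc'a]
  obtain ⟨b, hb⟩ := exists_not_mem_orb hp hcard hx hfpf a₀
  have hc'b : c' • b ∉ orb x a₀ := by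
    intro h
    have h1 := hfixA _ h
    exact hb (by rw [← smul_left_cancel c' h1]; exact h)
  obtain ⟨w, hw, hwb⟩ := two_orbits hp hcard hx hfpf hb hc'b
  have hactB : ∀ d ∈ orb x b, c' • d = w • d := by
    rintro d ⟨z, hz, rfl⟩
    rw [← mul_smul, comm_of_mem_zpowers hc'x hz, mul_smul, ← hwb, ← mul_smul, ← mul_smul,
      zpowers_comm hz hw]
  have hpowA : ∀ (k : ℕ), ∀ d ∈ orb x a₀, c' ^ k • d = d := by
    intro k
    induction k with
    | zero => intro d _; simp
    | succ k ih =>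
      intro d hd
      rw [pow_succ, mul_smul, hfixA d hd, ih d hd]
  have hpowB : ∀ (k : ℕ), ∀ d ∈ orb x b, c' ^ k • d = w ^ k • d := by
    intro k
    induction k with
    | zero => intro d _; simp
    | succ k ih =>
      intro d hd
      rw [pow_succ, mul_smul, hactB d hd, ih _ (smul_mem_orb hw hd), pow_succ, mul_smul]
  have hwp : w ^ p = 1 := by
    obtain ⟨k, rfl⟩ := mem_zpowers_iff.1 hw
    rw [← zpow_natCast, ← zpow_mul, mul_comm, zpow_mul, zpow_natCast, ← hx, pow_orderOf_eq_one,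
      one_zpow]
  have hc'p : c' ^ p = 1 := by
    refine FaithfulSMul.eq_of_smul_eq_smul (α := Ω) fun d => ?_
    rw [one_smul]
    by_cases hd : d ∈ orb x a₀
    · exact hpowA p d hd
    · rw [hpowB p d (two_orbits hp hcard hx hfpf hb hd), hwp, one_smul]
  have hc'1 : c' = 1 := by
    by_contra h1
    have : Fact p.Prime := ⟨hp⟩
    exact hfpf c' (orderOf_eq_prime hc'p h1) a₀ hc'a
  have : c = y := by
    rw [hc', inv_mul_eq_one] at hc'1
    exact hc'1.symm
  rw [this]
  exact hy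

theorem not_isPrimePow_two_mul (hp : p.Prime) (hp2 : p ≠ 2) : ¬ IsPrimePow (2 * p) := by
  rw [isPrimePow_nat_iff]
  rintro ⟨q, k, hq, _, hqk⟩
  have h2 : 2 ∣ q ^ k := ⟨p, hqk⟩
  have h3 : p ∣ q ^ k := ⟨2, by rw [hqk, mul_comm]⟩
  have h4 := (Nat.prime_dvd_prime_iff_eq Nat.prime_two hq).1 (Nat.prime_two.dvd_of_dvd_pow h2)
  have h5 := (Nat.prime_dvd_prime_iff_eq hp hq).1 (hp.dvd_of_dvd_pow h3)
  exact hp2 (h5.trans h4.symm)

/-- The centralizer of `x` is generated by `x`, unless the group is doubly transitive. -/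
theorem mem_zpowers_of_comm [Finite G] [FaithfulSMul G Ω] (hp : p.Prime) (hp2 : p ≠ 2)
    (hcard : Fintype.card Ω = 2 * p) (hprim : MulAction.IsPreprimitive G Ω) {x : G}
    (hx : orderOf x = p) (hfpf : ∀ g : G, orderOf g = p → ∀ a : Ω, g • a ≠ a)
    (hn2 : ¬ MulAction.IsMultiplyPretransitive G Ω 2) {c : G} (hc : c * x = x * c) :
    c ∈ zpowers x := by
  have hne : Nonempty Ω := by
    rw [← Fintype.card_pos_iff, hcard]
    have := hp.pos
    omega
  obtain ⟨a₀⟩ := hne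
  by_cases hca : c • a₀ ∈ orb x a₀
  · exact mem_zpowers_of_comm_of_orb hp hcard hx hfpf hc hca
  exfalso
  -- `c ^ 2` is a power of `x`
  have hc2x : c ^ 2 * x = x * c ^ 2 := (Commute.pow_left (show Commute c x from hc) 2)
  have hc2a : c ^ 2 • a₀ ∈ orb x a₀ := by
    by_contra h
    obtain ⟨z, hz, hzb⟩ := two_orbits hp hcard hx hfpf hca h
    rw [pow_two, mul_smul, ← mul_smul z, ← comm_of_mem_zpowers hc hz, mul_smul] at hzb
    exact hca (by rw [← smul_left_cancel c hzb]; exact ⟨z, hz, rfl⟩)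
  have hc2 : c ^ 2 ∈ zpowers x := mem_zpowers_of_comm_of_orb hp hcard hx hfpf hc2x hc2a
  obtain ⟨k, hk⟩ := hp.odd_of_ne_two hp2
  set c₁ := c ^ p with hc₁
  have hc₁x : Commute c₁ x := Commute.pow_left (show Commute c x from hc) p
  have hpow_p : ∀ y ∈ zpowers x, y ^ p = 1 := by
    intro y hy
    obtain ⟨j, rfl⟩ := mem_zpowers_iff.1 hy
    rw [← zpow_natCast, ← zpow_mul, mul_comm, zpow_mul, zpow_natCast, ← hx, pow_orderOf_eq_one,
      one_zpow]
  have hc₁sq : c₁ ^ 2 = 1 := by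
    rw [hc₁, ← pow_mul, mul_comm, pow_mul]
    exact hpow_p _ hc2
  have hc₁eq : c₁ = c * (c ^ 2) ^ k := by
    rw [hc₁, hk, ← pow_mul, pow_succ']
  have hc₁a : c₁ • a₀ ∉ orb x a₀ := by
    intro h
    rw [hc₁eq, comm_of_mem_zpowers hc (pow_mem hc2 k), mul_smul] at h
    have := smul_mem_orb (inv_mem (pow_mem hc2 k)) h
    rw [inv_smul_smul] at this
    exact hca this
  set z := c₁ * x with hz
  have hzp : z ^ p = c₁ := by
    rw [hz, hc₁x.mul_pow, hpow_p x (mem_zpowers x), mul_one, hk, pow_succ, pow_mul, hc₁sq, one_pow,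
      one_mul]
  have hc₁mem : c₁ ∈ zpowers z := by
    rw [← hzp]; exact pow_mem (mem_zpowers z) p
  have hxmem : x ∈ zpowers z := by
    have : x = c₁⁻¹ * z := by rw [hz, inv_mul_cancel_left]
    rw [this]
    exact mul_mem (inv_mem hc₁mem) (mem_zpowers z)
  have hPle : zpowers x ≤ zpowers z := zpowers_le.2 hxmem
  have hreach : ∀ d : Ω, ∃ g ∈ zpowers z, g • a₀ = d := by
    intro d
    by_cases hd : d ∈ orb x a₀
    · obtain ⟨y, hy, rfl⟩ := hd
      exact ⟨y, hPle hy, rfl⟩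
    · obtain ⟨y, hy, rfl⟩ := two_orbits hp hcard hx hfpf hc₁a hd
      exact ⟨y * c₁, mul_mem (hPle hy) hc₁mem, mul_smul _ _ _⟩
  have htrans : MulAction.IsPretransitive (zpowers z) Ω := by
    refine ⟨fun d d' => ?_⟩
    obtain ⟨g, hg, rfl⟩ := hreach d
    obtain ⟨g', hg', rfl⟩ := hreach d'
    refine ⟨⟨g' * g⁻¹, mul_mem hg' (inv_mem hg)⟩, ?_⟩
    show (g' * g⁻¹) • g • a₀ = g' • a₀
    rw [mul_smul, inv_smul_smul]
  have hreg : ∀ a : Ω, MulAction.stabilizer (zpowers z) a = ⊥ := by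
    intro a
    rw [Subgroup.eq_bot_iff_forall]
    intro g hg
    have hga : (g : G) • a = a := hg
    apply Subtype.ext
    refine FaithfulSMul.eq_of_smul_eq_smul (α := Ω) fun d => ?_
    obtain ⟨g₁, hg₁, rfl⟩ := hreach a
    obtain ⟨g₂, hg₂, rfl⟩ := hreach d
    have h1 : (g : G) • a₀ = a₀ := by
      rw [← mul_smul, zpowers_comm g.2 hg₁, mul_smul] at hga
      exact smul_left_cancel g₁ hga
    show (g : G) • g₂ • a₀ = (1 : G) • g₂ • a₀
    rw [← mul_smul, zpowers_comm g.2 hg₂, mul_smul, h1, one_smul]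
  have h := Cfsg.Agent.S3559.result (G := G) (Ω := Ω) hprim.toIsPretransitive
    (by rw [Nat.card_eq_fintype_card, hcard]; have := hp.pos; omega)
    (by rw [Nat.card_eq_fintype_card, hcard]; exact not_isPrimePow_two_mul hp hp2)
    (zpowers z) inferInstance ⟨htrans, hreg⟩
  rcases h with h | h
  · exact h hprim
  · exact hn2 h

end Cent

end Cfsg.Agent.Lib.Helper96
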