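import Cfsg.Agent.Lib.Helper96.TwoP2
import Cfsg.Agent.Lib.Helper79.GaloisChar
import Cfsg.Agent.Lib.Helper82.CharKer

/-!
# Degree `2p`: general lemmas (power maps, fixed vectors)
-/

set_option autoImplicit false
set_option linter.unusedSectionVars false

namespace Cfsg.Agent.Lib.Helper96

open Cfsg Subgroup
open scoped Classical
open scoped ComplexConjugate

section Pow

variable {G : Type*} [Group G] [Fintype G] {Ω : Type*} [Fintype Ω] [MulAction G Ω]

theorem exists_zpow_of_coprime {k : ℕ} (hk : (Nat.card G).Coprime k) (g : G) :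
    ∃ j : ℤ, (g ^ k) ^ j = g := ⟨_, (powCoprime hk).left_inv g⟩

theorem mem_iff_pow_mem {k : ℕ} (hk : (Nat.card G).Coprime k) (K : Subgroup G) (g : G) :
    g ^ k ∈ K ↔ g ∈ K := by
  constructor
  · intro h
    obtain ⟨j, hj⟩ := exists_zpow_of_coprime hk g
    rw [← hj]
    exact zpow_mem h j
  · intro h
    exact pow_mem h k

theorem perm_char_pow {k : ℕ} (hk : (Nat.card G).Coprime k) (g : G) :
    (Nat.card (MulAction.fixedBy Ω (g ^ k)) : ℂ) = (Nat.card (MulAction.fixedBy Ω g) : ℂ) := by
  have : MulAction.fixedBy Ω (g ^ k) = MulAction.fixedBy Ω g := by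
    ext a
    simp only [MulAction.mem_fixedBy]
    exact mem_iff_pow_mem hk (MulAction.stabilizer G a) g
  rw [this]

theorem classInner_perm_pow {k : ℕ} (hk : (Nat.card G).Coprime k) (χ : G → ℂ) :
    classInner (fun g : G => (Nat.card (MulAction.fixedBy Ω g) : ℂ)) (fun g => χ (g ^ k))
      = classInner (fun g : G => (Nat.card (MulAction.fixedBy Ω g) : ℂ)) χ := by
  unfold classInner
  congr 1
  refine Fintype.sum_equiv (powCoprime hk) _ _ ?_
  intro g
  simp only [powCoprime_apply]
  rw [perm_char_pow hk]

theorem ksum_pow {k : ℕ} (hk : (Nat.card G).Coprime k) (K : Subgroup G) (χ : G → ℂ) :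
    ksum K (fun g => χ (g ^ k)) = ksum K χ := by
  rw [ksum_def, ksum_def]
  refine Fintype.sum_equiv (powCoprime hk) _ _ ?_
  intro g
  simp only [powCoprime_apply, mem_iff_pow_mem hk]

/-- Sum over a subgroup of a function that is constant off the identity. -/
theorem ksum_of_const (K : Subgroup G) {f : G → ℂ} {c : ℂ} (hf : ∀ y ∈ K, y ≠ 1 → f y = c) :
    ksum K f = f 1 + ((Nat.card K : ℂ) - 1) * c := by
  have h1 : ksum K f = ksum K (fun y => c * 1 + (if y = 1 then f 1 - c else 0)) := by
    refine ksum_congr K fun y hy => ?_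
    by_cases hy1 : y = 1
    · subst hy1; simp
    · rw [if_neg hy1, hf y hy hy1]; ring
  rw [h1, ksum_add, ksum_mul_left, ksum_one, ksum_def]
  have h2 : ∀ g : G, (if g ∈ K then (if g = 1 then f 1 - c else 0) else 0)
      = if g = 1 then f 1 - c else 0 := by
    intro g
    by_cases hg : g = 1
    · subst hg; simp [K.one_mem]
    · simp [hg]
  rw [Finset.sum_congr rfl fun g _ => h2 g, Finset.sum_ite_eq' Finset.univ (1 : G), if_pos (Finset.mem_univ _)]
  ring

end Pow

section Fix

variable {G : Type*} [Group G] [Fintype G] {Ω : Type*} [Fintype Ω] [MulAction G Ω]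

/-- In a primitive group, for a non-principal constituent of the permutation character only the
point stabilizer fixes the invariant vectors of the point stabilizer. -/
theorem fix_lemma [MulAction.IsPreprimitive G Ω] [Nontrivial Ω] {V : Type*} [AddCommGroup V]
    [Module ℂ V] [FiniteDimensional ℂ V] (ρ : Representation ℂ G V)
    (hsum : ∑ g : G, ρ.character g = 0) (b : Ω) (hE : avg ρ (MulAction.stabilizer G b) ≠ 0) {g : G}
    (hg : ρ g * avg ρ (MulAction.stabilizer G b) = avg ρ (MulAction.stabilizer G b)) :
    g • b = b := by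
  by_contra hgb
  have hco : IsCoatom (MulAction.stabilizer G b) :=
    MulAction.IsPreprimitive.isCoatom_stabilizer_of_isPreprimitive _ b
  have hle : MulAction.stabilizer G b ≤ fixer ρ (avg ρ (MulAction.stabilizer G b)) :=
    fun k hk => rho_mul_avg ρ hk
  have hlt : MulAction.stabilizer G b < fixer ρ (avg ρ (MulAction.stabilizer G b)) := by
    refine lt_of_le_of_ne hle ?_
    intro h
    have : g ∈ MulAction.stabilizer G b := by rw [h]; exact hg
    exact hgb this
  have htop := hco.2 _ hlt
  have h1 : avg ρ (⊤ : Subgroup G) * avg ρ (MulAction.stabilizer G b)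
      = avg ρ (MulAction.stabilizer G b) := by
    refine avg_mul_of_fixed ρ fun k _ => ?_
    have : k ∈ fixer ρ (avg ρ (MulAction.stabilizer G b)) := by rw [htop]; trivial
    exact this
  rw [avg_top_eq_zero ρ hsum, zero_mul] at h1
  exact hE h1.symm

theorem sum_eq_zero_of_irr_ne_one {χ : G → ℂ} (hχ : IsIrrCharacter G χ) (h1 : χ ≠ fun _ => 1) :
    ∑ g : G, χ g = 0 := by
  have := Helper20.classInner_irr_ne hχ Helper83.isIrr_trivial h1
  unfold classInner at this
  have hG : (Nat.card G : ℂ)⁻¹ ≠ 0 := inv_ne_zero Helper20.card_ne_zero_complex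
  have := (mul_eq_zero.1 this).resolve_left hG
  simpa using this

/-- Trace of the average over a point stabilizer = multiplicity in the permutation character. -/
theorem trace_avg_stabilizer [MulAction.IsPretransitive G Ω] {V : Type*} [AddCommGroup V]
    [Module ℂ V] [FiniteDimensional ℂ V] (ρ : Representation ℂ G V) (b : Ω) (n : ℕ)
    (h : classInner (fun g : G => (Nat.card (MulAction.fixedBy Ω g) : ℂ)) ρ.character = n) :
    LinearMap.trace ℂ V (avg ρ (MulAction.stabilizer G b)) = n := by
  rw [trace_avg, ksum_stabilizer, tsum_diag_of_classInner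
    (Helper20.isClassFunction_of_isCharacter (Helper20.isCharacter_of_rep ρ)) b n h]
  have := card_ne_zero_of_subgroup (MulAction.stabilizer G b)
  field_simp

end Fix

end Cfsg.Agent.Lib.Helper96
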