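import Cfsg.Agent.Lib.Helper96.TwoP3

/-!
# Degree `2p`: decomposition of the permutation character
-/

set_option autoImplicit false
set_option linter.unusedSectionVars false

namespace Cfsg.Agent.Lib.Helper96

open Cfsg Subgroup
open scoped Classical
open scoped ComplexConjugate

theorem coprime_lift {n N x : ℕ} (hN : N ≠ 0) (h : n ∣ N) (hx : x.Coprime n) :
    ∃ k : ℕ, k.Coprime N ∧ k ≡ x [MOD n] := by
  have : NeZero N := ⟨hN⟩
  obtain ⟨u, hu⟩ := ZMod.unitsMap_surjective h (ZMod.unitOfCoprime x hx)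
  refine ⟨(u : ZMod N).val, ZMod.val_coe_unit_coprime u, ?_⟩
  have h1 := congrArg (fun v : (ZMod n)ˣ => (v : ZMod n)) hu
  simp only [ZMod.unitsMap_val, ZMod.coe_unitOfCoprime] at h1
  rw [← ZMod.natCast_eq_natCast_iff, ZMod.natCast_val]
  exact h1

/-- A double sum of naturals equal to a sum dominated by its diagonal is diagonal. -/
theorem diag_of_sum_eq {ι : Type*} (X : Finset ι) (A : ι → ι → ℕ) (B : ι → ℕ)
    (hsum : ∑ i ∈ X, ∑ j ∈ X, A i j = ∑ i ∈ X, B i) (hle : ∀ i ∈ X, B i ≤ A i i) :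
    ∀ i ∈ X, A i i = B i ∧ ∀ j ∈ X, j ≠ i → A i j = 0 := by
  have h1 : ∀ i ∈ X, B i ≤ ∑ j ∈ X, A i j := by
    intro i hi
    rw [← Finset.add_sum_erase X _ hi]
    exact le_trans (hle i hi) (Nat.le_add_right _ _)
  have h2 := (Finset.sum_eq_sum_iff_of_le h1).1 hsum.symm
  intro i hi
  have h3 := h2 i hi
  rw [← Finset.add_sum_erase X _ hi] at h3
  have h4 := hle i hi
  have h5 : ∑ j ∈ X.erase i, A i j = 0 := by omega
  refine ⟨by omega, fun j hj hji => ?_⟩
  exact (Finset.sum_eq_zero_iff.1 h5) j (Finset.mem_erase.2 ⟨hji, hj⟩)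

section Dec

variable {G : Type*} [Group G] [Fintype G] {Ω : Type*} [Fintype Ω] [MulAction G Ω] {p : ℕ}

/-- An irreducible character fixed by all coprime power maps is constant on the nontrivial
elements of a subgroup of prime order. -/
theorem const_of_galois (hp : p.Prime) {x : G} (hx : orderOf x = p) {χ : G → ℂ}
    (hgal : ∀ k : ℕ, (Nat.card G).Coprime k → ∀ g, χ (g ^ k) = χ g) {y : G} (hy : y ∈ zpowers x)
    (hy1 : y ≠ 1) : χ y = χ x := by
  have hy' : y ∈ Submonoid.powers x := (mem_powers_iff_mem_zpowers).2 hy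
  obtain ⟨i, rfl⟩ := Submonoid.mem_powers_iff _ _ |>.1 hy'
  have hi : i.Coprime p := by
    rw [Nat.coprime_comm, hp.coprime_iff_not_dvd]
    intro hdvd
    apply hy1
    rw [← hx] at hdvd
    exact orderOf_dvd_iff_pow_eq_one.1 hdvd
  have hpG : p ∣ Nat.card G := hx ▸ orderOf_dvd_natCard x
  obtain ⟨k, hk, hki⟩ := coprime_lift Nat.card_pos.ne' hpG hi
  have h1 : x ^ k = x ^ i := by
    rw [pow_eq_pow_iff_modEq, hx]
    exact hki
  rw [← h1, hgal k hk.symm]

/-- First part of the decomposition: the distinguished constituent `χ₀` of degree `p`. -/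
theorem exists_chi0 (hp : p.Prime) (hp2 : p ≠ 2) (hcard : Fintype.card Ω = 2 * p)
    (hprim : MulAction.IsPreprimitive G Ω) {x : G} (hx : orderOf x = p)
    (hfpf : ∀ g : G, orderOf g = p → ∀ a : Ω, g • a ≠ a)
    (hn2 : ¬ MulAction.IsMultiplyPretransitive G Ω 2) [Fintype (IrrCharacter G)] (a₀ : Ω)
    (m d : IrrCharacter G → ℕ)
    (hm : ∀ χ : IrrCharacter G,
        classInner (fun g : G => (Nat.card (MulAction.fixedBy Ω g) : ℂ)) (χ : G → ℂ) = m χ)
    (hd : ∀ χ : IrrCharacter G, (χ : G → ℂ) 1 = d χ) (hdpos : ∀ χ, 0 < d χ)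
    (hrank : Nat.card (MulAction.orbitRel.Quotient (MulAction.stabilizer G a₀) Ω) = ∑ χ, m χ ^ 2)
    (hn : Fintype.card Ω = ∑ χ, m χ * d χ) :
    ∃ χ₀ : IrrCharacter G, (χ₀ : G → ℂ) ≠ (fun _ => 1) ∧ m χ₀ = 1 ∧ d χ₀ = p ∧
      (∀ y ∈ zpowers x, y ≠ 1 → (χ₀ : G → ℂ) y = 0) ∧
      ∀ χ : IrrCharacter G, (χ : G → ℂ) ≠ (fun _ => 1) → χ ≠ χ₀ → m χ ≠ 0 →
        ksum (zpowers x) (χ : G → ℂ) = 0 := by
  have hpt : MulAction.IsPretransitive G Ω := hprim.toIsPretransitive
  have hne : Nonempty Ω := ⟨a₀⟩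
  have hp3 : 3 ≤ p := by
    have := hp.two_le
    omega
  have hpc : (p : ℂ) ≠ 0 := by exact_mod_cast hp.ne_zero
  have hcardP : (Nat.card (zpowers x) : ℂ) = p := by rw [card_zpowers_eq hx]
  have ha : ∀ χ : IrrCharacter G, ∃ n : ℕ, ksum (zpowers x) (χ : G → ℂ) = n * (p : ℂ) := by
    intro χ
    obtain ⟨n, hn⟩ := exists_nat_ksum_one (Helper20.isCharacter_of_isIrrCharacter χ.2) (zpowers x)
    exact ⟨n, by rw [hn, hcardP]⟩
  choose a ha using ha
  have hF := Helper20.eq_sum_classInner_smul (G := G) (isClassFunction_perm (Ω := Ω))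
  simp only [hm] at hF
  have hπ1 : (Nat.card (MulAction.fixedBy Ω (1 : G)) : ℂ) = 2 * p := by
    rw [card_fixedBy_eq_sum]
    simp [hcard]
  have hPπ : ksum (zpowers x) (fun g : G => (Nat.card (MulAction.fixedBy Ω g) : ℂ)) = 2 * p := by
    rw [ksum_of_const (zpowers x) (c := 0) (fun y hy hy1 => perm_char_zero hp hx hfpf hy hy1), hπ1]
    ring
  have hma : ∑ χ, m χ * a χ = 2 := by
    have h1 : ksum (zpowers x) (fun g : G => (Nat.card (MulAction.fixedBy Ω g) : ℂ))
        = ∑ χ : IrrCharacter G, (m χ : ℂ) * ((a χ : ℂ) * p) := by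
      conv_lhs => rw [hF]
      have h2 : (fun g => (∑ χ : IrrCharacter G, (m χ : ℂ) • (χ : G → ℂ)) g)
          = fun g => ∑ χ ∈ Finset.univ, (m χ : ℂ) * (χ : G → ℂ) g := by
        funext g
        simp [Finset.sum_apply]
      have h3 : ksum (zpowers x) (∑ χ : IrrCharacter G, (m χ : ℂ) • (χ : G → ℂ))
          = ksum (zpowers x) (fun g => (∑ χ : IrrCharacter G, (m χ : ℂ) • (χ : G → ℂ)) g) := rfl
      rw [h3, h2, ksum_finset_sum]
      refine Finset.sum_congr rfl fun χ _ => ?_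
      rw [ksum_mul_left, ha]
    rw [hPπ] at h1
    have h4 : ((2 : ℕ) : ℂ) * p = ((∑ χ, m χ * a χ : ℕ) : ℂ) * p := by
      push_cast
      rw [h1, Finset.sum_mul]
      refine Finset.sum_congr rfl fun χ _ => by ring
    have h5 := mul_right_cancel₀ hpc h4
    exact_mod_cast h5.symm
  set one : IrrCharacter G := ⟨fun _ => 1, Helper83.isIrr_trivial⟩ with hone
  have hm1 : m one = 1 := by
    have h1 := hm one
    rw [hone] at h1
    simp only at h1
    rw [classInner_perm_one] at h1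
    exact_mod_cast h1.symm
  have hd1 : d one = 1 := by
    have h1 := hd one
    rw [hone] at h1
    simp only at h1
    exact_mod_cast h1.symm
  have ha1 : a one = 1 := by
    have h1 := ha one
    rw [hone] at h1
    simp only at h1
    rw [ksum_one, hcardP] at h1
    have h2 : ((1 : ℕ) : ℂ) * p = (a one : ℂ) * p := by rw [← h1]; simp
    have h3 := mul_right_cancel₀ hpc h2
    exact_mod_cast h3.symm
  rw [← Finset.add_sum_erase _ _ (Finset.mem_univ one), hm1, ha1] at hma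
  have hma' : ∑ χ ∈ Finset.univ.erase one, m χ * a χ = 1 := by omega
  obtain ⟨χ₀, hχ₀mem, hχ₀ne⟩ : ∃ χ₀ ∈ Finset.univ.erase one, m χ₀ * a χ₀ ≠ 0 := by
    by_contra hcon
    push Not at hcon
    rw [Finset.sum_eq_zero hcon] at hma'
    omega
  rw [← Finset.add_sum_erase _ _ hχ₀mem] at hma'
  have hma0 : m χ₀ * a χ₀ = 1 := by omega
  have hrest : ∑ χ ∈ (Finset.univ.erase one).erase χ₀, m χ * a χ = 0 := by omega
  have hm0 : m χ₀ = 1 := Nat.eq_one_of_mul_eq_one_right hma0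
  have ha0 : a χ₀ = 1 := Nat.eq_one_of_mul_eq_one_left hma0
  have hχ₀one : χ₀ ≠ one := Finset.ne_of_mem_erase hχ₀mem
  have hχ₀one' : (χ₀ : G → ℂ) ≠ fun _ => 1 := fun h => hχ₀one (Subtype.ext h)
  have hothers : ∀ χ : IrrCharacter G, χ ≠ one → χ ≠ χ₀ → m χ * a χ = 0 := by
    intro χ h1 h2
    exact (Finset.sum_eq_zero_iff.1 hrest) χ
      (Finset.mem_erase.2 ⟨h2, Finset.mem_erase.2 ⟨h1, Finset.mem_univ _⟩⟩)
  -- Galois invariance
  have hgal : ∀ k : ℕ, (Nat.card G).Coprime k → ∀ g, (χ₀ : G → ℂ) (g ^ k) = (χ₀ : G → ℂ) g := by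
    intro k hk
    set χk : IrrCharacter G :=
      ⟨fun g => (χ₀ : G → ℂ) (g ^ k), Helper79.IsIrrCharacter.pow_coprime χ₀.2 k hk.symm⟩ with hχk
    have hmk : m χk = 1 := by
      have h1 := hm χk
      rw [hχk] at h1
      simp only at h1
      rw [classInner_perm_pow hk, hm, hm0] at h1
      exact_mod_cast h1.symm
    have hak : a χk = 1 := by
      have h1 := ha χk
      rw [hχk] at h1
      simp only at h1
      rw [ksum_pow hk, ha, ha0] at h1
      have h3 := mul_right_cancel₀ hpc h1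
      exact_mod_cast h3.symm
    have hk1 : χk ≠ one := by
      intro h
      apply hχ₀one'
      funext g
      obtain ⟨g', rfl⟩ := (powCoprime hk).surjective g
      have := congrFun (congrArg Subtype.val h) g'
      exact this
    have hk0 : χk = χ₀ := by
      by_contra h
      have := hothers χk hk1 h
      rw [hmk, hak] at this
      omega
    intro g
    exact congrFun (congrArg Subtype.val hk0) g
  have hconst : ∀ y ∈ zpowers x, y ≠ 1 → (χ₀ : G → ℂ) y = (χ₀ : G → ℂ) x :=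
    fun y hy hy1 => const_of_galois hp hx hgal hy hy1
  have hsum0 : (d χ₀ : ℂ) + ((p : ℂ) - 1) * (χ₀ : G → ℂ) x = p := by
    have h1 := ksum_of_const (zpowers x) hconst
    rw [ha, ha0, hcardP, hd] at h1
    rw [← h1]; simp
  have hp1c : (p : ℂ) - 1 ≠ 0 := by
    have : ((p - 1 : ℕ) : ℂ) ≠ 0 := by
      have : p - 1 ≠ 0 := by omega
      exact_mod_cast this
    rwa [Nat.cast_sub (by omega), Nat.cast_one] at this
  obtain ⟨z, hz⟩ : ∃ z : ℤ, (χ₀ : G → ℂ) x = z := by
    have h1 : (χ₀ : G → ℂ) x = ((((p : ℚ) - d χ₀) / ((p : ℚ) - 1) : ℚ) : ℂ) := by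
      push_cast
      field_simp
      linear_combination hsum0
    have h2 := Helper20.isCharacter_isIntegral (Helper20.isCharacter_of_isIrrCharacter χ₀.2) x
    rw [h1] at h2
    obtain ⟨z, hz⟩ := Helper4.exists_int_of_isIntegral_rat h2
    exact ⟨z, by rw [h1, hz]; simp⟩
  have hsumZ : (d χ₀ : ℤ) + ((p : ℤ) - 1) * z = p := by
    rw [hz] at hsum0
    exact_mod_cast hsum0
  -- degree bound
  rw [hcard, ← Finset.add_sum_erase _ _ (Finset.mem_univ one), hm1, hd1,
    ← Finset.add_sum_erase _ _ hχ₀mem, hm0] at hn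
  have hd0le : d χ₀ ≤ 2 * p - 1 := by omega
  have hd0pos := hdpos χ₀
  have hz1 : z ≤ 1 := by
    by_contra h
    push Not at h
    have : ((p : ℤ) - 1) * 2 ≤ ((p : ℤ) - 1) * z := by
      apply mul_le_mul_of_nonneg_left <;> omega
    omega
  have hz2 : -1 ≤ z := by
    by_contra h
    push Not at h
    have : ((p : ℤ) - 1) * z ≤ ((p : ℤ) - 1) * (-2) := by
      apply mul_le_mul_of_nonneg_left <;> omega
    omega
  have hzc : z = 1 ∨ z = -1 ∨ z = 0 := by omega
  rcases hzc with rfl | rfl | rfl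
  · -- degree one, `x` in the kernel
    exfalso
    have hd0 : d χ₀ = 1 := by omega
    obtain ⟨n, ρ, hρ, hρχ⟩ := χ₀.2
    have hker : ρ.character x = ρ.character 1 := by
      rw [hρχ, hz, hd, hd0]; simp
    have hid : ρ x = LinearMap.id := (Helper82.rep_apply_eq_id_iff ρ x).2 hker
    have : Nontrivial Ω := by
      rw [← Fintype.one_lt_card_iff_nontrivial, hcard]; omega
    have htr := trace_avg_stabilizer (Ω := Ω) ρ a₀ 1 (by rw [hρχ, hm, hm0])
    have hE : avg ρ (MulAction.stabilizer G a₀) ≠ 0 := by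
      intro h0
      rw [h0, map_zero] at htr
      norm_num at htr
    have := fix_lemma ρ (by rw [hρχ]; exact sum_eq_zero_of_irr_ne_one χ₀.2 hχ₀one') a₀ hE
      (g := x) (by rw [hid]; rfl)
    exact hfpf x hx a₀ this
  · -- degree `2p - 1`: rank two
    exfalso
    have hd0 : d χ₀ = 2 * p - 1 := by omega
    have hrest0 : ∑ χ ∈ (Finset.univ.erase one).erase χ₀, m χ * d χ = 0 := by omega
    have hmz : ∀ χ ∈ (Finset.univ.erase one).erase χ₀, m χ = 0 := by
      intro χ hχ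
      have h1 := (Finset.sum_eq_zero_iff.1 hrest0) χ hχ
      have h2 := hdpos χ
      rcases Nat.mul_eq_zero.1 h1 with h | h
      · exact h
      · omega
    rw [← Finset.add_sum_erase _ _ (Finset.mem_univ one), hm1,
      ← Finset.add_sum_erase _ _ hχ₀mem, hm0,
      Finset.sum_eq_zero (fun χ hχ => by rw [hmz χ hχ]; rfl)] at hrank
    exact hn2 (two_trans_of_rank_two a₀ (by rw [hrank]; norm_num))
  · refine ⟨χ₀, hχ₀one', hm0, by omega, ?_, ?_⟩
    · intro y hy hy1
      rw [hconst y hy hy1, hz]; simp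
    · intro χ h1 h2 h3
      have h4 := hothers χ (fun h => h1 (congrArg Subtype.val h)) h2
      have h5 : a χ = 0 := by
        rcases Nat.mul_eq_zero.1 h4 with h | h
        · exact absurd h h3
        · exact h
      rw [ha, h5]; simp

/-- The decomposition of the permutation character of a primitive, not doubly transitive group of
degree `2p` in which all elements of order `p` are fixed-point-free. -/
theorem decomposition (hp : p.Prime) (hp2 : p ≠ 2) (hcard : Fintype.card Ω = 2 * p)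
    (hprim : MulAction.IsPreprimitive G Ω) {x : G} (hx : orderOf x = p)
    (hfpf : ∀ g : G, orderOf g = p → ∀ a : Ω, g • a ≠ a)
    (hn2 : ¬ MulAction.IsMultiplyPretransitive G Ω 2) :
    ∃ (χ₀ : G → ℂ) (X : Finset (IrrCharacter G)), IsIrrCharacter G χ₀ ∧ χ₀ ≠ (fun _ => 1) ∧
      (∀ χ ∈ X, (χ : G → ℂ) ≠ (fun _ => 1)) ∧ (∀ χ ∈ X, (χ : G → ℂ) ≠ χ₀) ∧
      ((fun g : G => (Nat.card (MulAction.fixedBy Ω g) : ℂ))
        = fun g => 1 + χ₀ g + ∑ χ ∈ X, (χ : G → ℂ) g) ∧
      χ₀ 1 = p ∧ (∀ y ∈ zpowers x, y ≠ 1 → χ₀ y = 0) ∧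
      (∀ χ ∈ X, ksum (zpowers x) (χ : G → ℂ) = 0) ∧
      (∀ χ ∈ X, ksum (zpowers x) (fun g => (χ : G → ℂ) g * conj ((χ : G → ℂ) g))
        = (χ : G → ℂ) 1 * p) ∧
      (∀ χ ∈ X, ∀ χ' ∈ X, χ ≠ χ' →
        ksum (zpowers x) (fun g => (χ : G → ℂ) g * conj ((χ' : G → ℂ) g)) = 0) := by
  have hpt : MulAction.IsPretransitive G Ω := hprim.toIsPretransitive
  have : Finite (IrrCharacter G) := Helper20.finite_irrCharacter
  have : Fintype (IrrCharacter G) := Fintype.ofFinite _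
  have hne : Nonempty Ω := by
    rw [← Fintype.card_pos_iff, hcard]
    have := hp.pos
    omega
  obtain ⟨a₀⟩ := hne
  have hne : Nonempty Ω := ⟨a₀⟩
  have hp3 : 3 ≤ p := by
    have := hp.two_le
    omega
  have hpc : (p : ℂ) ≠ 0 := by exact_mod_cast hp.ne_zero
  have hcardP : (Nat.card (zpowers x) : ℂ) = p := by rw [card_zpowers_eq hx]
  obtain ⟨m, d, hm, hd, hdpos, hrank, hn⟩ := perm_mult_data (G := G) a₀
  obtain ⟨χ₀, hχ₀one', hm0, hd0, hχ₀P, hothers⟩ :=
    exists_chi0 hp hp2 hcard hprim hx hfpf hn2 a₀ m d hm hd hdpos hrank hn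
  set one : IrrCharacter G := ⟨fun _ => 1, Helper83.isIrr_trivial⟩ with hone
  have hχ₀one : χ₀ ≠ one := fun h => hχ₀one' (congrArg Subtype.val h)
  have hm1 : m one = 1 := by
    have h1 := hm one
    rw [hone] at h1
    simp only at h1
    rw [classInner_perm_one] at h1
    exact_mod_cast h1.symm
  have hd1 : d one = 1 := by
    have h1 := hd one
    rw [hone] at h1
    simp only at h1
    exact_mod_cast h1.symm
  set X : Finset (IrrCharacter G) :=
    ((Finset.univ.erase one).erase χ₀).filter (fun χ => m χ ≠ 0) with hX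
  have hXmem : ∀ χ, χ ∈ X ↔ χ ≠ one ∧ χ ≠ χ₀ ∧ m χ ≠ 0 := by
    intro χ
    simp only [hX, Finset.mem_filter, Finset.mem_erase, Finset.mem_univ, and_true]
    tauto
  have hχ₀mem : χ₀ ∈ Finset.univ.erase one := Finset.mem_erase.2 ⟨hχ₀one, Finset.mem_univ _⟩
  -- general splitting of sums weighted by `m`
  have hsplit : ∀ (f : IrrCharacter G → ℂ), ∑ χ, (m χ : ℂ) * f χ
      = f one + f χ₀ + ∑ χ ∈ X, (m χ : ℂ) * f χ := by
    intro f
    rw [← Finset.add_sum_erase _ _ (Finset.mem_univ one), hm1, ← Finset.add_sum_erase _ _ hχ₀mem,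
      hm0, hX, Finset.sum_filter]
    have : ∀ χ ∈ (Finset.univ.erase one).erase χ₀, (m χ : ℂ) * f χ
        = if m χ ≠ 0 then (m χ : ℂ) * f χ else 0 := by
      intro χ _
      split_ifs with h
      · rfl
      · push Not at h
        rw [h]; simp
    rw [Finset.sum_congr rfl this]
    push_cast
    ring
  have hF := Helper20.eq_sum_classInner_smul (G := G) (isClassFunction_perm (Ω := Ω))
  simp only [hm] at hF
  have hπ : ∀ g : G, (Nat.card (MulAction.fixedBy Ω g) : ℂ)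
      = 1 + (χ₀ : G → ℂ) g + ∑ χ ∈ X, (m χ : ℂ) * (χ : G → ℂ) g := by
    intro g
    have h1 := congrFun hF g
    simp only [Finset.sum_apply, Pi.smul_apply, smul_eq_mul] at h1
    rw [h1, hsplit (fun χ => (χ : G → ℂ) g)]
  have hπ1 : (Nat.card (MulAction.fixedBy Ω (1 : G)) : ℂ) = 2 * p := by
    rw [card_fixedBy_eq_sum]
    simp [hcard]
  -- the remaining part of the character
  set π' : G → ℂ := fun g => ∑ χ ∈ X, (m χ : ℂ) * (χ : G → ℂ) g with hπ'
  have hπ'1 : π' 1 = (p : ℂ) - 1 := by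
    have h1 := hπ 1
    rw [hπ1, hd, hd0] at h1
    simp only [hπ']
    linear_combination -h1
  have hπ'P : ∀ y ∈ zpowers x, y ≠ 1 → π' y = -1 := by
    intro y hy hy1
    have h1 := hπ y
    rw [perm_char_zero hp hx hfpf hy hy1, hχ₀P y hy hy1] at h1
    simp only [hπ']
    linear_combination -h1
  have hnorm : ksum (zpowers x) (fun g => π' g * conj (π' g)) = (p : ℂ) * ((p : ℂ) - 1) := by
    rw [ksum_of_const (zpowers x) (c := 1) (fun y hy hy1 => by rw [hπ'P y hy hy1]; simp), hπ'1,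
      hcardP]
    simp only [map_sub, map_one, Complex.conj_natCast]
    ring
  -- Gram matrix on `P`
  have hg : ∀ χ χ' : IrrCharacter G, ∃ n : ℕ,
      ksum (zpowers x) (fun g => (χ : G → ℂ) g * conj ((χ' : G → ℂ) g)) = n * (p : ℂ) := by
    intro χ χ'
    obtain ⟨n, hn⟩ := exists_nat_ksum (Helper20.isCharacter_of_isIrrCharacter χ.2)
      (Helper20.isCharacter_of_isIrrCharacter χ'.2) (zpowers x)
    exact ⟨n, by rw [hn, hcardP]⟩
  choose gr hgr using hg
  have hgd : ∀ χ : IrrCharacter G, d χ ≤ gr χ χ := by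
    intro χ
    obtain ⟨n, d', h1, h2, h3⟩ := ksum_norm_ge_of_comm (zpowers x)
      (fun a ha b hb => zpowers_comm ha hb) (Helper20.isCharacter_of_isIrrCharacter χ.2)
    rw [hgr, hcardP] at h1
    have h4 := mul_right_cancel₀ hpc h1
    have h5 : gr χ χ = n := by exact_mod_cast h4
    rw [hd] at h2
    have h6 : d χ = d' := by exact_mod_cast h2
    omega
  have hexp : ksum (zpowers x) (fun g => π' g * conj (π' g))
      = ∑ χ ∈ X, ∑ χ' ∈ X, ((m χ * m χ' * gr χ χ' : ℕ) : ℂ) * p := by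
    have h1 : (fun g => π' g * conj (π' g)) = fun g => ∑ χ ∈ X, ∑ χ' ∈ X,
        ((m χ : ℂ) * (m χ' : ℂ)) * ((χ : G → ℂ) g * conj ((χ' : G → ℂ) g)) := by
      funext g
      simp only [hπ', map_sum, map_mul, Complex.conj_natCast]
      rw [Finset.sum_mul_sum]
      refine Finset.sum_congr rfl fun χ _ => Finset.sum_congr rfl fun χ' _ => by ring
    rw [h1, ksum_finset_sum]
    refine Finset.sum_congr rfl fun χ _ => ?_
    rw [ksum_finset_sum]
    refine Finset.sum_congr rfl fun χ' _ => ?_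
    rw [ksum_mul_left, hgr]
    push_cast
    ring
  have hsumA : ∑ χ ∈ X, ∑ χ' ∈ X, m χ * m χ' * gr χ χ' = p - 1 := by
    rw [hnorm] at hexp
    have h1 : ((p - 1 : ℕ) : ℂ) * p = ((∑ χ ∈ X, ∑ χ' ∈ X, m χ * m χ' * gr χ χ' : ℕ) : ℂ) * p := by
      rw [Nat.cast_sub (by omega), Nat.cast_one, mul_comm, hexp]
      push_cast
      rw [Finset.sum_mul]
      refine Finset.sum_congr rfl fun χ _ => ?_
      rw [Finset.sum_mul]
    have h2 := mul_right_cancel₀ hpc h1
    exact_mod_cast h2.symm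
  have hsumB : ∑ χ ∈ X, m χ * d χ = p - 1 := by
    have h1 : ((∑ χ ∈ X, m χ * d χ : ℕ) : ℂ) = ((p - 1 : ℕ) : ℂ) := by
      rw [Nat.cast_sub (by omega), Nat.cast_one, ← hπ'1]
      simp only [hπ', hd]
      push_cast
      rfl
    exact_mod_cast h1
  have hdiag := diag_of_sum_eq X (fun χ χ' => m χ * m χ' * gr χ χ') (fun χ => m χ * d χ)
    (by rw [hsumA, hsumB]) (by
      intro χ hχ
      have h1 : 1 ≤ m χ := Nat.one_le_iff_ne_zero.2 ((hXmem χ).1 hχ).2.2
      have h2 := hgd χ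
      calc m χ * d χ ≤ m χ * gr χ χ := Nat.mul_le_mul_left _ h2
        _ = m χ * 1 * gr χ χ := by ring
        _ ≤ m χ * m χ * gr χ χ := by
          apply Nat.mul_le_mul_right
          exact Nat.mul_le_mul_left _ h1)
  have hmX : ∀ χ ∈ X, m χ = 1 ∧ gr χ χ = d χ := by
    intro χ hχ
    have h1 : 1 ≤ m χ := Nat.one_le_iff_ne_zero.2 ((hXmem χ).1 hχ).2.2
    have h2 := hgd χ
    have h3 := (hdiag χ hχ).1
    have h4 := hdpos χ
    have h5 : m χ * gr χ χ = d χ := by
      have : m χ * (m χ * gr χ χ) = m χ * d χ := by rw [← h3]; ring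
      exact Nat.eq_of_mul_eq_mul_left (by omega) this
    have h6 : m χ = 1 := by
      by_contra h
      have h7 : 2 ≤ m χ := by omega
      have : 2 * gr χ χ ≤ m χ * gr χ χ := Nat.mul_le_mul_right _ h7
      omega
    refine ⟨h6, ?_⟩
    rw [h6] at h5
    omega
  refine ⟨χ₀, X, χ₀.2, hχ₀one', ?_, ?_, ?_, ?_, hχ₀P, ?_, ?_, ?_⟩
  · intro χ hχ h
    exact ((hXmem χ).1 hχ).1 (Subtype.ext h)
  · intro χ hχ h
    exact ((hXmem χ).1 hχ).2.1 (Subtype.ext h)
  · funext g
    rw [hπ g]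
    congr 1
    refine Finset.sum_congr rfl fun χ hχ => ?_
    rw [(hmX χ hχ).1]; simp
  · rw [hd, hd0]
  · intro χ hχ
    exact hothers χ (fun h => ((hXmem χ).1 hχ).1 (Subtype.ext h)) ((hXmem χ).1 hχ).2.1
      ((hXmem χ).1 hχ).2.2
  · intro χ hχ
    rw [hgr, (hmX χ hχ).2, hd]
  · intro χ hχ χ' hχ' hne
    have h1 := (hdiag χ hχ).2 χ' hχ' (Ne.symm hne)
    rw [(hmX χ hχ).1, (hmX χ' hχ').1] at h1
    rw [hgr]
    have : gr χ χ' = 0 := by omega
    rw [this]; simp

end Dec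

end Cfsg.Agent.Lib.Helper96
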