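import Cfsg.Agent.Lib.Helper96.TwoP4
import Cfsg.Agent.Lib.Helper4.CharInner

/-!
# Degree `2p`: the normalizer of `⟨x⟩`, vanishing of characters, and the Bessel argument
-/

set_option autoImplicit false
set_option linter.unusedSectionVars false

namespace Cfsg.Agent.Lib.Helper96

open Cfsg Subgroup
open scoped Classical
open scoped ComplexConjugate

section Nrm

variable {G : Type*} [Group G] {p : ℕ}

/-- The normalizer of the cyclic group generated by `x`. -/
def nrm (x : G) : Subgroup G := normalizer (zpowers x : Set G)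

theorem zpowers_le_nrm (x : G) : zpowers x ≤ nrm x := le_normalizer

theorem conj_mem_of_mem_nrm {x n y : G} (hn : n ∈ nrm x) (hy : y ∈ zpowers x) :
    n * y * n⁻¹ ∈ zpowers x := (mem_normalizer_iff.1 hn y).1 hy

theorem conj_zpow (g x : G) (k : ℤ) : g * x ^ k * g⁻¹ = (g * x * g⁻¹) ^ k := by
  have := map_zpow (MulAut.conj g) x k
  simp only [MulAut.conj_apply] at this
  exact this

theorem mem_nrm_of_conj (hp : p.Prime) {x : G} (hx : orderOf x = p) {g : G}
    (hg : g * x * g⁻¹ ∈ zpowers x) : g ∈ nrm x := by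
  have hx1 : x ≠ 1 := by
    intro h
    rw [h, orderOf_one] at hx
    exact hp.one_lt.ne hx
  have hy1 : g * x * g⁻¹ ≠ 1 := by
    intro h
    apply hx1
    have : x = g⁻¹ * (g * x * g⁻¹) * g := by group
    rw [this, h]; group
  obtain ⟨j, hj⟩ := mem_zpowers_iff.1 (mem_zpowers_of_ne_one hp hx hg hy1)
  refine mem_normalizer_iff.2 fun h => ⟨?_, ?_⟩
  · intro hh
    obtain ⟨k, rfl⟩ := mem_zpowers_iff.1 hh
    rw [conj_zpow]
    exact zpow_mem hg k
  · intro hh
    obtain ⟨i, hi⟩ := mem_zpowers_iff.1 hh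
    have h1 : g * h * g⁻¹ = g * x ^ (j * i) * g⁻¹ := by
      rw [conj_zpow, zpow_mul, hj, hi]
    have h2 : h = x ^ (j * i) := by
      have := mul_right_cancel h1
      exact mul_left_cancel this
    rw [h2]
    exact zpow_mem (mem_zpowers x) _

/-- TI property. -/
theorem mem_nrm_of_conj_mem (hp : p.Prime) {x : G} (hx : orderOf x = p) {y z : G}
    (hy : y ∈ zpowers x) (hy1 : y ≠ 1) (hz : z⁻¹ * y * z ∈ zpowers x) : z ∈ nrm x := by
  obtain ⟨j, hj⟩ := mem_zpowers_iff.1 (mem_zpowers_of_ne_one hp hx hy hy1)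
  have h1 : z⁻¹ * x * z⁻¹⁻¹ ∈ zpowers x := by
    have h2 : z⁻¹ * x * z⁻¹⁻¹ = (z⁻¹ * y * z) ^ j := by
      rw [← hj, conj_zpow, inv_inv]
    rw [h2]
    exact zpow_mem hz j
  have := mem_nrm_of_conj hp hx h1
  simpa using inv_mem this

/-- The commutator map with an element of the normalizer outside `⟨x⟩` is onto. -/
theorem comm_surj (hp : p.Prime) {x : G} (hx : orderOf x = p)
    (hcent : ∀ c : G, c * x = x * c → c ∈ zpowers x) {u : G} (hu : u ∈ nrm x)
    (hu' : u ∉ zpowers x) {w : G} (hw : w ∈ zpowers x) :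
    ∃ y ∈ zpowers x, u * y * u⁻¹ * y⁻¹ = w := by
  have hfin : Finite (zpowers x) := Nat.finite_of_card_ne_zero (by
    rw [card_zpowers_eq hx]; exact hp.ne_zero)
  let φ : zpowers x → zpowers x := fun y =>
    ⟨u * y * u⁻¹ * (y : G)⁻¹, mul_mem (conj_mem_of_mem_nrm hu y.2) (inv_mem y.2)⟩
  have hinj : Function.Injective φ := by
    intro y y' hyy
    have h1 : u * (y : G) * u⁻¹ * (y : G)⁻¹ = u * (y' : G) * u⁻¹ * (y' : G)⁻¹ :=
      congrArg Subtype.val hyy
    set t : G := (y' : G)⁻¹ * y with ht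
    have htP : t ∈ zpowers x := mul_mem (inv_mem y'.2) y.2
    have h2 : u * t * u⁻¹ = t := by
      have e1 : u * t * u⁻¹ = (u * (y' : G) * u⁻¹)⁻¹ * (u * (y : G) * u⁻¹) := by
        rw [ht]; group
      have e2 : u * (y : G) * u⁻¹ = u * (y' : G) * u⁻¹ * (y' : G)⁻¹ * y := by
        rw [← h1]; group
      rw [e1, e2, ht]; group
    have h3 : t = 1 := by
      by_contra ht1
      obtain ⟨j, hj⟩ := mem_zpowers_iff.1 (mem_zpowers_of_ne_one hp hx htP ht1)
      apply hu'
      apply hcent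
      have h4 : u * x * u⁻¹ = x := by rw [← hj, conj_zpow, h2]
      calc u * x = u * x * u⁻¹ * u := by group
        _ = x * u := by rw [h4]
    apply Subtype.ext
    rw [ht, inv_mul_eq_one] at h3
    exact h3.symm
  obtain ⟨y, hy⟩ := (Finite.injective_iff_surjective.1 hinj) ⟨w, hw⟩
  exact ⟨y, y.2, congrArg Subtype.val hy⟩

end Nrm

section Van

variable {G : Type*} [Group G] [Fintype G] {p : ℕ}

/-- A character with no fixed vector under `⟨x⟩` vanishes on the normalizer outside `⟨x⟩`. -/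
theorem char_vanish (hp : p.Prime) {x : G} (hx : orderOf x = p)
    (hcent : ∀ c : G, c * x = x * c → c ∈ zpowers x) {χ : G → ℂ} (hχ : IsCharacter G χ)
    (h0 : ksum (zpowers x) χ = 0) {n : G} (hn : n ∈ nrm x) (hn' : n ∉ zpowers x) : χ n = 0 := by
  have h1 := ksum_coset_eq_zero hχ (zpowers x) h0 n
  have hcl := Helper20.isClassFunction_of_isCharacter hχ
  have h2 : ksum (zpowers x) (fun y => χ (n * y)) = ksum (zpowers x) (fun _ => χ n * 1) := by
    refine ksum_congr _ fun y hy => ?_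
    obtain ⟨z, _, hzy⟩ := comm_surj hp hx hcent (inv_mem hn)
      (fun h => hn' (by simpa using inv_mem h)) hy
    have h3 : n * y = z * n * z⁻¹ := by
      rw [← hzy]; group
    rw [h3, hcl, mul_one]
  rw [h2, ksum_mul_left, ksum_one, card_zpowers_eq hx] at h1
  have hpc : (p : ℂ) ≠ 0 := by exact_mod_cast hp.ne_zero
  exact (mul_eq_zero.1 h1).resolve_right hpc

/-- The norm on the normalizer. -/
theorem norm_on_nrm (hp : p.Prime) {x : G} (hx : orderOf x = p)
    (hcent : ∀ c : G, c * x = x * c → c ∈ zpowers x) {χ : G → ℂ} (hχ : IsCharacter G χ)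
    (h0 : ksum (zpowers x) χ = 0) {s : ℕ} (hs : 0 < s)
    (hnorm : ksum (zpowers x) (fun g => χ g * conj (χ g)) = (s : ℂ) * p) :
    ∃ k : ℕ, 1 ≤ k ∧ s * p = k * Nat.card (nrm x) := by
  obtain ⟨k, hk⟩ := exists_nat_ksum hχ hχ (nrm x)
  rw [ksum_le_of_vanish (zpowers_le_nrm x) _ (fun g hg hg' => by
    rw [char_vanish hp hx hcent hχ h0 hg hg']; simp), hnorm] at hk
  have hk' : s * p = k * Nat.card (nrm x) := by exact_mod_cast hk
  refine ⟨k, ?_, hk'⟩
  by_contra h
  have : k = 0 := by omega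
  rw [this, zero_mul] at hk'
  have := Nat.mul_pos hs hp.pos
  omega

end Van

section Ind

variable {G : Type*} [Group G] [Fintype G] {p : ℕ}

/-- The class function induced (through the normalizer) from the restriction of `f` to `⟨x⟩`. -/
noncomputable def indP (x : G) (f : G → ℂ) : G → ℂ := fun g =>
  (Nat.card (nrm x) : ℂ)⁻¹ * ∑ z : G, if z⁻¹ * g * z ∈ zpowers x then f (z⁻¹ * g * z) else 0

theorem isClassFunction_indP (x : G) (f : G → ℂ) : IsClassFunction G (indP x f) := by
  intro g h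
  unfold indP
  congr 1
  refine Fintype.sum_equiv (Equiv.mulLeft h⁻¹) _ _ ?_
  intro z
  have : (h⁻¹ * z)⁻¹ * g * (h⁻¹ * z) = z⁻¹ * (h * g * h⁻¹) * z := by group
  simp only [Equiv.coe_mulLeft, this]

theorem classInner_indP (x : G) (f : G → ℂ) {ψ : G → ℂ} (hψ : IsClassFunction G ψ) :
    classInner (indP x f) ψ
      = (Nat.card (nrm x) : ℂ)⁻¹ * ksum (zpowers x) (fun g => f g * conj (ψ g)) := by
  unfold classInner indP
  have h1 : ∀ g : G, ((Nat.card (nrm x) : ℂ)⁻¹ *
      ∑ z : G, if z⁻¹ * g * z ∈ zpowers x then f (z⁻¹ * g * z) else 0) * conj (ψ g)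
      = (Nat.card (nrm x) : ℂ)⁻¹ *
        ∑ z : G, (if z⁻¹ * g * z ∈ zpowers x then f (z⁻¹ * g * z) else 0) * conj (ψ g) := by
    intro g
    rw [mul_assoc, Finset.sum_mul]
  rw [Finset.sum_congr rfl fun g _ => h1 g, ← Finset.mul_sum, Finset.sum_comm]
  have h2 : ∀ z : G, ∑ g : G, (if z⁻¹ * g * z ∈ zpowers x then f (z⁻¹ * g * z) else 0) * conj (ψ g)
      = ksum (zpowers x) (fun g => f g * conj (ψ g)) := by
    intro z
    rw [ksum_def]
    refine Fintype.sum_equiv (MulAut.conj z⁻¹).toEquiv _ _ ?_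
    intro g
    have e1 : (MulAut.conj z⁻¹).toEquiv g = z⁻¹ * g * z := by
      show z⁻¹ * g * z⁻¹⁻¹ = _
      rw [inv_inv]
    rw [e1]
    have e2 : ψ (z⁻¹ * g * z) = ψ g := by
      have := hψ g z⁻¹
      rwa [inv_inv] at this
    rw [e2]
    split_ifs <;> simp
  rw [Finset.sum_congr rfl fun z _ => h2 z, Finset.sum_const, Finset.card_univ,
    ← Nat.card_eq_fintype_card, nsmul_eq_mul]
  have hG : (Nat.card G : ℂ) ≠ 0 := Helper20.card_ne_zero_complex
  field_simp

theorem indP_apply_of_mem (hp : p.Prime) {x : G} (hx : orderOf x = p) {f : G → ℂ}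
    (hf : IsClassFunction G f) (hf1 : f 1 = 0) {y : G} (hy : y ∈ zpowers x) :
    indP x f y = f y := by
  unfold indP
  by_cases hy1 : y = 1
  · subst hy1
    simp [hf1]
  · have h1 : ∀ z : G, (if z⁻¹ * y * z ∈ zpowers x then f (z⁻¹ * y * z) else 0)
        = if z ∈ nrm x then f y * 1 else 0 := by
      intro z
      have e2 : f (z⁻¹ * y * z) = f y := by
        have := hf y z⁻¹
        rwa [inv_inv] at this
      by_cases hz : z ∈ nrm x
      · have h3 : z⁻¹ * y * z ∈ zpowers x := by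
          have := conj_mem_of_mem_nrm (inv_mem hz) hy
          rwa [inv_inv] at this
        rw [if_pos hz, if_pos h3, e2, mul_one]
      · rw [if_neg hz, if_neg]
        intro h3
        exact hz (mem_nrm_of_conj_mem hp hx hy hy1 h3)
    rw [Finset.sum_congr rfl fun z _ => h1 z]
    have h4 : (∑ z : G, if z ∈ nrm x then f y * 1 else 0) = ksum (nrm x) (fun _ => f y * 1) := rfl
    rw [h4, ksum_mul_left, ksum_one]
    have := card_ne_zero_of_subgroup (nrm x)
    field_simp

end Ind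

end Cfsg.Agent.Lib.Helper96
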