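import Cfsg.Agent.Lib.Helper96.TwoP5

/-!
# Degree `2p`: the Bessel argument for two exceptional constituents
-/

set_option autoImplicit false
set_option linter.unusedSectionVars false

namespace Cfsg.Agent.Lib.Helper96

open Cfsg Subgroup
open scoped Classical
open scoped ComplexConjugate

section Bes

variable {G : Type*} [Group G] [Fintype G] {p : ℕ}

theorem bessel_arith {s₁ s₂ k₁ k₂ ν p : ℕ} (hs₁ : 0 < s₁) (hs₂ : 0 < s₂) (hν : 0 < ν)
    (hk₁ : 1 ≤ k₁) (hk₂ : 1 ≤ k₂) (h₁ : s₁ * p = k₁ * ν) (h₂ : s₂ * p = k₂ * ν)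
    (h : 2 * (s₁ * s₂ * p) ≤ (s₁ + s₂) * ν) : k₁ = 1 ∧ k₂ = 1 := by
  have e1 : 2 * (s₁ * s₂ * p) = (s₁ * k₂ + s₂ * k₁) * ν := by
    have : 2 * (s₁ * s₂ * p) = s₁ * (s₂ * p) + s₂ * (s₁ * p) := by ring
    rw [this, h₁, h₂]; ring
  rw [e1] at h
  have h3 : s₁ * k₂ + s₂ * k₁ ≤ s₁ + s₂ := Nat.le_of_mul_le_mul_right h hν
  have h4 : s₁ * 1 ≤ s₁ * k₂ := Nat.mul_le_mul_left _ hk₂
  have h5 : s₂ * 1 ≤ s₂ * k₁ := Nat.mul_le_mul_left _ hk₁
  have h6 : s₁ * k₂ = s₁ * 1 := by omega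
  have h7 : s₂ * k₁ = s₂ * 1 := by omega
  exact ⟨Nat.eq_of_mul_eq_mul_left hs₂ h7, Nat.eq_of_mul_eq_mul_left hs₁ h6⟩

theorem bessel (hp : p.Prime) {x : G} (hx : orderOf x = p)
    (hcent : ∀ c : G, c * x = x * c → c ∈ zpowers x) {χ₁ χ₂ : G → ℂ}
    (h₁ : IsIrrCharacter G χ₁) (h₂ : IsIrrCharacter G χ₂) (hne : χ₁ ≠ χ₂)
    (h01 : ksum (zpowers x) χ₁ = 0) (h02 : ksum (zpowers x) χ₂ = 0)
    (hn1 : ksum (zpowers x) (fun g => χ₁ g * conj (χ₁ g)) = χ₁ 1 * p)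
    (hn2 : ksum (zpowers x) (fun g => χ₂ g * conj (χ₂ g)) = χ₂ 1 * p)
    (h12 : ksum (zpowers x) (fun g => χ₁ g * conj (χ₂ g)) = 0)
    (h21 : ksum (zpowers x) (fun g => χ₂ g * conj (χ₁ g)) = 0) :
    χ₁ 1 * p = (Nat.card (nrm x) : ℂ) ∧
      ∀ ψ : G → ℂ, IsIrrCharacter G ψ → (∀ y ∈ zpowers x, ψ y = χ₁ y) → ψ = χ₁ := by
  obtain ⟨s₁, hs₁pos, hs₁⟩ := Helper83.isIrr_one h₁
  obtain ⟨s₂, hs₂pos, hs₂⟩ := Helper83.isIrr_one h₂
  have hc₁ := Helper20.isCharacter_of_isIrrCharacter h₁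
  have hc₂ := Helper20.isCharacter_of_isIrrCharacter h₂
  have hcl₁ := Helper20.isClassFunction_of_isCharacter hc₁
  have hcl₂ := Helper20.isClassFunction_of_isCharacter hc₂
  rw [hs₁] at hn1 ⊢
  rw [hs₂] at hn2
  obtain ⟨k₁, hk₁, hk₁'⟩ := norm_on_nrm hp hx hcent hc₁ h01 hs₁pos hn1
  obtain ⟨k₂, hk₂, hk₂'⟩ := norm_on_nrm hp hx hcent hc₂ h02 hs₂pos hn2
  obtain ⟨ν, hν⟩ : ∃ ν : ℕ, Nat.card (nrm x) = ν := ⟨_, rfl⟩
  rw [hν] at hk₁' hk₂' ⊢
  have hνpos : 0 < ν := hν ▸ Nat.card_pos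
  have hνc : (ν : ℂ) ≠ 0 := by exact_mod_cast hνpos.ne'
  have hpc : (p : ℂ) ≠ 0 := by exact_mod_cast hp.ne_zero
  set f : G → ℂ := fun g => (s₂ : ℂ) * χ₁ g - (s₁ : ℂ) * χ₂ g with hf
  have hfcl : IsClassFunction G f := by
    intro g h
    simp only [hf, hcl₁ g h, hcl₂ g h]
  have hf1 : f 1 = 0 := by
    simp only [hf, hs₁, hs₂]; ring
  set F := indP x f with hF
  have hFcl : IsClassFunction G F := isClassFunction_indP x f
  -- sums over `P`
  have hlin : ∀ ψ : G → ℂ, ksum (zpowers x) (fun g => f g * conj (ψ g))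
      = (s₂ : ℂ) * ksum (zpowers x) (fun g => χ₁ g * conj (ψ g))
        - (s₁ : ℂ) * ksum (zpowers x) (fun g => χ₂ g * conj (ψ g)) := by
    intro ψ
    have e1 : (fun g => f g * conj (ψ g)) = fun g => (s₂ : ℂ) * (χ₁ g * conj (ψ g))
        + (-(s₁ : ℂ)) * (χ₂ g * conj (ψ g)) := by
      funext g
      simp only [hf]; ring
    rw [e1, ksum_add, ksum_mul_left, ksum_mul_left]
    ring
  have hS1 : ksum (zpowers x) (fun g => f g * conj (χ₁ g)) = (s₁ : ℂ) * s₂ * p := by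
    rw [hlin, hn1, h21]; ring
  have hS2 : ksum (zpowers x) (fun g => f g * conj (χ₂ g)) = -((s₁ : ℂ) * s₂ * p) := by
    rw [hlin, hn2, h12]; ring
  have hSf : ksum (zpowers x) (fun g => f g * conj (f g)) = (s₁ : ℂ) * s₂ * (s₁ + s₂) * p := by
    have e1 : (fun g => f g * conj (f g)) = fun g => (s₂ : ℂ) * (f g * conj (χ₁ g))
        + (-(s₁ : ℂ)) * (f g * conj (χ₂ g)) := by
      funext g
      simp only [hf, map_sub, map_mul, Complex.conj_natCast]; ring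
    rw [e1, ksum_add, ksum_mul_left, ksum_mul_left, hS1, hS2]
    ring
  have hF1 : classInner F χ₁ = (s₁ : ℂ) * s₂ * p / ν := by
    rw [hF, classInner_indP x f hcl₁, hS1, hν]; field_simp
  have hF2 : classInner F χ₂ = -((s₁ : ℂ) * s₂ * p / ν) := by
    rw [hF, classInner_indP x f hcl₂, hS2, hν]; field_simp
  have hFF : classInner F F = (s₁ : ℂ) * s₂ * (s₁ + s₂) * p / ν := by
    rw [hF, classInner_indP x f (isClassFunction_indP x f)]
    have e1 : ksum (zpowers x) (fun g => f g * conj (indP x f g))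
        = ksum (zpowers x) (fun g => f g * conj (f g)) := by
      refine ksum_congr _ fun y hy => ?_
      rw [indP_apply_of_mem hp hx hfcl hf1 hy]
    rw [e1, hSf, hν]; field_simp
  set c : ℂ := (s₁ : ℂ) * s₂ * p / ν with hc
  have hcconj : conj c = c := by
    simp only [hc, map_div₀, map_mul, Complex.conj_natCast]
  set R : G → ℂ := F - c • (χ₁ - χ₂) with hR
  have hD : classInner (χ₁ - χ₂) (χ₁ - χ₂) = 2 := by
    rw [Helper20.classInner_sub_left, Helper20.classInner_sub_right, Helper20.classInner_sub_right,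
      Helper20.classInner_irr_self h₁, Helper20.classInner_irr_self h₂,
      Helper20.classInner_irr_ne h₁ h₂ hne, Helper20.classInner_irr_ne h₂ h₁ (Ne.symm hne)]
    ring
  have hFD : classInner F (χ₁ - χ₂) = 2 * c := by
    rw [Helper20.classInner_sub_right, hF1, hF2]; ring
  have hDF : classInner (χ₁ - χ₂) F = 2 * c := by
    rw [← Helper20.classInner_conj_symm, hFD, map_mul, hcconj, map_ofNat]
  have hRR : classInner R R = (s₁ : ℂ) * s₂ * (s₁ + s₂) * p / ν - 2 * c ^ 2 := by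
    rw [hR, Helper20.classInner_sub_left, Helper20.classInner_sub_right,
      Helper20.classInner_sub_right, Helper20.classInner_smul_left, Helper20.classInner_smul_right,
      Helper20.classInner_smul_right, Helper20.classInner_smul_left, hFF, hFD, hDF, hD, hcconj]
    ring
  -- non-negativity
  have hineq : 2 * (s₁ * s₂ * p) ≤ (s₁ + s₂) * ν := by
    have h3 := Helper4.classInner_self_eq R
    rw [hRR] at h3
    have h4 : (((s₁ : ℝ) * s₂ * (s₁ + s₂) * p / ν - 2 * ((s₁ : ℝ) * s₂ * p / ν) ^ 2 : ℝ) : ℂ)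
        = (((Nat.card G : ℝ)⁻¹ * ∑ g : G, ‖R g‖ ^ 2 : ℝ) : ℂ) := by
      rw [← h3, hc]; push_cast; ring
    have h5 := Complex.ofReal_injective h4
    have h6 : 0 ≤ (Nat.card G : ℝ)⁻¹ * ∑ g : G, ‖R g‖ ^ 2 := by positivity
    rw [← h5] at h6
    have hνr : (0 : ℝ) < ν := by exact_mod_cast hνpos
    have hsr : (0 : ℝ) < (s₁ : ℝ) * s₂ * p := by
      have := hp.pos
      positivity
    have h7 : (s₁ : ℝ) * s₂ * (s₁ + s₂) * p / ν - 2 * ((s₁ : ℝ) * s₂ * p / ν) ^ 2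
        = ((s₁ : ℝ) * s₂ * p / ν ^ 2) * (((s₁ : ℝ) + s₂) * ν - 2 * ((s₁ : ℝ) * s₂ * p)) := by
      field_simp
    rw [h7] at h6
    have h8 : 0 < (s₁ : ℝ) * s₂ * p / ν ^ 2 := by positivity
    have h9 : 0 ≤ ((s₁ : ℝ) + s₂) * ν - 2 * ((s₁ : ℝ) * s₂ * p) := by
      by_contra hneg
      push Not at hneg
      have := mul_neg_of_pos_of_neg h8 hneg
      linarith
    have h10 : (2 * (s₁ * s₂ * p) : ℝ) ≤ ((s₁ : ℝ) + s₂) * ν := by linarith
    exact_mod_cast h10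
  obtain ⟨hk1, hk2⟩ := bessel_arith hs₁pos hs₂pos hνpos hk₁ hk₂ hk₁' hk₂' hineq
  rw [hk1, one_mul] at hk₁'
  rw [hk2, one_mul] at hk₂'
  have hss : s₁ = s₂ := Nat.eq_of_mul_eq_mul_right hp.pos (hk₁'.trans hk₂'.symm)
  have hνeq : (ν : ℂ) = (s₁ : ℂ) * p := by exact_mod_cast hk₁'.symm
  refine ⟨hνeq.symm, ?_⟩
  have hs₁c : (s₁ : ℂ) ≠ 0 := by exact_mod_cast hs₁pos.ne'
  have hcval : c = s₁ := by
    rw [hc, hνeq, ← hss]; field_simp
  have hR0 : R = 0 := by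
    apply Helper4.classInner_self_eq_zero
    rw [hRR, hcval, hνeq, ← hss]
    field_simp
    ring
  have hFeq : F = c • (χ₁ - χ₂) := by
    rw [hR] at hR0
    exact sub_eq_zero.1 hR0
  intro ψ hψ hψP
  by_contra hψne
  have hclψ := Helper20.isClassFunction_of_isCharacter (Helper20.isCharacter_of_isIrrCharacter hψ)
  have e1 : classInner F ψ = c := by
    rw [hF, classInner_indP x f hclψ]
    have e2 : ksum (zpowers x) (fun g => f g * conj (ψ g))
        = ksum (zpowers x) (fun g => f g * conj (χ₁ g)) := by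
      refine ksum_congr _ fun y hy => ?_
      rw [hψP y hy]
    rw [e2, hS1, hν, hc]; field_simp
  rw [hFeq, Helper20.classInner_smul_left, Helper20.classInner_sub_left,
    Helper20.classInner_irr_ne h₁ hψ (Ne.symm hψne), Helper20.classInner_irr h₂ hψ] at e1
  have hc0 : c ≠ 0 := by rw [hcval]; exact hs₁c
  split_ifs at e1 with h
  · have : c * 2 = 0 := by linear_combination -e1
    exact hc0 ((mul_eq_zero.1 this).resolve_right two_ne_zero)
  · have : c = 0 := by linear_combination -e1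
    exact hc0 this

end Bes

end Cfsg.Agent.Lib.Helper96
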