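import Cfsg.Agent.Lib.Helper96.TwoP6

/-!
# Degree `2p`: the point stabilizer in the normalizer of `⟨x⟩`
-/

set_option autoImplicit false
set_option linter.unusedSectionVars false

namespace Cfsg.Agent.Lib.Helper96

open Cfsg Subgroup
open scoped Classical

section NS

variable {G : Type*} [Group G] {Ω : Type*} [MulAction G Ω] {p : ℕ}

theorem mem_zpowers_of_conj_fix (hp : p.Prime) {x : G} (hx : orderOf x = p)
    (hcent : ∀ c : G, c * x = x * c → c ∈ zpowers x) {t u : G} (ht : t ∈ zpowers x) (ht1 : t ≠ 1)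
    (hut : u * t * u⁻¹ = t) : u ∈ zpowers x := by
  obtain ⟨j, hj⟩ := mem_zpowers_iff.1 (mem_zpowers_of_ne_one hp hx ht ht1)
  apply hcent
  have h4 : u * x * u⁻¹ = x := by rw [← hj, conj_zpow, hut]
  calc u * x = u * x * u⁻¹ * u := by group
    _ = x * u := by rw [h4]

theorem nrm_smul_orb {x n : G} (hn : n ∈ nrm x) {a b : Ω} (hb : b ∈ orb x a) :
    n • b ∈ orb x (n • a) := by
  obtain ⟨y, hy, rfl⟩ := hb
  refine ⟨n * y * n⁻¹, conj_mem_of_mem_nrm hn hy, ?_⟩
  rw [← mul_smul, ← mul_smul]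
  congr 1
  group

theorem nrm_smul_not_mem_orb {x u : G} (hu : u ∈ nrm x) {a b : Ω} (hua : u • a = a)
    (hb : b ∉ orb x a) : u • b ∉ orb x a := by
  intro h
  have h1 := nrm_smul_orb (inv_mem hu) h
  rw [inv_smul_smul, inv_smul_eq_iff.2 hua.symm] at h1
  exact hb h1

/-- The point stabilizer in the normalizer is abelian. -/
theorem nrm_stab_comm (hp : p.Prime) {x : G} (hx : orderOf x = p)
    (hfpf : ∀ g : G, orderOf g = p → ∀ a : Ω, g • a ≠ a)
    (hcent : ∀ c : G, c * x = x * c → c ∈ zpowers x) {a : Ω} {u v : G} (hu : u ∈ nrm x)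
    (hv : v ∈ nrm x) (hua : u • a = a) (hva : v • a = a) : u * v = v * u := by
  obtain ⟨k, hk⟩ := mem_zpowers_iff.1 (conj_mem_of_mem_nrm hu (mem_zpowers x))
  obtain ⟨l, hl⟩ := mem_zpowers_iff.1 (conj_mem_of_mem_nrm hv (mem_zpowers x))
  have h1 : (u * v) * x * (u * v)⁻¹ = x ^ (k * l) := by
    have : (u * v) * x * (u * v)⁻¹ = u * (v * x * v⁻¹) * u⁻¹ := by group
    rw [this, ← hl, conj_zpow, ← hk, ← zpow_mul]
  have h2 : (v * u) * x * (v * u)⁻¹ = x ^ (k * l) := by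
    have : (v * u) * x * (v * u)⁻¹ = v * (u * x * u⁻¹) * v⁻¹ := by group
    rw [this, ← hk, conj_zpow, ← hl, ← zpow_mul, mul_comm]
  set c := (v * u)⁻¹ * (u * v) with hc
  have hcx : c * x = x * c := by
    have h3 : (u * v) * x * (u * v)⁻¹ = (v * u) * x * (v * u)⁻¹ := h1.trans h2.symm
    have h4 : c * x * c⁻¹ = x := by
      have : c * x * c⁻¹ = (v * u)⁻¹ * ((u * v) * x * (u * v)⁻¹) * (v * u) := by
        rw [hc]; group
      rw [this, h3]; group
    calc c * x = c * x * c⁻¹ * c := by group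
      _ = x * c := by rw [h4]
  have hcP := hcent c hcx
  have hca : c • a = a := by
    rw [hc, mul_smul, mul_smul, hva, hua, inv_smul_eq_iff, mul_smul, hua, hva]
  have hc1 := semireg hp hx hfpf hcP hca
  rw [hc, inv_mul_eq_one] at hc1
  exact hc1.symm

/-- The point stabilizer in the normalizer fixes a point of the other orbit. -/
theorem exists_second_fixed_point [Fintype Ω] (hp : p.Prime) (hcard : Fintype.card Ω = 2 * p)
    {x : G} (hx : orderOf x = p) (hfpf : ∀ g : G, orderOf g = p → ∀ a : Ω, g • a ≠ a)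
    (hcent : ∀ c : G, c * x = x * c → c ∈ zpowers x) (a₀ : Ω) :
    ∃ b₀ : Ω, b₀ ∉ orb x a₀ ∧ ∀ u ∈ nrm x, u • a₀ = a₀ → u • b₀ = b₀ := by
  obtain ⟨b, hb⟩ := exists_not_mem_orb hp hcard hx hfpf a₀
  by_cases hU : ∀ u ∈ nrm x, u • a₀ = a₀ → u = 1
  · refine ⟨b, hb, fun u hu hua => ?_⟩
    rw [hU u hu hua, one_smul]
  push Not at hU
  obtain ⟨u₁, hu₁, hu₁a, hu₁1⟩ := hU
  have hu₁P : u₁ ∉ zpowers x := fun h => hu₁1 (semireg hp hx hfpf h hu₁a)
  obtain ⟨z, hz, hzb⟩ := two_orbits hp hcard hx hfpf hb (nrm_smul_not_mem_orb hu₁ hu₁a hb)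
  obtain ⟨y, hy, hyz⟩ := comm_surj hp hx hcent hu₁ hu₁P (inv_mem hz)
  have hb₀ : y • b ∉ orb x a₀ := by
    intro h
    have := smul_mem_orb (inv_mem hy) h
    rw [inv_smul_smul] at this
    exact hb this
  have hfix : u₁ • y • b = y • b := by
    have e1 : u₁ * y = (u₁ * y * u₁⁻¹ * y⁻¹) * y * u₁ := by group
    rw [← mul_smul, e1, hyz, mul_smul, ← hzb, ← mul_smul]
    congr 1
    rw [mul_assoc, zpowers_comm hy hz, ← mul_assoc, inv_mul_cancel, one_mul]
  refine ⟨y • b, hb₀, fun u hu hua => ?_⟩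
  obtain ⟨t, ht, htb⟩ := two_orbits hp hcard hx hfpf hb₀ (nrm_smul_not_mem_orb hu hua hb₀)
  have h1 : u₁ • u • y • b = u • y • b := by
    rw [← mul_smul, nrm_stab_comm hp hx hfpf hcent hu₁ hu hu₁a hua, mul_smul, hfix]
  rw [← htb] at h1
  have h2 : (t⁻¹ * (u₁ * t * u₁⁻¹)) • y • b = y • b := by
    have e1 : (u₁ * t * u₁⁻¹) • y • b = t • y • b := by
      conv_lhs => rw [← hfix]
      rw [← mul_smul, inv_mul_cancel_right, mul_smul]
      exact h1
    rw [mul_smul, e1, inv_smul_smul]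
  have h3 := semireg hp hx hfpf (mul_mem (inv_mem ht) (conj_mem_of_mem_nrm hu₁ ht)) h2
  have h4 : u₁ * t * u₁⁻¹ = t := (inv_mul_eq_one.1 h3).symm
  have ht1 : t = 1 := by
    by_contra ht1
    exact hu₁P (mem_zpowers_of_conj_fix hp hx hcent ht ht1 h4)
  rw [← htb, ht1, one_smul]

/-- Orbit-stabilizer for a subgroup. -/
theorem card_eq_orbit_mul [Finite G] (K : Subgroup G) (a : Ω) :
    Nat.card K = (MulAction.orbit K a).ncard * Nat.card (K ⊓ MulAction.stabilizer G a : Subgroup G) := by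
  have h1 := (MulAction.stabilizer K a).index_mul_card
  rw [MulAction.index_stabilizer] at h1
  rw [← h1]
  congr 1
  refine Nat.card_congr ?_
  exact
    { toFun := fun k => ⟨k.1.1, k.1.2, k.2⟩
      invFun := fun g => ⟨⟨g.1, g.2.1⟩, g.2.2⟩
      left_inv := fun _ => rfl
      right_inv := fun _ => rfl }

end NS

end Cfsg.Agent.Lib.Helper96
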