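import Cfsg.Agent.Lib.Helper96.TwoP7

/-!
# Degree `2p`: the sign of the elements of the normalizer of `⟨x⟩`
-/

set_option autoImplicit false
set_option linter.unusedSectionVars false

namespace Cfsg.Agent.Lib.Helper96

open Cfsg Subgroup
open scoped Classical

section Sign

theorem sign_of_product_form {Ω P : Type*} [Fintype Ω] [Fintype P]
    (e : Bool × P ≃ Ω) (g : Equiv.Perm Ω) (τ : Equiv.Perm Bool) (φ : Equiv.Perm P)
    (t : Bool → Equiv.Perm P) (ht : ∀ i, Equiv.Perm.sign (t i) = 1)
    (h : ∀ i y, g (e (i, y)) = e (τ i, t i (φ y))) :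
    Equiv.Perm.sign g = (Equiv.Perm.sign τ) ^ Fintype.card P := by
  have hg : g = e.permCongr ((Equiv.prodCongrLeft (fun _ : P => τ) : Equiv.Perm (Bool × P)) *
      (Equiv.prodCongrRight (fun i => t i * φ) : Equiv.Perm (Bool × P))) := by
    ext c
    obtain ⟨⟨i, y⟩, rfl⟩ := e.surjective c
    rw [h]
    simp [Equiv.permCongr_apply]
  rw [hg, Equiv.Perm.sign_permCongr, map_mul, Equiv.Perm.sign_prodCongrLeft,
    Equiv.Perm.sign_prodCongrRight]
  simp only [Finset.prod_const, Finset.card_univ, Fintype.univ_bool, map_mul, ht, one_mul]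
  simp

theorem sign_eq_one_of_pow_odd {P : Type*} [Fintype P] {σ : Equiv.Perm P} {p : ℕ} (hodd : Odd p)
    (h : σ ^ p = 1) : Equiv.Perm.sign σ = 1 := by
  have h1 : (Equiv.Perm.sign σ) ^ p = 1 := by rw [← map_pow, h, map_one]
  rcases Int.units_eq_one_or (Equiv.Perm.sign σ) with h2 | h2
  · exact h2
  · rw [h2, hodd.neg_one_pow] at h1
    exact absurd h1 (by decide)

end Sign

section NSign

variable {G : Type*} [Group G] [Fintype G] {Ω : Type*} [Fintype Ω] [MulAction G Ω] {p : ℕ}

/-- The identification of `Ω` with two copies of `⟨x⟩`. -/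
theorem exists_equiv_two_copies (hp : p.Prime) (hcard : Fintype.card Ω = 2 * p) {x : G}
    (hx : orderOf x = p) (hfpf : ∀ g : G, orderOf g = p → ∀ a : Ω, g • a ≠ a) {a b : Ω}
    (hb : b ∉ orb x a) :
    ∃ e : Bool × zpowers x ≃ Ω, ∀ (i : Bool) (y : zpowers x),
      e (i, y) = (y : G) • (if i then b else a) := by
  have hinj : Function.Injective
      (fun c : Bool × zpowers x => (c.2 : G) • (if c.1 then b else a)) := by
    have key : ∀ (c : Ω) (y z : zpowers x), (y : G) • c = (z : G) • c → y = z := by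
      intro c y z hyz
      have h2 : ((z : G)⁻¹ * y) • c = c := by rw [mul_smul, hyz, inv_smul_smul]
      have h3 := semireg hp hx hfpf (mul_mem (inv_mem z.2) y.2) h2
      exact Subtype.ext (inv_mul_eq_one.1 h3).symm
    have key2 : ∀ (y z : zpowers x), (y : G) • b ≠ (z : G) • a := by
      intro y z hyz
      apply hb
      refine ⟨(y : G)⁻¹ * z, mul_mem (inv_mem y.2) z.2, ?_⟩
      rw [mul_smul, ← hyz, inv_smul_smul]
    rintro ⟨i, y⟩ ⟨j, z⟩ h
    simp only at h
    cases i <;> cases j
    · simp only [Bool.false_eq_true, if_false] at h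
      rw [key a y z h]
    · simp only [Bool.false_eq_true, if_false, if_true] at h
      exact absurd h.symm (key2 z y)
    · simp only [Bool.false_eq_true, if_false, if_true] at h
      exact absurd h (key2 y z)
    · simp only [if_true] at h
      rw [key b y z h]
  have hbij : Function.Bijective
      (fun c : Bool × zpowers x => (c.2 : G) • (if c.1 then b else a)) := by
    rw [Fintype.bijective_iff_injective_and_card]
    refine ⟨hinj, ?_⟩
    rw [Fintype.card_prod, Fintype.card_bool, Fintype.card_zpowers, hx, hcard]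
  exact ⟨Equiv.ofBijective _ hbij, fun i y => rfl⟩

/-- Conjugation by an element of the normalizer as a permutation of `⟨x⟩`. -/
def conjPerm {x g : G} (hg : g ∈ nrm x) : Equiv.Perm (zpowers x) where
  toFun y := ⟨g * y * g⁻¹, conj_mem_of_mem_nrm hg y.2⟩
  invFun y := ⟨g⁻¹ * y * g, by
    have := conj_mem_of_mem_nrm (inv_mem hg) y.2
    rwa [inv_inv] at this⟩
  left_inv y := by
    apply Subtype.ext
    simp only
    group
  right_inv y := by
    apply Subtype.ext
    simp only
    group

theorem sign_nrm (hp : p.Prime) (hp2 : p ≠ 2) (hcard : Fintype.card Ω = 2 * p) {x : G}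
    (hx : orderOf x = p) (hfpf : ∀ g : G, orderOf g = p → ∀ a : Ω, g • a ≠ a) {a b : Ω}
    (hb : b ∉ orb x a) {g : G} (hg : g ∈ nrm x) (τ : Equiv.Perm Bool) (z : Bool → zpowers x)
    (h : ∀ i : Bool, g • (if i then b else a) = (z i : G) • (if τ i then b else a)) :
    Equiv.Perm.sign (MulAction.toPerm g : Equiv.Perm Ω) = (Equiv.Perm.sign τ) ^ p := by
  obtain ⟨e, he⟩ := exists_equiv_two_copies hp hcard hx hfpf hb
  have hodd : Odd p := hp.odd_of_ne_two hp2
  have h1 := sign_of_product_form e (MulAction.toPerm g) τ (conjPerm hg)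
    (fun i => Equiv.mulRight (z i)) ?_ ?_
  · rw [h1, Fintype.card_zpowers, hx]
  · intro i
    refine sign_eq_one_of_pow_odd hodd ?_
    ext y
    have hz : (z i) ^ p = 1 := by
      apply Subtype.ext
      have := orderOf_dvd_iff_pow_eq_one.1 (orderOf_dvd_natCard (z i))
      rw [card_zpowers_eq hx] at this
      rw [this]
    have : ∀ k : ℕ, ((Equiv.mulRight (z i)) ^ k : Equiv.Perm (zpowers x)) y = y * (z i) ^ k := by
      intro k
      induction k with
      | zero => simp
      | succ k ih =>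
        rw [pow_succ', Equiv.Perm.mul_apply, ih, Equiv.coe_mulRight, pow_succ]
        exact mul_assoc _ _ _
    rw [this, hz]
    simp
  · intro i y
    rw [he, he, MulAction.toPerm_apply]
    simp only [Equiv.coe_mulRight, conjPerm, Equiv.coe_fn_mk, Subgroup.coe_mul]
    rw [mul_smul, ← h i, ← mul_smul, ← mul_smul]
    congr 1
    group

theorem sign_nrm_of_mem (hp : p.Prime) (hp2 : p ≠ 2) (hcard : Fintype.card Ω = 2 * p) {x : G}
    (hx : orderOf x = p) (hfpf : ∀ g : G, orderOf g = p → ∀ a : Ω, g • a ≠ a) {a : Ω}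
    {g : G} (hg : g ∈ nrm x) (hga : g • a ∈ orb x a) :
    Equiv.Perm.sign (MulAction.toPerm g : Equiv.Perm Ω) = 1 := by
  obtain ⟨b, hb⟩ := exists_not_mem_orb hp hcard hx hfpf a
  have hgb : g • b ∉ orb x a := by
    intro h
    have h1 : g • b ∈ orb x (g • a) := orb_trans (orb_symm hga) h
    have h2 := nrm_smul_orb (inv_mem hg) h1
    rw [inv_smul_smul, inv_smul_smul] at h2
    exact hb h2
  obtain ⟨z₀, hz₀, hz₀a⟩ := hga
  obtain ⟨z₁, hz₁, hz₁b⟩ := two_orbits hp hcard hx hfpf hb hgb
  have := sign_nrm hp hp2 hcard hx hfpf hb hg 1 (fun i => if i then ⟨z₁, hz₁⟩ else ⟨z₀, hz₀⟩) ?_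
  · rw [this, map_one, one_pow]
  · intro i
    cases i
    · simp [hz₀a]
    · simp [hz₁b]

theorem sign_nrm_of_not_mem (hp : p.Prime) (hp2 : p ≠ 2) (hcard : Fintype.card Ω = 2 * p) {x : G}
    (hx : orderOf x = p) (hfpf : ∀ g : G, orderOf g = p → ∀ a : Ω, g • a ≠ a) {a : Ω}
    {g : G} (hg : g ∈ nrm x) (hga : g • a ∉ orb x a) :
    Equiv.Perm.sign (MulAction.toPerm g : Equiv.Perm Ω) = -1 := by
  have hgb : g • g • a ∈ orb x a := by
    by_contra h
    have h1 : g • g • a ∈ orb x (g • a) := two_orbits hp hcard hx hfpf hga h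
    have h2 := nrm_smul_orb (inv_mem hg) h1
    rw [inv_smul_smul, inv_smul_smul] at h2
    exact hga h2
  obtain ⟨z₁, hz₁, hz₁b⟩ := hgb
  have := sign_nrm hp hp2 hcard hx hfpf hga hg (Equiv.swap false true)
    (fun i => if i then ⟨z₁, hz₁⟩ else 1) ?_
  · rw [this, Equiv.Perm.sign_swap (by decide), (hp.odd_of_ne_two hp2).neg_one_pow]
  · intro i
    cases i
    · simp
    · simp [hz₁b]

end NSign

end Cfsg.Agent.Lib.Helper96
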