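import Cfsg.Agent.Lib.Helper96.TwoP8
import Cfsg.Agent.Lib.Helper82.Linear

/-!
# Degree `2p`: the case of at least two small constituents is impossible
-/

set_option autoImplicit false
set_option linter.unusedSectionVars false

namespace Cfsg.Agent.Lib.Helper96

open Cfsg Subgroup
open scoped Classical
open scoped ComplexConjugate

section Step6

variable {G : Type*} [Group G] [Fintype G] {Ω : Type*} [Fintype Ω] [MulAction G Ω] {p : ℕ}

theorem orbit_nrm_nonswap (hp : p.Prime) {x : G} (hx : orderOf x = p)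
    (hfpf : ∀ g : G, orderOf g = p → ∀ a : Ω, g • a ≠ a) {a₀ : Ω}
    (hns : ∀ n ∈ nrm x, n • a₀ ∈ orb x a₀) : (MulAction.orbit (nrm x) a₀).ncard = p := by
  have : MulAction.orbit (nrm x) a₀ = orb x a₀ := by
    ext c
    constructor
    · rintro ⟨n, rfl⟩
      exact hns n n.2
    · rintro ⟨y, hy, rfl⟩
      exact ⟨⟨y, zpowers_le_nrm x hy⟩, rfl⟩
  rw [this, ncard_orb hp hx hfpf]

theorem orbit_nrm_swap (hp : p.Prime) (hcard : Fintype.card Ω = 2 * p) {x : G}
    (hx : orderOf x = p) (hfpf : ∀ g : G, orderOf g = p → ∀ a : Ω, g • a ≠ a) {a₀ : Ω} {w : G}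
    (hw : w ∈ nrm x) (hwa : w • a₀ ∉ orb x a₀) : (MulAction.orbit (nrm x) a₀).ncard = 2 * p := by
  have : MulAction.orbit (nrm x) a₀ = Set.univ := by
    refine Set.eq_univ_of_forall fun c => ?_
    by_cases hc : c ∈ orb x a₀
    · obtain ⟨y, hy, rfl⟩ := hc
      exact ⟨⟨y, zpowers_le_nrm x hy⟩, rfl⟩
    · obtain ⟨y, hy, rfl⟩ := two_orbits hp hcard hx hfpf hwa hc
      exact ⟨⟨y * w, mul_mem (zpowers_le_nrm x hy) hw⟩, mul_smul _ _ _⟩
  rw [this, Set.ncard_univ, Nat.card_eq_fintype_card, hcard]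

theorem ksum_nrm_stab (hp : p.Prime) {x : G} (hx : orderOf x = p)
    (hfpf : ∀ g : G, orderOf g = p → ∀ a : Ω, g • a ≠ a)
    (hcent : ∀ c : G, c * x = x * c → c ∈ zpowers x) {χ : G → ℂ} (hχ : IsCharacter G χ)
    (h0 : ksum (zpowers x) χ = 0) (a₀ : Ω) :
    ksum (nrm x ⊓ MulAction.stabilizer G a₀) χ = χ 1 := by
  rw [ksum_of_const (c := 0) _ ?_]
  · ring
  · intro y hy hy1
    exact char_vanish hp hx hcent hχ h0 hy.1 (fun h => hy1 (semireg hp hx hfpf h hy.2))

theorem not_prime_two_mul (hp : p.Prime) : ¬ (2 * p).Prime := by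
  intro h
  rcases (Nat.prime_mul_iff.1 h) with ⟨_, h2⟩ | ⟨_, h2⟩
  · exact hp.one_lt.ne' h2
  · omega

/-- The non-swapping case. -/
theorem step6_nonswap [FaithfulSMul G Ω] (hp : p.Prime) (hcard : Fintype.card Ω = 2 * p)
    (hprim : MulAction.IsPreprimitive G Ω) {x : G} (hx : orderOf x = p)
    (hfpf : ∀ g : G, orderOf g = p → ∀ a : Ω, g • a ≠ a)
    (hcent : ∀ c : G, c * x = x * c → c ∈ zpowers x)
    {V : Type*} [AddCommGroup V] [Module ℂ V] [FiniteDimensional ℂ V] (ρ : Representation ℂ G V)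
    (hsum : ∑ g : G, ρ.character g = 0)
    (hmult : classInner (fun g : G => (Nat.card (MulAction.fixedBy Ω g) : ℂ)) ρ.character = 1)
    (h01 : ksum (zpowers x) ρ.character = 0)
    (hN : ρ.character 1 * p = (Nat.card (nrm x) : ℂ)) (a₀ : Ω)
    (hns : ∀ n ∈ nrm x, n • a₀ ∈ orb x a₀) : False := by
  obtain ⟨b₀, hb₀, hb₀fix⟩ := exists_second_fixed_point hp hcard hx hfpf hcent a₀
  have hba : b₀ ≠ a₀ := fun h => hb₀ (h ▸ self_mem_orb x a₀)
  have : Nontrivial Ω := ⟨b₀, a₀, hba⟩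
  have hχ : IsCharacter G ρ.character := Helper20.isCharacter_of_rep ρ
  have hUa : nrm x ⊓ MulAction.stabilizer G a₀ ≤ MulAction.stabilizer G a₀ := inf_le_right
  have hUb : nrm x ⊓ MulAction.stabilizer G a₀ ≤ MulAction.stabilizer G b₀ :=
    fun u hu => hb₀fix u hu.1 hu.2
  have hk := ksum_nrm_stab hp hx hfpf hcent hχ h01 a₀
  have hc := card_eq_orbit_mul (nrm x) a₀
  rw [orbit_nrm_nonswap hp hx hfpf hns] at hc
  have hp0 : (p : ℂ) ≠ 0 := by exact_mod_cast hp.ne_zero
  have hdeg : ρ.character 1 = (Nat.card (nrm x ⊓ MulAction.stabilizer G a₀ : Subgroup G) : ℂ) := by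
    rw [hc] at hN
    push_cast at hN
    have : (ρ.character 1 - (Nat.card (nrm x ⊓ MulAction.stabilizer G a₀ : Subgroup G) : ℂ)) * p = 0 := by
      linear_combination hN
    exact sub_eq_zero.1 ((mul_eq_zero.1 this).resolve_right hp0)
  have htrU : LinearMap.trace ℂ V (avg ρ (nrm x ⊓ MulAction.stabilizer G a₀)) = 1 := by
    rw [trace_avg, hk, hdeg]
    exact inv_mul_cancel₀ (card_ne_zero_of_subgroup _)
  have hmult' : classInner (fun g : G => (Nat.card (MulAction.fixedBy Ω g) : ℂ)) ρ.character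
      = ((1 : ℕ) : ℂ) := by rw [hmult, Nat.cast_one]
  have htr : ∀ b : Ω, LinearMap.trace ℂ V (avg ρ (MulAction.stabilizer G b)) = 1 := by
    intro b
    rw [trace_avg_stabilizer ρ b 1 hmult', Nat.cast_one]
  have e1 := avg_eq_of_le ρ hUa (htrU.trans (htr a₀).symm)
  have e2 := avg_eq_of_le ρ hUb (htrU.trans (htr b₀).symm)
  have hne : avg ρ (MulAction.stabilizer G b₀) ≠ 0 := by
    intro h
    have := htr b₀
    rw [h, map_zero] at this
    exact zero_ne_one this
  obtain ⟨h, hha, hhb⟩ := exists_moves (G := G) (by rw [hcard]; exact not_prime_two_mul hp) hba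
  apply hhb
  refine fix_lemma ρ hsum b₀ hne ?_
  rw [← e2, e1]
  exact rho_mul_avg ρ hha

/-- The sign homomorphism of a permutation action. -/
noncomputable def sgn (G : Type*) [Group G] (Ω : Type*) [Fintype Ω] [MulAction G Ω] : G →* ℤˣ :=
  Equiv.Perm.sign.comp (MulAction.toPermHom G Ω)

theorem sgn_apply (g : G) :
    sgn G Ω g = Equiv.Perm.sign (MulAction.toPerm g : Equiv.Perm Ω) := rfl

/-- The sign character. -/
noncomputable def sgnC (G : Type*) [Group G] (Ω : Type*) [Fintype Ω] [MulAction G Ω] : G → ℂ :=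
  fun g => ((sgn G Ω g : ℤ) : ℂ)

theorem isIrr_sgnC : IsIrrCharacter G (sgnC G Ω) := by
  have := Helper83.isIrr_of_hom ((Units.map (Int.castRingHom ℂ).toMonoidHom).comp (sgn G Ω))
  exact this

theorem sgnC_of_one {g : G} (h : sgn G Ω g = 1) : sgnC G Ω g = 1 := by
  unfold sgnC
  rw [h]
  simp

theorem sgnC_of_neg_one {g : G} (h : sgn G Ω g = -1) : sgnC G Ω g = -1 := by
  unfold sgnC
  rw [h]
  simp

theorem exists_stab_not_mem [FaithfulSMul G Ω] [MulAction.IsPreprimitive G Ω] [Nontrivial Ω]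
    (hn : ¬ (Fintype.card Ω).Prime) (K : Subgroup G) [hKn : K.Normal] (hK : K ≠ ⊤) (b : Ω) :
    ∃ h : G, h • b = b ∧ h ∉ K := by
  by_contra hcon
  push Not at hcon
  have hco : IsCoatom (MulAction.stabilizer G b) :=
    MulAction.IsPreprimitive.isCoatom_stabilizer_of_isPreprimitive G b
  have hle : MulAction.stabilizer G b ≤ K := fun h hh => hcon h hh
  have heq : K = MulAction.stabilizer G b := (hco.le_iff_eq hK).1 hle
  obtain ⟨c, hc⟩ := exists_ne b
  obtain ⟨h, hhb, hhc⟩ := exists_moves (G := G) hn hc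
  apply hhc
  obtain ⟨g, rfl⟩ := MulAction.exists_smul_eq G b c
  have h1 : g⁻¹ * h * g⁻¹⁻¹ ∈ K := hKn.conj_mem h (hcon h hhb) g⁻¹
  rw [heq, MulAction.mem_stabilizer_iff, inv_inv, mul_smul, mul_smul, inv_smul_eq_iff] at h1
  exact h1

theorem card_eq_two_mul_ker (H : Subgroup G) {h : G} (hh : h ∈ H) (hodd : sgn G Ω h = -1) :
    Nat.card H = 2 * Nat.card (H ⊓ (sgn G Ω).ker : Subgroup G) := by
  have h0 : ksum H (sgnC G Ω) = 0 := by
    have h1 := ksum_mul_left_mem H (sgnC G Ω) hh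
    have h2 : ksum H (fun g => sgnC G Ω (h * g)) = ksum H (fun g => (-1 : ℂ) * sgnC G Ω g) := by
      refine ksum_congr H fun g _ => ?_
      unfold sgnC
      rw [map_mul, hodd]
      simp
    rw [h2, ksum_mul_left] at h1
    linear_combination (-1 / 2 : ℂ) * h1
  have h1 : ksum H (fun g => 1 + sgnC G Ω g) = (Nat.card H : ℂ) := by
    rw [ksum_add, ksum_one, h0, add_zero]
  have h2 : ksum H (fun g => 1 + sgnC G Ω g)
      = ksum (H ⊓ (sgn G Ω).ker) (fun g => 1 + sgnC G Ω g) := by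
    refine ksum_le_of_vanish inf_le_left _ fun g hg hg' => ?_
    have h3 : sgn G Ω g = -1 := by
      rcases Int.units_eq_one_or (sgn G Ω g) with h4 | h4
      · exact absurd ⟨hg, h4⟩ hg'
      · exact h4
    rw [sgnC_of_neg_one h3]
    ring
  have h3 : ksum (H ⊓ (sgn G Ω).ker) (fun g => 1 + sgnC G Ω g)
      = ksum (H ⊓ (sgn G Ω).ker) (fun _ => (2 : ℂ) * 1) := by
    refine ksum_congr _ fun g hg => ?_
    rw [sgnC_of_one hg.2]
    ring
  rw [h2, h3, ksum_mul_left, ksum_one] at h1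
  exact_mod_cast h1.symm

/-- The swapping case. -/
theorem step6_swap [FaithfulSMul G Ω] (hp : p.Prime) (hp2 : p ≠ 2)
    (hcard : Fintype.card Ω = 2 * p)
    (hprim : MulAction.IsPreprimitive G Ω) {x : G} (hx : orderOf x = p)
    (hfpf : ∀ g : G, orderOf g = p → ∀ a : Ω, g • a ≠ a)
    (hcent : ∀ c : G, c * x = x * c → c ∈ zpowers x)
    {V : Type*} [AddCommGroup V] [Module ℂ V] [FiniteDimensional ℂ V] (ρ : Representation ℂ G V)
    (hirr : IsIrrCharacter G ρ.character)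
    (hsum : ∑ g : G, ρ.character g = 0)
    (hmult : classInner (fun g : G => (Nat.card (MulAction.fixedBy Ω g) : ℂ)) ρ.character = 1)
    (h01 : ksum (zpowers x) ρ.character = 0)
    (hN : ρ.character 1 * p = (Nat.card (nrm x) : ℂ))
    (huniq : ∀ ψ : G → ℂ, IsIrrCharacter G ψ → (∀ y ∈ zpowers x, ψ y = ρ.character y) →
      ψ = ρ.character)
    (a₀ : Ω) {w : G} (hw : w ∈ nrm x) (hwa : w • a₀ ∉ orb x a₀) : False := by
  obtain ⟨b₀, hb₀, hb₀fix⟩ := exists_second_fixed_point hp hcard hx hfpf hcent a₀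
  have hba : b₀ ≠ a₀ := fun h => hb₀ (h ▸ self_mem_orb x a₀)
  have : Nontrivial Ω := ⟨b₀, a₀, hba⟩
  have hχ : IsCharacter G ρ.character := Helper20.isCharacter_of_rep ρ
  have hnp : ¬ (Fintype.card Ω).Prime := by rw [hcard]; exact not_prime_two_mul hp
  have hwodd : sgn G Ω w = -1 := sign_nrm_of_not_mem hp hp2 hcard hx hfpf hw hwa
  have heven : ∀ n ∈ nrm x, n • a₀ ∈ orb x a₀ → sgn G Ω n = 1 :=
    fun n hn h => sign_nrm_of_mem hp hp2 hcard hx hfpf hn h
  have htw : sgnC G Ω * ρ.character = ρ.character := by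
    refine huniq _ (Helper82.isIrr_linear_mul (Helper20.isCharacter_of_isIrrCharacter isIrr_sgnC)
      (sgnC_of_one (map_one _)) hirr) ?_
    intro y hy
    rw [Pi.mul_apply, sgnC_of_one (heven y (zpowers_le_nrm x hy) ⟨y, hy, rfl⟩), one_mul]
  have hvan : ∀ g : G, sgn G Ω g = -1 → ρ.character g = 0 := by
    intro g hg
    have := congrFun htw g
    rw [Pi.mul_apply, sgnC_of_neg_one hg] at this
    linear_combination (-1 / 2 : ℂ) * this
  have hKtop : (sgn G Ω).ker ≠ ⊤ := by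
    intro h
    have h1 : w ∈ (sgn G Ω).ker := by rw [h]; trivial
    rw [MonoidHom.mem_ker, hwodd] at h1
    exact absurd h1 (by decide)
  have hodd_of : ∀ g : G, g ∉ (sgn G Ω).ker → sgn G Ω g = -1 := by
    intro g hg
    rcases Int.units_eq_one_or (sgn G Ω g) with h4 | h4
    · exact absurd h4 hg
    · exact h4
  have hTcard : ∀ b : Ω, Nat.card (MulAction.stabilizer G b)
      = 2 * Nat.card (MulAction.stabilizer G b ⊓ (sgn G Ω).ker : Subgroup G) := by
    intro b
    obtain ⟨h, hhb, hhK⟩ := exists_stab_not_mem hnp (sgn G Ω).ker hKtop b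
    exact card_eq_two_mul_ker _ hhb (hodd_of h hhK)
  have hmult' : classInner (fun g : G => (Nat.card (MulAction.fixedBy Ω g) : ℂ)) ρ.character
      = ((1 : ℕ) : ℂ) := by rw [hmult, Nat.cast_one]
  have htr : ∀ b : Ω, LinearMap.trace ℂ V (avg ρ (MulAction.stabilizer G b)) = 1 := by
    intro b
    rw [trace_avg_stabilizer ρ b 1 hmult', Nat.cast_one]
  have htrT : ∀ b : Ω,
      LinearMap.trace ℂ V (avg ρ (MulAction.stabilizer G b ⊓ (sgn G Ω).ker)) = 2 := by
    intro b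
    have h1 := htr b
    rw [trace_avg] at h1 ⊢
    rw [← ksum_le_of_vanish inf_le_left ρ.character
      (fun g hg hg' => hvan g (hodd_of g fun h => hg' ⟨hg, h⟩))]
    rw [hTcard b] at h1
    push_cast at h1
    have hne := card_ne_zero_of_subgroup (MulAction.stabilizer G b ⊓ (sgn G Ω).ker)
    have hS : ksum (MulAction.stabilizer G b) ρ.character
        = 2 * (Nat.card (MulAction.stabilizer G b ⊓ (sgn G Ω).ker : Subgroup G) : ℂ) := by
      field_simp at h1
      linear_combination h1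
    rw [hS]
    field_simp
  have hne : ∀ b : Ω, avg ρ (MulAction.stabilizer G b) ≠ 0 := by
    intro b h
    have := htr b
    rw [h, map_zero] at this
    exact zero_ne_one this
  -- the subgroup `U`
  have hUa : nrm x ⊓ MulAction.stabilizer G a₀ ≤ MulAction.stabilizer G a₀ ⊓ (sgn G Ω).ker := by
    intro u hu
    refine ⟨hu.2, heven u hu.1 ?_⟩
    have : u • a₀ = a₀ := hu.2
    rw [this]
    exact self_mem_orb x a₀
  have hUb : nrm x ⊓ MulAction.stabilizer G a₀ ≤ MulAction.stabilizer G b₀ ⊓ (sgn G Ω).ker :=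
    fun u hu => ⟨hb₀fix u hu.1 hu.2, (hUa hu).2⟩
  have hk := ksum_nrm_stab hp hx hfpf hcent hχ h01 a₀
  have hc := card_eq_orbit_mul (nrm x) a₀
  rw [orbit_nrm_swap hp hcard hx hfpf hw hwa] at hc
  have hp0 : (p : ℂ) ≠ 0 := by exact_mod_cast hp.ne_zero
  have hdeg : ρ.character 1
      = 2 * (Nat.card (nrm x ⊓ MulAction.stabilizer G a₀ : Subgroup G) : ℂ) := by
    rw [hc] at hN
    push_cast at hN
    have : (ρ.character 1
        - 2 * (Nat.card (nrm x ⊓ MulAction.stabilizer G a₀ : Subgroup G) : ℂ)) * p = 0 := by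
      linear_combination hN
    exact sub_eq_zero.1 ((mul_eq_zero.1 this).resolve_right hp0)
  have htrU : LinearMap.trace ℂ V (avg ρ (nrm x ⊓ MulAction.stabilizer G a₀)) = 2 := by
    rw [trace_avg, hk, hdeg]
    have := card_ne_zero_of_subgroup (nrm x ⊓ MulAction.stabilizer G a₀)
    field_simp
  have e1 := avg_eq_of_le ρ hUa (htrU.trans (htrT a₀).symm)
  have e2 := avg_eq_of_le ρ hUb (htrU.trans (htrT b₀).symm)
  have hfl : ∀ a b : Ω, avg ρ (MulAction.stabilizer G a ⊓ (sgn G Ω).ker)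
      = avg ρ (MulAction.stabilizer G b ⊓ (sgn G Ω).ker) →
      ∀ t ∈ MulAction.stabilizer G a ⊓ (sgn G Ω).ker, t • b = b := by
    intro a b heq t ht
    refine fix_lemma ρ hsum b (hne b) ?_
    calc ρ t * avg ρ (MulAction.stabilizer G b)
        = ρ t * (avg ρ (MulAction.stabilizer G b ⊓ (sgn G Ω).ker)
            * avg ρ (MulAction.stabilizer G b)) := by rw [avg_mul_avg_of_le ρ inf_le_left]
      _ = (ρ t * avg ρ (MulAction.stabilizer G a ⊓ (sgn G Ω).ker))
            * avg ρ (MulAction.stabilizer G b) := by rw [← heq, mul_assoc]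
      _ = avg ρ (MulAction.stabilizer G a ⊓ (sgn G Ω).ker)
            * avg ρ (MulAction.stabilizer G b) := by rw [rho_mul_avg ρ ht]
      _ = avg ρ (MulAction.stabilizer G b) := by rw [heq, avg_mul_avg_of_le ρ inf_le_left]
  have hTeq : MulAction.stabilizer G a₀ ⊓ (sgn G Ω).ker
      = MulAction.stabilizer G b₀ ⊓ (sgn G Ω).ker :=
    le_antisymm (fun t ht => ⟨hfl a₀ b₀ (e1.symm.trans e2) t ht, ht.2⟩)
      (fun t ht => ⟨hfl b₀ a₀ (e2.symm.trans e1) t ht, ht.2⟩)
  have hconj : ∀ g h : G, sgn G Ω (g * h * g⁻¹) = sgn G Ω h := by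
    intro g h
    rw [map_mul, map_mul, map_inv, mul_comm (sgn G Ω g), mul_assoc, mul_inv_cancel, mul_one]
  have hnorm : ∀ b : Ω, MulAction.stabilizer G b
      ≤ normalizer ((MulAction.stabilizer G b ⊓ (sgn G Ω).ker : Subgroup G) : Set G) := by
    intro b g hg
    rw [mem_normalizer_iff]
    intro h
    simp only [SetLike.mem_coe, Subgroup.mem_inf, MonoidHom.mem_ker, hconj]
    have h3 : g * h * g⁻¹ ∈ MulAction.stabilizer G b ↔ h ∈ MulAction.stabilizer G b := by
      rw [Subgroup.mul_mem_cancel_right _ (inv_mem hg), Subgroup.mul_mem_cancel_left _ hg]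
    rw [h3]
  have hco : IsCoatom (MulAction.stabilizer G a₀) :=
    MulAction.IsPreprimitive.isCoatom_stabilizer_of_isPreprimitive G a₀
  have hMtop : normalizer ((MulAction.stabilizer G a₀ ⊓ (sgn G Ω).ker : Subgroup G) : Set G)
      = ⊤ := by
    by_contra hne'
    have h0 := (hco.le_iff_eq hne').1 (hnorm a₀)
    obtain ⟨h, hhb, hha⟩ := exists_moves (G := G) hnp hba.symm
    apply hha
    have h1 : h ∈ normalizer ((MulAction.stabilizer G a₀ ⊓ (sgn G Ω).ker : Subgroup G) : Set G) := by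
      rw [hTeq]
      exact hnorm b₀ hhb
    rw [h0] at h1
    exact h1
  have hTbot : MulAction.stabilizer G a₀ ⊓ (sgn G Ω).ker = ⊥ := by
    rw [eq_bot_iff_forall]
    intro t ht
    refine FaithfulSMul.eq_of_smul_eq_smul (α := Ω) fun c => ?_
    obtain ⟨g, rfl⟩ := MulAction.exists_smul_eq G a₀ c
    have hg : g⁻¹ ∈ normalizer ((MulAction.stabilizer G a₀ ⊓ (sgn G Ω).ker : Subgroup G) : Set G) := by
      rw [hMtop]; trivial
    have h1 := ((mem_normalizer_iff.1 hg) t).1 ht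
    have h2 : (g⁻¹ * t * g⁻¹⁻¹) • a₀ = a₀ := h1.1
    rw [inv_inv, mul_smul, mul_smul, inv_smul_eq_iff] at h2
    rw [h2, one_smul]
  have hc2 : Nat.card (MulAction.stabilizer G a₀) = 2 := by
    rw [hTcard, hTbot, card_bot]
  have : Fact (Nat.Prime 2) := ⟨Nat.prime_two⟩
  have hpg : IsPGroup 2 (MulAction.stabilizer G a₀) := IsPGroup.of_card (n := 1) (by rw [hc2]; rfl)
  obtain ⟨Q, hQ⟩ := hpg.exists_le_sylow
  by_cases hQtop : (Q : Subgroup G) = ⊤
  · obtain ⟨k, hk⟩ := Q.2 ⟨x, by rw [hQtop]; trivial⟩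
    have hk' : x ^ (2 ^ k) = 1 := by simpa using congrArg Subtype.val hk
    have h1 := orderOf_dvd_of_pow_eq_one hk'
    rw [hx] at h1
    exact hp2 ((Nat.prime_dvd_prime_iff_eq hp Nat.prime_two).1 (hp.dvd_of_dvd_pow h1))
  · have h0 := (hco.le_iff_eq hQtop).1 hQ
    have hnd := Q.not_dvd_index
    rw [h0, MulAction.index_stabilizer_of_transitive, Nat.card_eq_fintype_card, hcard] at hnd
    exact hnd (dvd_mul_right 2 p)

end Step6

end Cfsg.Agent.Lib.Helper96
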